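import Cfsg.Agent.H53.UwDefs

/-!
# Project UW, piece BR: the bridge to `PSU`
-/

set_option autoImplicit false

namespace Cfsg.Agent.H61.UwBr

open Module Cfsg.Agent.H31 Cfsg.Agent.H53.Uw
open scoped commutatorElement

universe u v

/-- A central complement. -/
theorem abs {Γ : Type u} {G : Type v} [Group Γ] [Group G] (S Z : Subgroup Γ)
    (hZ : ∀ z ∈ Z, ∀ g, z * g = g * z) (hi : ∀ z ∈ Z, z ∈ S → z = 1)
    (hd : ∀ g, ∃ s ∈ S, ∃ z ∈ Z, g = s * z) (hc : ∀ a b : Γ, ⁅a, b⁆ ∈ S) (e : S ≃* G) :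
    ∃ f : Γ →* G, Function.Surjective f ∧ f.ker = Z ∧
      ∀ a b, f a * f b = f b * f a → a * b = b * a := by
  haveI : Z.Normal := ⟨fun z hz g => by rw [← hZ z hz g, mul_inv_cancel_right]; exact hz⟩
  let φ : S →* Γ ⧸ Z := (QuotientGroup.mk' Z).comp S.subtype
  have hφ : Function.Bijective φ := by
    constructor
    · rw [injective_iff_map_eq_one]
      intro s hs
      exact Subtype.ext (hi _ ((QuotientGroup.eq_one_iff _).1 hs) s.2)
    · intro x
      obtain ⟨g, rfl⟩ := QuotientGroup.mk_surjective x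
      obtain ⟨s, hs, z, hz, rfl⟩ := hd g
      refine ⟨⟨s, hs⟩, ?_⟩
      change ((s : Γ) : Γ ⧸ Z) = _
      rw [QuotientGroup.eq]
      simpa using hz
  let ψ : Γ ⧸ Z ≃* G := (MulEquiv.ofBijective φ hφ).symm.trans e
  let f : Γ →* G := ψ.toMonoidHom.comp (QuotientGroup.mk' Z)
  have hk : ∀ g, f g = 1 ↔ g ∈ Z := fun g => by
    change ψ (g : Γ ⧸ Z) = 1 ↔ _
    rw [map_eq_one_iff ψ ψ.injective, QuotientGroup.eq_one_iff]
  refine ⟨f, ψ.surjective.comp (QuotientGroup.mk'_surjective Z), Subgroup.ext hk, fun a b h => ?_⟩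
  have h1 : f ⁅a, b⁆ = 1 := by
    rw [map_commutatorElement, commutatorElement_eq_one_iff_mul_comm, h]
  exact commutatorElement_eq_one_iff_mul_comm.1 (hi _ ((hk _).1 h1) (hc a b))

section Geo

variable {E V : Type u} [Field E] [AddCommGroup V] [Module E V] [FiniteDimensional E V]

theorem det_scalar {g : V ≃ₗ[E] V} {a : E} (h : ∀ x, g x = a • x) :
    LinearMap.det (g : V →ₗ[E] V) = a ^ finrank E V := by
  have : (g : V →ₗ[E] V) = a • LinearMap.id := LinearMap.ext h
  rw [this, LinearMap.det_smul, LinearMap.det_id, mul_one]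

end Geo

/-- **BR** -/
theorem br : BrStmt.{u, v} := by
  intro G _ n q F _ _ hF hn hco ⟨eG⟩
  have hq := two_le_of_card_sq hF
  have hB := isHerm_hermB hF n
  haveI : Nontrivial (Fin n → F) :=
    Module.nontrivial_of_finrank_pos (R := F) (by rw [finrank_fin]; omega)
  have hd : ∀ g : isom (hermB hF n), ∃ s z : isom (hermB hF n), s.1 ∈ sisom (hermB hF n) ∧
      z ∈ Zc (hermB hF n) ∧ g = s * z := by
    intro g
    have h1 := hB.det_norm g.2
    set d := LinearMap.det (g.1 : (Fin n → F) →ₗ[F] (Fin n → F)) with hdd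
    rw [frobQ_apply, ← pow_succ'] at h1
    have d0 : d ≠ 0 := by
      rintro h0
      rw [h0, zero_pow (by omega)] at h1
      exact zero_ne_one h1
    obtain ⟨k, -, hk⟩ := Nat.exists_mul_mod_eq_one_of_coprime hco (by omega : 1 < q + 1)
    have hz : ∀ x : Fin n → F, LinearEquiv.smulOfNeZero F (Fin n → F) (d ^ k) (pow_ne_zero _ d0) x =
        d ^ k • x := fun x => rfl
    have hzi := mem_isom_of_smul (B := hermB hF n) hz (by
      rw [frobQ_apply, ← pow_succ', ← pow_mul, mul_comm, pow_mul, h1, one_pow])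
    have hdz := det_scalar hz
    rw [finrank_fin, ← pow_mul, mul_comm k, ← Nat.div_add_mod (n * k) (q + 1), hk, pow_add, pow_mul,
      h1, one_pow, one_mul, pow_one] at hdz
    refine ⟨g * (⟨_, hzi⟩ : isom (hermB hF n))⁻¹, ⟨_, hzi⟩, ?_, ⟨_, hz⟩, by group⟩
    refine mem_sisom.2 ⟨Subtype.property _, ?_⟩
    rw [Subgroup.coe_mul, Subgroup.coe_inv, map_mul, map_inv, mul_inv_eq_one]
    apply Units.ext
    rw [LinearEquiv.coe_det, LinearEquiv.coe_det, hdz]
  have hc : Subgroup.center (SU n F q) = ⊥ := by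
    rw [← Subgroup.card_eq_one, card_center_SU hF (by omega)]
    exact hco
  let e : (sisom (hermB hF n)).subgroupOf (isom (hermB hF n)) ≃* G :=
    (Subgroup.subgroupOfEquivOfLe sisom_le_isom).trans ((suEquiv hF n).symm.trans
      (QuotientGroup.quotientBot.symm.trans
        ((QuotientGroup.quotientMulEquivOfEq hc.symm).trans eG.symm)))
  refine (abs _ (Zc (hermB hF n)) (fun z hz g => Zc_comm hz g) ?_ ?_ ?_ e).imp
    fun f h => ⟨h.1, h.2.1, h.2.2, hd⟩
  · rintro z ⟨a, ha⟩ hz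
    have e1 := (mem_sisom'.1 (Subgroup.mem_subgroupOf.1 hz)).2
    rw [det_scalar ha, finrank_fin] at e1
    have e2 := hB.norm_eq_one_of_smul ha z.2
    rw [frobQ_apply, ← pow_succ'] at e2
    have e3 : a = 1 := by
      have := pow_gcd_eq_one.2 ⟨e1, e2⟩
      rwa [hco, pow_one] at this
    exact isom_ext fun x => by rw [ha, e3, one_smul]; rfl
  · intro g
    obtain ⟨s, z, hs, hz, e⟩ := hd g
    exact ⟨s, Subgroup.mem_subgroupOf.2 hs, z, hz, e⟩
  · intro a b
    refine Subgroup.mem_subgroupOf.2 (mem_sisom.2 ⟨Subtype.property _, ?_⟩)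
    have : LinearEquiv.det ((isom (hermB hF n)).subtype ⁅a, b⁆) = 1 := by
      rw [map_commutatorElement, map_commutatorElement, commutatorElement_eq_one_iff_mul_comm,
        mul_comm]
    exact this

end Cfsg.Agent.H61.UwBr
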