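import Mathlib

set_option autoImplicit false

/-! A noncommutative column Jacobi-Trudi identity and chain counting in a graded poset. -/

namespace Cfsg.Agent.H61.St

open Finset Equiv

section Ring
variable {R : Type*} [Ring R] (h : ℕ → R)

/-- the row ordered Hessenberg determinant with shifted first column -/
noncomputable def D (n a : ℕ) : R := ∑ κ : Perm (Fin n), if ∀ i : Fin n, (κ i).val ≤ 1 + i.val then
  (Perm.sign κ : ℤ) • (List.ofFn fun i : Fin n => h (1 + i - κ i + if (κ i).val = 0 then a else 0)).prod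
  else 0

theorem D_zero (a : ℕ) : D h 0 a = 1 := by simp [D]

theorem D_one (a : ℕ) : D h 1 a = h (1 + a) := by simp [D]

theorem D_succ (h0 : h 0 = 1) (n a : ℕ) :
    D h (n + 2) a = h (1 + a) * D h (n + 1) 0 - D h (n + 1) (a + 1) := by
  rw [D, univ_perm_fin_succ, sum_map, Fintype.sum_prod_type, Fin.sum_univ_succ, Fin.sum_univ_succ,
    sum_eq_zero (s := univ) (f := fun i : Fin n => _) fun p _ => sum_eq_zero fun e _ => if_neg fun H => by
      simpa using H 0, add_zero, D, D, mul_sum, sub_eq_add_neg, ← sum_neg_distrib]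
  congr 1
  · refine sum_congr rfl fun e _ => ?_
    simp only [Equiv.coe_toEmbedding, Fin.forall_fin_succ (n := n + 1), List.ofFn_succ (n := n + 1),
      Perm.decomposeFin_symm_apply_zero, Perm.decomposeFin_symm_apply_succ, Perm.decomposeFin.symm_sign,
      swap_self, Equiv.refl_apply, Fin.val_succ, ← add_assoc, add_le_add_iff_right, Nat.add_sub_add_right]
    simp [-List.ofFn_succ, -zsmul_eq_mul]
  · refine sum_congr rfl fun e _ => ?_
    have : ∀ j : Fin (n + 1), (swap 0 (Fin.succ 0) j.succ : Fin (n + 2)).val =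
        if j.val = 0 then 0 else j.val + 1 := fun j => by
      cases j using Fin.cases with
      | zero => simp
      | succ j => rw [swap_apply_of_ne_of_ne (Fin.succ_ne_zero _) (by simp [Fin.ext_iff])]; simp
    simp only [Equiv.coe_toEmbedding, Fin.forall_fin_succ (n := n + 1), List.ofFn_succ (n := n + 1),
      Perm.decomposeFin_symm_apply_zero, Perm.decomposeFin_symm_apply_succ, Perm.decomposeFin.symm_sign,
      this, Fin.val_succ]
    have h1 : (∀ i : Fin (n + 1), (if (e i).val = 0 then 0 else (e i).val + 1) ≤ 1 + (i.val + 1)) ↔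
        ∀ i : Fin (n + 1), (e i).val ≤ 1 + i.val := forall_congr' fun i => by split_ifs <;> omega
    have h2 : ∀ i : Fin (n + 1), (1 + (i.val + 1) - (if (e i).val = 0 then 0 else (e i).val + 1) +
        if (if (e i).val = 0 then 0 else (e i).val + 1) = 0 then a else 0) =
        1 + i.val - (e i).val + if (e i).val = 0 then a + 1 else 0 := fun i => by
      by_cases c : (e i).val = 0 <;> simp [c] <;> omega
    simp only [h1, h2]
    split_ifs <;> simp_all

theorem D_closed (h0 : h 0 = 1) (n : ℕ) : ∀ a, D h (n + 1) a =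
    ∑ p ∈ antidiagonal n, (-1) ^ p.1 * h (1 + a + p.1) * D h p.2 0 := by
  induction n with
  | zero => simp [D_one, D_zero]
  | succ n ih =>
    intro a
    rw [D_succ h h0, Finset.Nat.sum_antidiagonal_succ, ih (a + 1), sub_eq_add_neg, ← sum_neg_distrib]
    simp [pow_succ, show ∀ x, 1 + (a + 1) + x = 1 + a + (x + 1) by omega]

theorem sum_D (h0 : h 0 = 1) (n : ℕ) :
    ∑ p ∈ antidiagonal (n + 1), (-1) ^ p.1 * h p.1 * D h p.2 0 = 0 := by
  rw [Finset.Nat.sum_antidiagonal_succ, D_closed h h0]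
  simp [h0, pow_succ, add_comm 1]

end Ring

section Poset
open Classical
variable {L : Type*} [PartialOrder L] [BoundedOrder L] [Fintype L] (d : L → ℕ)

/-- the operator of going up by `r` -/
noncomputable def up (r : ℕ) : Module.End ℂ (L → ℂ) where
  toFun f U := ∑ X, if U ≤ X ∧ d X = d U + r then f X else 0
  map_add' f g := by ext U; rw [Pi.add_apply, ← sum_add_distrib]; congr; ext; split_ifs <;> simp
  map_smul' c f := by ext U; simp [mul_sum]

omit [BoundedOrder L] in
theorem up_apply (r : ℕ) (f : L → ℂ) (U : L) :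
    up d r f U = ∑ X, if U ≤ X ∧ d X = d U + r then f X else 0 := rfl

/-- chains of a given type -/
def Ch {k : ℕ} (μ : Fin k → ℕ) (U : L) := {W : Fin (k + 1) → L // W 0 = U ∧ W (Fin.last k) = ⊤ ∧
  ∀ i : Fin k, W i.castSucc ≤ W i.succ ∧ d (W i.succ) = d (W i.castSucc) + μ i}

theorem card_Ch (k : ℕ) : ∀ (μ : Fin k → ℕ) (U : L), (Nat.card (Ch d μ U) : ℂ) =
    (List.ofFn fun i => up d (μ i)).prod (Pi.single ⊤ 1) U := by
  induction k with
  | zero =>
    intro μ U
    by_cases h : U = ⊤
    · subst h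
      have : Unique (Ch d μ ⊤) := ⟨⟨⟨fun _ => ⊤, by simp⟩⟩, fun W => Subtype.ext (funext fun i => by
        rw [Fin.fin_one_eq_zero i]; exact W.2.1)⟩
      simp
    · have : IsEmpty (Ch d μ U) := ⟨fun W => h (W.2.1.symm.trans W.2.2.1)⟩
      simp [h]
  | succ k ih =>
    intro μ U
    have e : Ch d μ U ≃ Σ X : {X // U ≤ X ∧ d X = d U + μ 0}, Ch d (fun i => μ i.succ) X.1 :=
      { toFun := fun W => ⟨⟨W.1 1, by simpa [W.2.1] using W.2.2.2 0⟩, Fin.tail W.1, rfl, W.2.2.1,
          fun i => W.2.2.2 i.succ⟩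
        invFun := fun p => ⟨Fin.cons U p.2.1, rfl, p.2.2.2.1, fun i => by
          cases i using Fin.cases with
          | zero => simpa [p.2.2.1] using p.1.2
          | succ i => exact p.2.2.2.2 i⟩
        left_inv := fun ⟨W, h, _⟩ => Subtype.ext (h ▸ Fin.cons_self_tail W)
        right_inv := fun ⟨⟨X, hX⟩, W, h, hW⟩ => by dsimp only at h; subst h; rfl }
    have : ∀ X, Finite (Ch d (fun i => μ i.succ) X) := fun X => Subtype.finite
    rw [Nat.card_congr e, Nat.card_sigma, List.ofFn_succ, List.prod_cons, Module.End.mul_apply, up_apply,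
      ← sum_filter, sum_subtype (F := inferInstance) (p := fun X => U ≤ X ∧ d X = d U + μ 0) _ (by simp)]
    simp [ih]

theorem D_apply (hd : StrictMono d) (d0 : d ⊥ = 0) (Φ : L → ℂ)
    (hΦ : ∀ W, ∑ X, (if X ≤ W then Φ X else 0) = if W = ⊥ then 1 else 0) :
    D (up d) (d ⊤) 0 (Pi.single ⊤ 1) ⊥ = (-1) ^ d ⊤ * Φ ⊤ := by
  have h0 : up d 0 = 1 := by
    refine LinearMap.ext fun f => funext fun U => ?_
    rw [up_apply, sum_eq_single U (fun X _ hX => if_neg fun h => hX (h.1.eq_or_lt.elim Eq.symm fun l =>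
      absurd (hd l) (by omega))) (by simp)]
    simp
  let ε : L → ℂ := fun U => (-1) ^ d U * D (up d) (d ⊤ - d U) 0 (Pi.single ⊤ 1) U
  have hε : ∀ U, ∑ X, (if U ≤ X then ε X else 0) = if U = ⊤ then (-1) ^ d ⊤ else 0 := fun U => by
    have e1 : ∑ X, (if U ≤ X then ε X else 0) = (-1) ^ d U * (∑ p ∈ antidiagonal (d ⊤ - d U),
        (-1) ^ p.1 * up d p.1 * D (up d) p.2 0) (Pi.single ⊤ 1) U := by
      have sg : ∀ (r : ℕ) (f : L → ℂ), ((-1) ^ r : Module.End ℂ (L → ℂ)) f = (-1 : ℂ) ^ r • f :=
        fun r f => by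
          induction r with
          | zero => simp
          | succ r ih => rw [pow_succ', Module.End.mul_apply, ih, pow_succ']; simp
      simp only [LinearMap.sum_apply, Finset.sum_apply, Module.End.mul_apply, sg, Pi.smul_apply, up_apply,
        smul_eq_mul, mul_sum]
      rw [sum_comm]
      refine sum_congr rfl fun X _ => ?_
      split_ifs with h
      · have h1 := hd.monotone h
        have h2 := hd.monotone (le_top (a := X))
        rw [sum_eq_single (d X - d U, d ⊤ - d X) (fun p hp hne => by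
          rw [if_neg, mul_zero, mul_zero]
          rintro ⟨-, e⟩
          rw [HasAntidiagonal.mem_antidiagonal] at hp
          exact hne (Prod.ext (by simp; omega) (by simp; omega))) (fun n => absurd (by simp; omega) n),
          if_pos ⟨h, by simp; omega⟩, ← mul_assoc, ← pow_add, Nat.add_sub_cancel' h1]
      · simp [h]
    rw [e1]
    split_ifs with h
    · simp [h, D_zero, h0]
    · obtain ⟨m, hm⟩ : ∃ m, d ⊤ - d U = m + 1 := ⟨d ⊤ - d U - 1, by have := hd (Ne.lt_top h); omega⟩
      simp [hm, sum_D _ h0]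
  have e1 : ∑ X, ∑ Y, (if X ≤ Y then Φ X * ε Y else 0) = Φ ⊤ * (-1) ^ d ⊤ := by
    have : ∀ X, ∑ Y, (if X ≤ Y then Φ X * ε Y else 0) = Φ X * if X = ⊤ then (-1) ^ d ⊤ else 0 :=
      fun X => by rw [← hε, mul_sum]; simp
    simp [this]
  have e2 : ∑ X, ∑ Y, (if X ≤ Y then Φ X * ε Y else 0) = ε ⊥ := by
    have : ∀ Y, ∑ X, (if X ≤ Y then Φ X * ε Y else 0) = (if Y = ⊥ then 1 else 0) * ε Y :=
      fun X => by rw [← hΦ, sum_mul]; simp
    rw [sum_comm]
    simp [this]
  simpa [ε, d0, mul_comm] using e2.symm.trans e1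

end Poset

end Cfsg.Agent.H61.St
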