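import Cfsg.Agent.H76.Unip

set_option autoImplicit false

/-! The Moebius function of the submodule lattice of a finite semisimple `F[X]`-module. -/

namespace Cfsg.Agent.H61.St

open Polynomial Module UniqueFactorizationMonoid Finset

universe u v

variable (F : Type u) [Field F]

/-- the characteristic polynomial of `X` on a finite `F[X]`-module -/
noncomputable def chp (M : Type*) [AddCommGroup M] [Module F M] [Module F[X] M]
    [IsScalarTower F F[X] M] [Finite M] : F[X] :=
  ((LinearMap.lsmul F[X] M X).restrictScalars F).charpoly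

section
variable {F} {M N : Type*} [AddCommGroup M] [Module F M] [Module F[X] M] [IsScalarTower F F[X] M]
  [Finite M] [AddCommGroup N] [Module F N] [Module F[X] N] [IsScalarTower F F[X] N] [Finite N]

theorem chp_monic : (chp F M).Monic := LinearMap.charpoly_monic _

theorem chp_congr (e : M ≃ₗ[F[X]] N) : chp F M = chp F N :=
  H76.Sim.charpoly_eq ⟨e.restrictScalars F, fun v => e.map_smul X v⟩

theorem chp_compl {a b : Submodule F[X] M} (h : IsCompl a b) : chp F M = chp F a * chp F b := by
  rw [← chp_congr (a.prodEquivOfIsCompl b h), chp, chp, chp, ← LinearMap.charpoly_prodMap]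
  rfl

theorem chp_simple [Finite F] [IsSimpleModule F[X] M] : Irreducible (chp F M) ∧
    Nonempty (M ≃ₗ[F[X]] F[X] ⧸ Ideal.span {chp F M}) := by
  classical
  obtain ⟨I, hI, ⟨e⟩⟩ := isSimpleModule_iff_quot_maximal.1 ‹_›
  obtain ⟨g, rfl⟩ : ∃ g, I = Ideal.span {g} := IsPrincipalIdealRing.principal I |>.1
  have g0 : g ≠ 0 := fun h => Ring.ne_bot_of_isMaximal_of_not_isField hI (not_isField F) (by simp [h])
  have gi := ((Ideal.span_singleton_prime g0).1 hI.isPrime).irreducible
  have as := normalize_associated g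
  rw [← Ideal.span_singleton_eq_span_singleton.2 as] at e
  have : Finite (F[X] ⧸ Ideal.span {normalize g}) := Finite.of_equiv _ e.toEquiv
  have : Finite (AdjoinRoot (normalize g)) := this
  have h : chp F M = normalize g := by
    rw [chp_congr e]
    refine Eq.trans (congrArg LinearMap.charpoly (LinearMap.ext fun v => ?_))
      (H76.charpoly_cyc (monic_normalize g0))
    exact Algebra.smul_def (A := F[X] ⧸ Ideal.span {normalize g}) (X : F[X]) v
  rw [h]
  exact ⟨as.irreducible_iff.2 gi, ⟨e⟩⟩

theorem card_hom_simple [Finite F] [DecidableEq F] [IsSimpleModule F[X] M] [IsSimpleModule F[X] N] :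
    Nat.card (M →ₗ[F[X]] N) =
      if chp F N = chp F M then Nat.card F ^ (chp F N).natDegree else 1 := by
  split_ifs with h
  · obtain ⟨-, ⟨e⟩⟩ := chp_simple (F := F) (M := M)
    obtain ⟨-, ⟨e'⟩⟩ := chp_simple (F := F) (M := N)
    rw [← h] at e
    rw [Nat.card_congr (e.arrowCongr e').toEquiv, Nat.card_congr
      (LinearMap.extendScalarsOfSurjectiveEquiv (S := F[X] ⧸ Ideal.span {chp F N})
        Ideal.Quotient.mk_surjective).toEquiv, Nat.card_congr (LinearMap.ringLmapEquivSelf _ ℕ _).toEquiv]
    exact H76.card_adjoinRoot chp_monic.ne_zero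
  · refine Nat.card_eq_one_iff_exists.2 ⟨0, fun f => f.bijective_or_eq_zero.resolve_left fun b => h ?_⟩
    exact (chp_congr (LinearEquiv.ofBijective f b)).symm

end

variable {F} [Finite F] [DecidableEq F]

theorem nf_mul {f h : F[X]} (hf : f.Monic) (hi : Irreducible f) (hh : h ≠ 0) :
    normalizedFactors (f * h) = f ::ₘ normalizedFactors h := by
  rw [normalizedFactors_mul hf.ne_zero hh, normalizedFactors_irreducible hi, hf.normalize_eq_self,
    Multiset.singleton_add]

theorem card_hom {N : Type*} [AddCommGroup N] [Module F N] [Module F[X] N] [IsScalarTower F F[X] N]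
    [Finite N] [IsSimpleModule F[X] N] (n : ℕ) : ∀ (M : Type v) [AddCommGroup M] [Module F M]
    [Module F[X] M] [IsScalarTower F F[X] M] [Finite M] [IsSemisimpleModule F[X] M], Nat.card M = n →
    Nat.card (M →ₗ[F[X]] N) =
      Nat.card F ^ ((chp F N).natDegree * (normalizedFactors (chp F M)).count (chp F N)) := by
  induction n using Nat.strong_induction_on with
  | _ n ih =>
  intro M _ _ _ _ _ _ hn
  rcases subsingleton_or_nontrivial M with h | h
  · have : chp F M = 1 := chp_monic.natDegree_eq_zero.1 (by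
      rw [chp, LinearMap.charpoly_natDegree, finrank_zero_of_subsingleton])
    simp [this]
  obtain ⟨a, ha⟩ := IsSemisimpleModule.exists_simple_submodule F[X] M
  obtain ⟨b, hb⟩ := exists_isCompl a
  have lt : Nat.card b < n := hn ▸ Finite.card_subtype_lt (Classical.choose_spec (show ∃ x, x ∉ b by
    by_contra h
    push Not at h
    rw [Submodule.eq_top_iff'.2 h] at hb
    exact (isSimpleModule_iff_isAtom.1 ha).1 (eq_bot_of_isCompl_top hb)))
  rw [← Nat.card_congr (LinearMap.ofIsComplProdEquiv hb).toEquiv, Nat.card_prod, ih _ lt b rfl,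
    card_hom_simple, chp_compl hb, nf_mul chp_monic (chp_simple (M := a)).1 chp_monic.ne_zero,
    Multiset.count_cons]
  split_ifs <;> ring

/-- the value of the Moebius function -/
noncomputable def Ψ (s : Multiset F[X]) : ℂ := ∏ f ∈ s.toFinset,
  (-1) ^ s.count f * (Nat.card F : ℂ) ^ (f.natDegree * s.count f * (s.count f - 1) / 2)

omit [Finite F] in
theorem Ψ_cons (f : F[X]) (s : Multiset F[X]) :
    Ψ (f ::ₘ s) = -(Nat.card F : ℂ) ^ (f.natDegree * s.count f) * Ψ s := by
  have : Ψ s = ∏ g ∈ insert f s.toFinset,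
      (-1) ^ s.count g * (Nat.card F : ℂ) ^ (g.natDegree * s.count g * (s.count g - 1) / 2) :=
    prod_subset (subset_insert _ _) fun g _ hg => by
      simp [Multiset.count_eq_zero.2 (mt Multiset.mem_toFinset.2 hg)]
  rw [this, Ψ, Multiset.toFinset_cons, ← mul_prod_erase _ _ (mem_insert_self f _),
    ← mul_prod_erase _ _ (mem_insert_self f _), ← mul_assoc, Multiset.count_cons_self]
  congr 1
  · have : f.natDegree * (s.count f + 1) * (s.count f + 1 - 1) / 2 =
        f.natDegree * s.count f + f.natDegree * s.count f * (s.count f - 1) / 2 := by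
      rw [← Nat.mul_add_div two_pos]
      congr 1
      rcases s.count f with _ | m <;> simp
      ring
    rw [this]
    ring
  · exact prod_congr rfl fun g hg => by rw [Multiset.count_cons_of_ne (ne_of_mem_erase hg)]

variable {M : Type v} [AddCommGroup M] [Module F M] [Module F[X] M] [IsScalarTower F F[X] M]
  [Finite M] [IsSemisimpleModule F[X] M]

open Classical in
theorem bracket (a : Submodule F[X] M) [IsSimpleModule F[X] a] [Fintype (Submodule F[X] M)] :
    ∑ b : Submodule F[X] M with IsCompl a b, Ψ (normalizedFactors (chp F b)) =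
      -Ψ (normalizedFactors (chp F M)) := by
  obtain ⟨c, hc⟩ := exists_isCompl a
  have e : {b // IsCompl a b} ≃ (c →ₗ[F[X]] a) := a.isComplEquivProj.trans
    { toFun := fun f => f.1.domRestrict c
      invFun := fun g => ⟨LinearMap.ofIsCompl hc LinearMap.id g, fun x => by simp⟩
      left_inv := fun f => Subtype.ext (LinearMap.ofIsCompl_eq' hc (LinearMap.ext fun x => (f.2 x).symm) rfl)
      right_inv := fun g => LinearMap.ext fun x => by simp }
  rw [sum_congr rfl fun b hb => show _ = Ψ (normalizedFactors (chp F c)) by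
    rw [mul_left_cancel₀ chp_monic.ne_zero ((chp_compl (mem_filter.1 hb).2).symm.trans (chp_compl hc))],
    sum_const, ← Fintype.card_subtype, ← Nat.card_eq_fintype_card, Nat.card_congr e, card_hom _ _ rfl,
    chp_compl hc, nf_mul chp_monic (chp_simple (M := a)).1 chp_monic.ne_zero, Ψ_cons]
  simp

open Classical in
theorem sum_Ψ [Fintype (Submodule F[X] M)] (W : Submodule F[X] M) :
    ∑ Y : Submodule F[X] M, (if Y ≤ W then Ψ (normalizedFactors (chp F Y)) else 0) =
      if W = ⊥ then 1 else 0 := by
  split_ifs with h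
  · have : chp F (⊥ : Submodule F[X] M) = 1 := chp_monic.natDegree_eq_zero.1 (by
      rw [chp, LinearMap.charpoly_natDegree, finrank_zero_of_subsingleton])
    simp [h, this, Ψ]
  obtain ⟨a, ha, aW⟩ := (eq_bot_or_exists_atom_le W).resolve_left h
  rw [← sum_fiberwise (s := univ) (g := fun Y => a ⊔ Y)]
  refine sum_eq_zero fun Y _ => ?_
  by_cases hY : a ≤ Y ∧ Y ≤ W
  · have := Fintype.ofFinite (Submodule F[X] Y)
    let a' := (Y.mapIic).symm ⟨a, hY.1⟩
    have e : (Y.mapIic a' : Submodule F[X] M) = a := by simp [a']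
    have : IsSimpleModule F[X] a' := by
      have := isSimpleModule_iff_isAtom.2 ha
      exact IsSimpleModule.congr ((Y.equivSubtypeMap a').trans (LinearEquiv.ofEq _ _ e))
    have hb := bracket a'
    rw [← add_sum_erase _ _ (a := Y) (by simpa using hY.1), if_pos hY.2, add_eq_zero_iff_neg_eq, ← hb]
    have key : ∀ b : Submodule F[X] Y, IsCompl a' b ↔ Disjoint a (b.map Y.subtype) ∧
        a ⊔ b.map Y.subtype = Y := fun b => by
      rw [Y.mapIic.isCompl_iff, Set.Iic.isCompl_iff, e]; rfl
    refine sum_nbij' (fun b => b.map Y.subtype) (fun Z => Z.comap Y.subtype) (fun b hb => ?_)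
      (fun Z hZ => ?_) (fun b _ => Submodule.comap_map_eq_of_injective Y.injective_subtype _)
      (fun Z hZ => ?_) fun b _ => ?_
    · have := (key b).1 (by simpa using hb)
      simp only [mem_erase, mem_filter, mem_univ, true_and]
      exact ⟨fun e => ha.1 (this.1.eq_bot_of_le (e.symm ▸ hY.1)), this.2⟩
    · simp only [mem_erase, mem_filter, mem_univ, true_and] at hZ ⊢
      rw [key, Submodule.map_comap_subtype, inf_eq_right.2 (hZ.2 ▸ le_sup_right)]
      exact ⟨ha.not_le_iff_disjoint.1 fun l => hZ.1 (by rw [← hZ.2, sup_eq_right.2 l]), hZ.2⟩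
    · simp only [mem_erase, mem_filter, mem_univ, true_and] at hZ
      rw [Submodule.map_comap_subtype, inf_eq_right.2 (hZ.2 ▸ le_sup_right)]
    · rw [if_pos ((Submodule.map_subtype_le _ _).trans hY.2), chp_congr (Y.equivSubtypeMap b)]
  · refine sum_eq_zero fun Z hZ => if_neg fun l => hY ?_
    rw [← (mem_filter.1 hZ).2]
    exact ⟨le_sup_left, sup_le aW l⟩

end Cfsg.Agent.H61.St
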