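import Cfsg.Agent.H61.C3T16A

/-! A self-centralizing elementary abelian subgroup of order 16 without transvections. -/

set_option autoImplicit false

namespace Cfsg.Agent.H61.C3T

open Subgroup Cfsg.Agent.H62 Cfsg.Agent.H9.C3

universe u

variable {G : Type u} [Group G]

/-- the conjugate `g H g⁻¹` -/
def cj (g : G) (H : Subgroup G) : Subgroup G := H.comap (MulAut.conj g⁻¹).toMonoidHom

theorem mem_cj {g x : G} {H : Subgroup G} : x ∈ cj g H ↔ g⁻¹ * x * g ∈ H := by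
  simp [cj]

theorem conj_mem_cj {g x : G} {H : Subgroup G} : g * x * g⁻¹ ∈ cj g H ↔ x ∈ H := by
  rw [mem_cj, show g⁻¹ * (g * x * g⁻¹) * g = x by group]

theorem cj_mul (g k : G) (H : Subgroup G) : cj (g * k) H = cj g (cj k H) := by
  ext x
  simp only [mem_cj, mul_inv_rev, mul_assoc]

theorem cj_one (H : Subgroup G) : cj 1 H = H := by
  ext x
  simp [mem_cj]

theorem cj_inj {g : G} {H K : Subgroup G} (h : cj g H = cj g K) : H = K := by
  rw [← cj_one H, ← cj_one K, ← inv_mul_cancel g, cj_mul, cj_mul, h]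

theorem card_cj (g : G) (H : Subgroup G) : Nat.card (cj g H) = Nat.card H :=
  Nat.card_congr ⟨fun x => ⟨g⁻¹ * x * g, mem_cj.1 x.2⟩, fun x => ⟨g * x * g⁻¹, conj_mem_cj.2 x.2⟩,
    fun x => Subtype.ext (by group), fun x => Subtype.ext (by group)⟩

theorem cj_eq_iff {g : G} {H : Subgroup G} : cj g H = H ↔ g ∈ Nm H := by
  rw [mem_normalizer_iff, SetLike.ext_iff]
  refine ⟨fun h x => ?_, fun h x => ?_⟩
  · exact (conj_mem_cj.symm.trans (h _))
  · rw [mem_cj, SetLike.mem_coe.symm.trans (h _), show g * (g⁻¹ * x * g) * g⁻¹ = x by group]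

theorem ea_cj {H : Subgroup G} (h : EA H) (g : G) : EA (cj g H) := fun x hx => by
  have := h _ (mem_cj.1 hx)
  calc x * x = g * (g⁻¹ * x * g * (g⁻¹ * x * g)) * g⁻¹ := by group
    _ = 1 := by rw [this]; group

theorem cj_le {H K : Subgroup G} {g : G} (h : H ≤ K) (hg : g ∈ Nm K) : cj g H ≤ K := fun x hx => by
  have := conj_mem_of_norm hg (h (mem_cj.1 hx))
  rwa [show g * (g⁻¹ * x * g) * g⁻¹ = x by group] at this

theorem nm_cj {H : Subgroup G} {g t : G} : t ∈ Nm (cj g H) ↔ g⁻¹ * t * g ∈ Nm H := by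
  rw [← cj_eq_iff, ← cj_eq_iff, cj_mul, cj_mul]
  refine ⟨fun e => ?_, fun e => cj_inj (g := g⁻¹) ?_⟩
  · rw [e, ← cj_mul, inv_mul_cancel, cj_one]
  · rw [e, ← cj_mul, inv_mul_cancel, cj_one]

theorem free_cj [Finite G] {T : Subgroup G} (h : Free T) (g : G) : Free (cj g T) := by
  refine ⟨ea_cj h.ea g, by rw [card_cj, h.card], fun x hx => mem_cj.2 (h.cen fun a ha => ?_),
    fun t ht h1 h2 => ?_⟩
  · have := hx _ (conj_mem_cj.2 ha)
    calc a * (g⁻¹ * x * g) = g⁻¹ * (g * a * g⁻¹ * x) * g := by group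
      _ = _ := by rw [this]; group
  · have := h.free _ (nm_cj.1 ht) (mt mem_cj.2 h1) (by
      convert mem_cj.1 h2 using 1
      group)
    rw [← card_cj g] at this
    refine le_trans (card_le_of_le ?_) this
    refine fun x hx => mem_cj.2 ⟨mem_cj.1 hx.1, mem_C1.2 ?_⟩
    calc _ = g⁻¹ * (x * t) * g := by group
      _ = _ := by rw [mem_C1.1 hx.2]; group

theorem card_sup_inv [Finite G] {H : Subgroup G} {τ : G} (hc : ∀ a ∈ H, a * τ = τ * a)
    (h2 : τ * τ = 1) (h1 : τ ∉ H) :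
    Nat.card (H ⊔ zpowers τ : Subgroup G) = Nat.card H * 2 := by
  have o : orderOf τ = 2 := orderOf_two_of_sq h2 fun e => h1 (e ▸ H.one_mem)
  have c : Nat.card (zpowers τ) = 2 := by rw [Nat.card_zpowers, o]
  rw [H69.card_sup_comm, c]
  · rintro a ha _ ⟨k, rfl⟩
    exact (Commute.zpow_right (hc a ha) k).eq
  · have : Fact (Nat.card (zpowers τ)).Prime := ⟨c ▸ Nat.prime_two⟩
    rcases ((H ⊓ zpowers τ).subgroupOf (zpowers τ)).eq_bot_or_eq_top_of_prime_card with e | e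
    · rwa [subgroupOf_eq_bot, disjoint_iff, inf_assoc, inf_idem] at e
    · exact absurd (subgroupOf_eq_top.1 e (mem_zpowers τ)).1 h1

theorem exists_Z [Finite G] {S T : Subgroup G} (hS : IsPGroup 2 S) (hT : EA T) (hc : 2 < Nat.card T)
    (hle : T ≤ S) (hn : S ≤ Nm T) : ∃ Z ≤ T, Nat.card Z = 4 ∧ S ≤ Nm Z := by
  have nT : ∀ s ∈ S, ∀ y ∈ T, s * y * s⁻¹ ∈ T := fun s hs y hy => conj_mem_of_norm (hn hs) hy
  obtain ⟨z, hz, z1, zc⟩ := exists_central hS hle (by rintro rfl; simp at hc) nT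
  have cz : Nat.card (zpowers z) = 2 := by
    rw [Nat.card_zpowers, orderOf_two_of_sq (hT z hz) z1]
  have zT : zpowers z ≤ T := zpowers_le.2 hz
  have nz : ∀ s ∈ S, ∀ y ∈ zpowers z, s * y * s⁻¹ ∈ zpowers z := by
    rintro s hs _ ⟨k, rfl⟩
    have : s * z ^ k * s⁻¹ = z ^ k := by
      rw [← conj_zpow, zc s hs, mul_inv_cancel_right]
    exact ⟨k, this.symm⟩
  obtain ⟨y, hy, y1, yc⟩ := exists_central_mod hS hle zT
    (fun e => by have := card_le_of_le e; omega) nT nz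
  refine ⟨zpowers z ⊔ zpowers y, sup_le zT (zpowers_le.2 hy), ?_, fun s hs => ?_⟩
  · rw [card_sup_inv (fun a ha => hT.comm (zT ha) hy) (hT y hy) y1, cz]
  · refine mem_normalizer_of_forall fun x hx => ?_
    have : zpowers z ⊔ zpowers y ≤ (zpowers z ⊔ zpowers y).comap (MulAut.conj s).toMonoidHom := by
      refine sup_le (fun a ha => mem_sup_left (nz s hs a ha)) (zpowers_le.2 ?_)
      have := mul_mem_sup (yc s hs) (mem_zpowers y)
      rw [inv_mul_cancel_right] at this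
      exact this
    exact this hx

theorem t16 (hr : RStmt.{u}) : T16Stmt.{u} := by
  intro G _ _ T hT
  have : Fact (Nat.Prime 2) := ⟨Nat.prime_two⟩
  by_cases h256 : 256 ∣ Nat.card G
  swap
  · exact .inl h256
  right
  obtain ⟨S, hS⟩ := hT.ea.isPGroup.exists_le_sylow
  have cS : 256 ≤ Nat.card (S : Subgroup G) :=
    Nat.le_of_dvd Nat.card_pos (S.pow_dvd_card_of_pow_dvd_card (n := 8) h256)
  have p2 := S.isPGroup'
  set S1 : Subgroup G := S ⊓ Nm T with hS1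
  have p1 : IsPGroup 2 S1 := p2.to_le inf_le_left
  have T1 : T ≤ S1 := le_inf hS le_normalizer
  have hlt : S1 < S := by
    refine lt_of_le_of_ne inf_le_left fun e => ?_
    obtain ⟨Z, z1, z2, z3⟩ := exists_Z p1 hT.ea (by rw [hT.card]; norm_num) T1 inf_le_right
    obtain ⟨a, b, -⟩ := hr G T S1 Z hT p1 T1 inf_le_right z1 z2 z3
    have c1 := card_rel (centralizer (Z : Set G)) S1
    have c2 := card_rel T (S1 ⊓ centralizer (Z : Set G))
    have c3 := card_le_of_le (inf_le_right : S1 ⊓ centralizer (Z : Set G) ⊓ T ≤ T)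
    rw [hT.card] at c3
    rw [← e] at cS
    have c4 : Nat.card (S1 ⊓ centralizer (Z : Set G) : Subgroup G) ≤ 16 * 4 :=
      c2 ▸ Nat.mul_le_mul c3 a
    have := Nat.mul_le_mul c4 b
    omega
  obtain ⟨g, gS, g1, gn⟩ := H9.exists_mem_normalizer_of_lt p2 hlt
  set T' := cj g T with hT'
  have P : Pair S1 T T' := ⟨p1, hT, free_cj hT g, T1, cj_le T1 gn, inf_le_right,
    fun s hs => nm_cj.2 (conj_mem_of_norm' gn hs).2, fun e => g1 ⟨gS, cj_eq_iff.1 e.symm⟩⟩
  set S2 : Subgroup G := S ⊓ Nm S1 with hS2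
  have l12 : S1 ≤ S2 := le_inf inf_le_left le_normalizer
  have sw : ∀ x ∈ S2, x ∉ S1 → cj x T = T' ∧ cj x T' = T := fun x hx x1 => by
    have a := (P.e16 hr (ea_cj hT.ea x) (cj_le T1 hx.2) (by rw [card_cj, hT.card])).resolve_left
      fun e => x1 ⟨hx.1, cj_eq_iff.1 e⟩
    exact ⟨a, (P.e16 hr (ea_cj P.fr'.ea x) (cj_le P.le' hx.2)
      (by rw [card_cj, P.fr'.card])).resolve_right fun e => P.ne (cj_inj (a.trans e.symm))⟩
  have id2 : ∀ x ∈ S2, ∀ y ∈ S2, x ∉ S1 → y ∉ S1 → x * y ∈ S1 := fun x hx y hy x1 y1 =>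
    ⟨(S : Subgroup G).mul_mem hx.1 hy.1, cj_eq_iff.1 (by rw [cj_mul, (sw y hy y1).1, (sw x hx x1).2])⟩
  have fx : ∀ x ∈ S2, x ∉ S1 → ∀ a, x * a = a * x → (a ∈ T ↔ a ∈ T') := fun x hx x1 a e => by
    rw [← (sw x hx x1).1, mem_cj, mul_assoc, ← e, inv_mul_cancel_left]
  have e2 : S2 = S := by
    by_contra ne
    obtain ⟨k, kS, k1, kn⟩ := H9.exists_mem_normalizer_of_lt p2
      (lt_of_le_of_ne (inf_le_left : S2 ≤ S) ne)
    have bl : cj k T ≤ S2 := cj_le (T1.trans l12) kn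
    have be := ea_cj hT.ea k
    have bc : Nat.card (cj k T) = 16 := by rw [card_cj, hT.card]
    by_cases b1 : cj k T ≤ S1
    · rcases P.e16 hr be b1 bc with e | e
      · exact k1 (l12 ⟨kS, cj_eq_iff.1 e⟩)
      · have : g⁻¹ * k ∈ S1 := ⟨(S : Subgroup G).mul_mem ((S : Subgroup G).inv_mem gS) kS, cj_eq_iff.1 (by
          rw [cj_mul, e, hT', ← cj_mul, inv_mul_cancel, cj_one])⟩
        exact k1 ((S2.mul_mem_cancel_left (inv_mem (show g ∈ S2 from ⟨gS, gn⟩))).1 (l12 this))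
    obtain ⟨b, hb, b2⟩ := SetLike.not_le_iff_exists.1 b1
    have c1 := card_le_two (B := cj k T) (H := S1) fun x hx y hy => id2 x (bl hx) y (bl hy)
    have c2 := card_le_two (B := cj k T ⊓ S1) (H := CZ T T') fun x hx y hy => P.idx hr hx.2 hy.2
    have dz : cj k T ⊓ S1 ⊓ CZ T T' ≤ T ⊓ T' := fun d hd => by
      have := fx b (bl hb) b2 d (be.comm hb hd.1.1)
      rcases P.ea_le hr (be.mono (inf_le_left.trans inf_le_left) : EA (cj k T ⊓ S1 ⊓ CZ T T'))
        (inf_le_left.trans inf_le_right) inf_le_right with e | e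
      exacts [⟨e hd, this.1 (e hd)⟩, ⟨this.2 (e hd), e hd⟩]
    have c3 := card_le_of_le dz
    have c4 := P.cZ
    have e3 := eq_of_le_of_card_ge dz (by omega)
    have : cj k T ⊓ S1 ≤ T ⊓ T' := fun x hx => dz ⟨hx, mem_CZ.2 fun z a a' =>
      be.comm (show z ∈ cj k T ⊓ S1 ⊓ CZ T T' from e3 ▸ ⟨a, a'⟩).1.1 hx.1⟩
    have := card_le_of_le this
    omega
  obtain ⟨r, r1, r2⟩ : ∃ r ∈ S1, r ∉ CZ T T' := by
    by_contra hc
    push Not at hc
    have c1 := card_le_two id2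
    have c2 := P.cJ hr
    rw [inf_eq_left.2 hc] at c2
    rw [inf_eq_right.2 l12, e2] at c1
    omega
  obtain ⟨τ, t1, t2, t3⟩ := P.tau hr r1 r2
  have tT : τ ∉ T := fun m => t2 (P.leC m)
  have hc : ∀ a ∈ T ⊓ C1 τ, a * τ = τ * a := fun a ha => mem_C1.1 ha.2
  refine ⟨S, (T ⊓ C1 τ) ⊔ zpowers τ, sup_le (inf_le_left.trans hS) (zpowers_le.2 t1.1),
    (hT.ea.mono inf_le_left).sup (ea_zpowers t3) ?_, ?_, fun c cs cc => ?_⟩
  · rintro a ha _ ⟨k, rfl⟩
    exact (Commute.zpow_right (hc a ha) k).eq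
  · rw [card_sup_inv hc t3 fun m => tT m.1,
      (br hT t1.2 tT (by rw [t3]; exact T.one_mem)).1]
  · have c2 : ∀ a ∈ T ⊓ C1 τ, c * a = a * c := fun a ha => cc a (mem_sup_left ha)
    have cm : c ∈ S1 := by
      by_contra n
      exact P.not_le t1 t2 t3 fun a ha => (fx c (e2 ▸ cs) n a (c2 a ha)).1 ha.1
    rcases P.cent hr t1 t2 t3 cm (cc τ (mem_sup_right (mem_zpowers τ))) c2 with e | e
    · exact mem_sup_left e
    · have := mul_mem_sup e (inv_mem (mem_zpowers τ))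
      rwa [mul_inv_cancel_right] at this

end Cfsg.Agent.H61.C3T
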