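import Cfsg.Agent.H9.C3Defs
import Cfsg.Agent.H9.BaerSuzuki

/-! Two self-centralizing elementary abelian subgroups of order 16 that normalize each other. -/

set_option autoImplicit false

namespace Cfsg.Agent.H61.C3T

open Subgroup Cfsg.Agent.H62 Cfsg.Agent.H9.C3

universe u

variable {G : Type u} [Group G]

theorem card_rel (H K : Subgroup G) :
    Nat.card (K ⊓ H : Subgroup G) * H.relIndex K = Nat.card K := by
  rw [inf_comm, ← inf_relIndex_right, relIndex,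
    ← Nat.card_congr (subgroupOfEquivOfLe (inf_le_right : H ⊓ K ≤ K)).toEquiv, card_mul_index]

theorem card_le_two {B H : Subgroup G}
    (h : ∀ x ∈ B, ∀ y ∈ B, x ∉ H → y ∉ H → x * y ∈ H) :
    Nat.card B ≤ 2 * Nat.card (B ⊓ H : Subgroup G) := by
  by_cases hb : B ≤ H
  · rw [inf_eq_left.2 hb]; omega
  obtain ⟨a, ha, haH⟩ := SetLike.not_le_iff_exists.1 hb
  have h2 : H.relIndex B = 2 := by
    refine index_eq_two_iff.2 ⟨⟨a, ha⟩, fun b => ?_⟩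
    by_cases hbH : (b : G) ∈ H
    · exact .inr ⟨hbH, fun e => haH ((H.mul_mem_cancel_left hbH).1 e)⟩
    · exact .inl ⟨h _ b.2 _ ha hbH haH, hbH⟩
  have := card_rel H B
  rw [h2] at this
  omega

theorem mul_mem_of_rel [Finite G] {B H : Subgroup G} (h : H.relIndex B ≤ 2) {x y : G}
    (hx : x ∈ B) (hy : y ∈ B) (hx' : x ∉ H) (hy' : y ∉ H) : x * y ∈ H := by
  have h0 : H.relIndex B ≠ 0 := (H.subgroupOf B).index_ne_zero_of_finite
  have h1 : H.relIndex B ≠ 1 := fun e => hx' (relIndex_eq_one.1 e hx)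
  have h2 : (H.subgroupOf B).index = 2 := by
    change H.relIndex B = 2
    omega
  exact (mul_mem_iff_of_index_two h2 (a := ⟨x, hx⟩) (b := ⟨y, hy⟩)).2 (iff_of_false hx' hy')

theorem mem_C1 {x g : G} : g ∈ C1 x ↔ g * x = x * g := mem_centralizer_singleton_iff

/-- the fixed points of an involution modulo `T` are the commutators -/
theorem br [Finite G] {T : Subgroup G} (h : Free T) {t : G} (ht : t ∈ Nm T) (h1 : t ∉ T)
    (h2 : t * t ∈ T) : Nat.card (T ⊓ C1 t : Subgroup G) = 4 ∧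
      ∀ w ∈ T ⊓ C1 t, ∃ a ∈ T, t * a * t⁻¹ * a⁻¹ = w := by
  let f : T →* G := MonoidHom.mk' (fun a => t * a * t⁻¹ * (a : G)⁻¹) fun a b => by
    have e1 := h.ea.comm (conj_mem_of_norm ht b.2) (T.inv_mem a.2)
    have e2 := h.ea.comm (T.inv_mem b.2) (T.inv_mem a.2)
    change t * (a * b) * t⁻¹ * ((a : G) * b)⁻¹ = _
    calc _ = t * a * t⁻¹ * (t * b * t⁻¹ * ((b : G)⁻¹ * (a : G)⁻¹)) := by group
      _ = t * a * t⁻¹ * (t * b * t⁻¹ * (a : G)⁻¹ * (b : G)⁻¹) := by rw [e2]; group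
      _ = _ := by rw [e1]; group
  have hk : f.ker = (C1 t).subgroupOf T := by
    ext a
    rw [MonoidHom.mem_ker, mem_subgroupOf, mem_C1]
    change t * a * t⁻¹ * (a : G)⁻¹ = 1 ↔ _
    rw [mul_inv_eq_one, mul_inv_eq_iff_eq_mul, eq_comm]
  have hr : f.range ≤ T ⊓ C1 t := by
    rintro _ ⟨a, rfl⟩
    have m1 := conj_mem_of_norm ht a.2
    refine ⟨T.mul_mem m1 (T.inv_mem a.2), mem_C1.2 ?_⟩
    change t * a * t⁻¹ * (a : G)⁻¹ * t = t * (t * a * t⁻¹ * (a : G)⁻¹)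
    have e1 := h.ea.comm h2 a.2
    have e2 := h.ea.comm m1 a.2
    have e3 := h.ea.inv a.2
    have e4 : t * (t * a * t⁻¹ * (a : G)⁻¹) = a * (t * (a : G)⁻¹ * t⁻¹) * t := by
      calc _ = t * t * a * t⁻¹ * (a : G)⁻¹ := by group
        _ = a * (t * t) * t⁻¹ * (a : G)⁻¹ := by rw [e1]
        _ = _ := by group
    rw [e4, e3, e2]
  have hi : (C1 t).relIndex T = Nat.card f.range := by
    rw [relIndex, ← hk, index_ker]
  have c1 := card_rel (C1 t) T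
  have c2 := card_le_of_le hr
  have c3 := h.free t ht h1 h2
  rw [hi, h.card] at c1
  have c4 : Nat.card (T ⊓ C1 t : Subgroup G) = 4 := by nlinarith
  refine ⟨c4, fun w hw => ?_⟩
  rw [← eq_of_le_of_card_ge hr (by rw [c4] at c1 ⊢; omega)] at hw
  obtain ⟨a, rfl⟩ := hw
  exact ⟨a, a.2, rfl⟩

theorem big [Finite G] {T D : Subgroup G} (h : Free T) (hD : D ≤ T) (hc : 4 < Nat.card D) {b : G}
    (hb : b ∈ Nm T) (h2 : b * b ∈ T) (hm : ∀ d ∈ D, d * b = b * d) : b ∈ T := by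
  by_contra h1
  have := card_le_of_le (show D ≤ T ⊓ C1 b from fun d hd => ⟨hD hd, mem_C1.2 (hm d hd)⟩)
  have := h.free b hb h1 h2
  omega

/-- two subgroups of order 16 inside a 2-group that normalizes both -/
structure Pair (S T T' : Subgroup G) : Prop where
  two : IsPGroup 2 S
  fr : Free T
  fr' : Free T'
  le : T ≤ S
  le' : T' ≤ S
  nm : S ≤ Nm T
  nm' : S ≤ Nm T'
  ne : T ≠ T'

/-- the centralizer of the intersection -/
abbrev CZ (T T' : Subgroup G) : Subgroup G := centralizer ((T ⊓ T' : Subgroup G) : Set G)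

theorem mem_CZ {T T' : Subgroup G} {g : G} :
    g ∈ CZ T T' ↔ ∀ z ∈ T, z ∈ T' → z * g = g * z :=
  ⟨fun h z a b => h z ⟨a, b⟩, fun h z a => h z a.1 a.2⟩

theorem CZ_comm (T T' : Subgroup G) : CZ T T' = CZ T' T := by
  unfold CZ
  rw [inf_comm]

namespace Pair

variable [Finite G] {S T T' : Subgroup G}

omit [Finite G] in
theorem symm (h : Pair S T T') : Pair S T' T :=
  ⟨h.two, h.fr', h.fr, h.le', h.le, h.nm', h.nm, h.ne.symm⟩

theorem exists_out (h : Pair S T T') : ∃ t ∈ T', t ∉ T := by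
  by_contra hc
  push Not at hc
  exact h.ne (eq_of_le_of_card_ge hc (by rw [h.fr.card, h.fr'.card])).symm

theorem fix (h : Pair S T T') {t : G} (ht : t ∈ T') (h1 : t ∉ T) :
    T ⊓ C1 t = T ⊓ T' ∧ Nat.card (T ⊓ T' : Subgroup G) = 4 := by
  obtain ⟨c, hw⟩ := br h.fr (h.nm (h.le' ht)) h1 (by rw [h.fr'.ea t ht]; exact T.one_mem)
  have e : T ⊓ C1 t = T ⊓ T' := by
    refine le_antisymm (fun w m => ⟨m.1, ?_⟩) fun w m => ⟨m.1, mem_C1.2 (h.fr'.ea.comm m.2 ht)⟩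
    obtain ⟨a, ha, rfl⟩ := hw w m
    have := T'.mul_mem ht (conj_mem_of_norm (h.nm' (h.le ha)) (T'.inv_mem ht))
    change _ ∈ T'
    simpa only [mul_assoc] using this
  exact ⟨e, e ▸ c⟩

theorem cZ (h : Pair S T T') : Nat.card (T ⊓ T' : Subgroup G) = 4 :=
  let ⟨_, a, b⟩ := h.exists_out
  (h.fix a b).2

theorem nZ (h : Pair S T T') : S ≤ Nm (T ⊓ T') := fun _ hs =>
  mem_normalizer_of_forall fun _ hu =>
    ⟨conj_mem_of_norm (h.nm hs) hu.1, conj_mem_of_norm (h.nm' hs) hu.2⟩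

omit [Finite G] in
theorem leC (h : Pair S T T') : T ≤ CZ T T' := fun _ ht =>
  mem_CZ.2 fun _ a _ => h.fr.ea.comm a ht

omit [Finite G] in
theorem leC' (h : Pair S T T') : T' ≤ CZ T T' := fun _ ht =>
  mem_CZ.2 fun _ _ a => h.fr'.ea.comm a ht

variable (hr : RStmt.{u})
include hr

theorem cJ (h : Pair S T T') : Nat.card (S ⊓ CZ T T' : Subgroup G) ≤ 64 := by
  have h1 := (hr G T S _ h.fr h.two h.le h.nm inf_le_left h.cZ h.nZ).1
  have h2 := card_rel T (S ⊓ CZ T T')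
  rw [inf_eq_right.2 (le_inf h.le h.leC), h.fr.card] at h2
  change T.relIndex (S ⊓ CZ T T') ≤ 4 at h1
  omega

theorem idx (h : Pair S T T') {x y : G} (hx : x ∈ S) (hy : y ∈ S) (hx' : x ∉ CZ T T')
    (hy' : y ∉ CZ T T') : x * y ∈ CZ T T' :=
  mul_mem_of_rel (hr G T S _ h.fr h.two h.le h.nm inf_le_left h.cZ h.nZ).2.1 hx hy hx' hy'

theorem dec (h : Pair S T T') {j : G} (hj : j ∈ S) (hc : j ∈ CZ T T') :
    ∃ t ∈ T', ∃ a ∈ T, j = t * a :=
  exists_mul_eq_of_card (L := S ⊓ CZ T T') (le_inf h.le h.leC) (le_inf h.le' h.leC') (by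
    have := h.cJ hr
    rw [h.cZ, h.fr.card, h.fr'.card]
    omega) ⟨hj, hc⟩

theorem sq (h : Pair S T T') {j : G} (hj : j ∈ S) (hc : j ∈ CZ T T') : j * j ∈ T := by
  obtain ⟨t, ht, a, ha, rfl⟩ := h.dec hr hj hc
  have := T.mul_mem (conj_mem_of_norm (h.nm (h.le' ht)) ha) ha
  rw [h.fr'.ea.inv ht] at this
  simpa only [mul_assoc] using this

theorem inv (h : Pair S T T') {j : G} (hj : j ∈ S) (hc : j ∈ CZ T T') (h2 : j * j = 1) :
    j ∈ T ∨ j ∈ T' := by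
  obtain ⟨t, ht, a, ha, rfl⟩ := h.dec hr hj hc
  by_cases h1 : t ∈ T
  · exact .inl (T.mul_mem h1 ha)
  refine .inr (T'.mul_mem ht ?_)
  have : a ∈ T ⊓ C1 t := ⟨ha, mem_C1.2 (by
    rw [← inv_eq_of_mul_eq_one_right h2, mul_inv_rev, h.fr.ea.inv ha, h.fr'.ea.inv ht])⟩
  rw [(h.fix ht h1).1] at this
  exact this.2

theorem ea_le (h : Pair S T T') {D : Subgroup G} (hD : EA D) (h1 : D ≤ S) (h2 : D ≤ CZ T T') :
    D ≤ T ∨ D ≤ T' := by
  by_contra hc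
  rw [not_or, SetLike.not_le_iff_exists, SetLike.not_le_iff_exists] at hc
  obtain ⟨⟨a, ha, a1⟩, b, hb, b1⟩ := hc
  have key := fun x (hx : x ∈ D) => h.inv hr (h1 hx) (h2 hx) (hD x hx)
  rcases key _ (D.mul_mem ha hb) with e | e
  · exact a1 ((T.mul_mem_cancel_right ((key b hb).resolve_right b1)).1 e)
  · exact b1 ((T'.mul_mem_cancel_left ((key a ha).resolve_left a1)).1 e)

theorem e16 (h : Pair S T T') {B : Subgroup G} (hB : EA B) (h1 : B ≤ S) (hc : Nat.card B = 16) :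
    B = T ∨ B = T' := by
  have c := card_le_two (B := B) (H := CZ T T') fun x hx y hy => h.idx hr (h1 hx) (h1 hy)
  have key : ∀ {U : Subgroup G}, Free U → S ≤ Nm U → B ⊓ CZ T T' ≤ U → B = U := fun f n e =>
    eq_of_le_of_card_ge (fun b hb => big f e (by omega) (n (h1 hb))
      (by rw [hB b hb]; exact one_mem _) fun d hd => hB.comm hd.1 hb) (by rw [hc, f.card])
  exact (h.ea_le hr (hB.mono inf_le_left) (inf_le_left.trans h1) inf_le_right).imp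
    (key h.fr h.nm) (key h.fr' h.nm')

theorem tau0 (h : Pair S T T') {r : G} (hs : r ∈ S) (hc : r ∉ CZ T T') :
    ∃ τ ∈ S, τ ∉ CZ T T' ∧ τ * τ ∈ T := by
  have hz := h.nZ hs
  have h3 := (hr G T' S _ h.fr' h.two h.le' h.nm' inf_le_right h.cZ h.nZ).2.2
  have n' := h.nm' hs
  obtain ⟨j, hj, hw⟩ : ∃ j ∈ T', r * j * r⁻¹ * j⁻¹ ∉ T ⊓ T' := by
    by_contra e
    push Not at e
    exact hc ((h3 r hs).2 e)
  have hr2 : r * r ∈ CZ T T' := h.idx hr hs hs hc hc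
  by_cases h0 : r * r ∈ T
  · exact ⟨r, hs, hc, h0⟩
  obtain ⟨t, ht, a, ha, e⟩ := h.dec hr (S.mul_mem hs hs) hr2
  have htT : t ∉ T := fun m => h0 (e ▸ T.mul_mem m ha)
  let F : Subgroup G :=
    { carrier := {x | x ∈ T' ∧ r * x * r⁻¹ * x⁻¹ ∈ T}
      one_mem' := ⟨T'.one_mem, by simp⟩
      mul_mem' := fun {x y} hx hy => ⟨T'.mul_mem hx.1 hy.1, by
        have := T.mul_mem hx.2 (conj_mem_of_norm (h.nm (h.le' hx.1)) hy.2)
        convert this using 1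
        group⟩
      inv_mem' := fun {x} hx => by
        rw [h.fr'.ea.inv hx.1]
        exact hx }
  have mF : ∀ x, x ∈ F ↔ x ∈ T' ∧ r * x * r⁻¹ * x⁻¹ ∈ T := fun _ => Iff.rfl
  have mw : r * j * r⁻¹ * j⁻¹ ∈ T' := T'.mul_mem (conj_mem_of_norm n' hj) (T'.inv_mem hj)
  have hwT : r * j * r⁻¹ * j⁻¹ ∉ T := fun m => hw ⟨m, mw⟩
  have cF : Nat.card F ≤ 8 := by
    have d : Nat.card F ∣ 16 := h.fr'.card ▸ card_dvd_of_le fun x hx => ((mF x).1 hx).1
    have n16 : Nat.card F ≠ 16 := fun c => hwT ((mF j).1 (by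
      rw [eq_of_le_of_card_ge (fun x hx => ((mF x).1 hx).1 : F ≤ T') (by rw [c, h.fr'.card])]
      exact hj)).2
    obtain ⟨k, hk⟩ := d
    have : k ≠ 1 := by rintro rfl; omega
    have : k ≠ 0 := by rintro rfl; omega
    nlinarith [show 2 ≤ k by omega]
  have cI : F ⊓ T = T ⊓ T' := le_antisymm (fun x hx => ⟨hx.2, ((mF x).1 hx.1).1⟩) fun x hx =>
    ⟨(mF x).2 ⟨hx.2, T.mul_mem (conj_mem_of_norm (h.nm hs) hx.1) (T.inv_mem hx.1)⟩, hx.1⟩
  have cR := card_rel T F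
  rw [cI, h.cZ] at cR
  have tF : t ∈ F := (mF t).2 ⟨ht, by
    have e' : t = r * r * a⁻¹ := by rw [e]; group
    have := conj_mem_of_norm (h.nm (S.mul_mem hs hs))
      (T.mul_mem (conj_mem_of_norm (h.nm hs) (T.inv_mem ha)) ha)
    convert this using 1
    rw [e']
    group⟩
  have wF : r * j * r⁻¹ * j⁻¹ ∈ F := (mF _).2 ⟨mw, by
    have m1 : r * r * j * (r * r)⁻¹ * j⁻¹ ∈ T := (((h3 _ (S.mul_mem hs hs)).1 hr2) j hj).1
    have i1 := h.fr'.ea.inv hj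
    have s1 := h.fr'.ea _ (conj_mem_of_norm n' hj)
    convert m1 using 1
    rw [h.fr'.ea.inv mw, i1]
    calc _ = r * r * j * (r * r)⁻¹ * ((r * j * r⁻¹) * (r * j * r⁻¹)) * j := by group
      _ = _ := by rw [s1, mul_one]⟩
  have tw := mul_mem_of_rel (B := F) (H := T) (by omega) wF tF hwT htT
  refine ⟨r * j, S.mul_mem hs (h.le' hj), fun m => hc ?_, ?_⟩
  · exact ((CZ T T').mul_mem_cancel_right (h.leC' hj)).1 m
  · have m2 := T.mul_mem tw (conj_mem_of_norm (h.nm (h.le' hj)) ha)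
    have c2 := h.fr'.ea.comm hj ht
    have i1 := h.fr'.ea.inv hj
    convert m2 using 1
    calc r * j * (r * j) = r * j * r⁻¹ * (r * r) * j := by group
      _ = r * j * r⁻¹ * j⁻¹ * (j * t) * a * j := by rw [e]; group
      _ = r * j * r⁻¹ * j⁻¹ * (t * j) * a * j⁻¹ := by rw [c2, i1]
      _ = _ := by group

theorem tau (h : Pair S T T') {r : G} (hs : r ∈ S) (hc : r ∉ CZ T T') :
    ∃ τ ∈ S, τ ∉ CZ T T' ∧ τ * τ = 1 := by
  obtain ⟨τ, h1, h2, h3⟩ := h.tau0 hr hs hc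
  obtain ⟨a, ha, e⟩ := (br h.fr (h.nm h1) (fun m => h2 (h.leC m)) h3).2 (τ * τ)
    ⟨h3, mem_C1.2 (by group)⟩
  refine ⟨τ * a, S.mul_mem h1 (h.le ha), fun m => h2 ?_, ?_⟩
  · exact ((CZ T T').mul_mem_cancel_right (h.leC ha)).1 m
  · calc τ * a * (τ * a) = τ * a * τ⁻¹ * (τ * τ * a) := by group
      _ = τ * a * τ⁻¹ * a⁻¹ * (τ * τ) := by rw [h.fr.ea.comm h3 ha, h.fr.ea.inv ha]; group
      _ = 1 := by rw [e, h.fr.ea _ h3]

omit hr in
theorem not_le (h : Pair S T T') {τ : G} (h1 : τ ∈ S) (h2 : τ ∉ CZ T T') (h3 : τ * τ = 1) :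
    ¬ T ⊓ C1 τ ≤ T' := fun e => by
  have c := (br h.fr (h.nm h1) (fun m => h2 (h.leC m)) (by rw [h3]; exact T.one_mem)).1
  have e' : T ⊓ C1 τ = T ⊓ T' := eq_of_le_of_card_ge (le_inf inf_le_left e) (by rw [c, h.cZ])
  exact h2 (mem_CZ.2 fun z a b => mem_C1.1 (show z ∈ T ⊓ C1 τ from e' ▸ ⟨a, b⟩).2)

theorem cent (h : Pair S T T') {τ : G} (h1 : τ ∈ S) (h2 : τ ∉ CZ T T') (h3 : τ * τ = 1) {c : G}
    (hc : c ∈ S) (c1 : c * τ = τ * c) (c2 : ∀ a ∈ T ⊓ C1 τ, c * a = a * c) :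
    c ∈ T ⊓ C1 τ ∨ c * τ ∈ T ⊓ C1 τ := by
  have key : ∀ c ∈ S, c ∈ CZ T T' → (∀ a ∈ T ⊓ C1 τ, c * a = a * c) → c ∈ T := fun c s z m => by
    by_contra n
    have d := (br h.fr (h.nm s) n (h.sq hr s z)).1
    have e : T ⊓ T' = T ⊓ C1 c := eq_of_le_of_card_ge
      (fun x hx => ⟨hx.1, mem_C1.2 (mem_CZ.1 z x hx.1 hx.2)⟩) (by rw [d, h.cZ])
    exact h.not_le h1 h2 h3 fun x hx =>
      (show x ∈ T ⊓ T' from e ▸ ⟨hx.1, mem_C1.2 (m x hx).symm⟩).2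
  by_cases z : c ∈ CZ T T'
  · exact .inl ⟨key c hc z c2, mem_C1.2 c1⟩
  · refine .inr ⟨key _ (S.mul_mem hc h1) (h.idx hr hc h1 z h2) fun a ha => ?_, mem_C1.2 ?_⟩
    · rw [mul_assoc, ← mem_C1.1 ha.2, ← mul_assoc, c2 a ha, mul_assoc]
    · rw [← mul_assoc, ← c1]

end Pair

end Cfsg.Agent.H61.C3T
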