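import Cfsg.Agent.H99.E72Defs
import Cfsg.Agent.S2739
import Cfsg.Agent.H26.SLBasic

/-! `L₃(4)` is `(5, 5, 2)`-generated (piece GENL of project E72). -/

set_option autoImplicit false

namespace Cfsg.Agent.H61.E72GenL

open Cfsg Cfsg.Agent.H28 Cfsg.Agent.S2739 Cfsg.Agent.H99.E72 Matrix Subgroup

universe u

abbrev M3 := Matrix (Fin 3) (Fin 3) F4

def frc {α : Type} (x : F4) (k : F4 → α) : α :=
  if x = ⟨0, 0⟩ then k ⟨0, 0⟩ else if x = ⟨1, 0⟩ then k ⟨1, 0⟩ else
    if x = ⟨0, 1⟩ then k ⟨0, 1⟩ else k ⟨1, 1⟩

theorem f4_cases : ∀ x : F4, x = ⟨0, 0⟩ ∨ x = ⟨1, 0⟩ ∨ x = ⟨0, 1⟩ ∨ x = ⟨1, 1⟩ := by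
  decide +kernel

theorem frc_eq {α : Type} (x : F4) (k : F4 → α) : frc x k = k x := by
  unfold frc
  rcases f4_cases x with h | h | h | h <;> split_ifs <;> simp_all

def frcM {α : Type} (M : M3) (k : M3 → α) : α :=
  frc (M 0 0) fun a => frc (M 0 1) fun b => frc (M 0 2) fun c =>
  frc (M 1 0) fun d => frc (M 1 1) fun e => frc (M 1 2) fun f =>
  frc (M 2 0) fun g => frc (M 2 1) fun h => frc (M 2 2) fun i => k !![a, b, c; d, e, f; g, h, i]

theorem frcM_eq {α : Type} (M : M3) (k : M3 → α) : frcM M k = k M := by
  simp only [frcM, frc_eq]
  rw [← Matrix.eta_fin_three]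

def bb : SL4 := sl !![0, 1, 0; 1, w + 1, 0; 0, 0, 1]

def cc : SL4 := sl !![0, 0, w + 1; 0, w + 1, 1; w + 1, 1, 0]

def ev : List Bool → M3 → M3
  | [], M => M
  | x :: l, M => frcM (M * (if x then bb else cc).1) (ev l)

theorem ev_eq : ∀ (l : List Bool) (g : SL4),
    ev l g.1 = (g * (l.map fun x => if x then bb else cc).prod).1
  | [], g => by simp [ev]
  | x :: l, g => by
    rw [ev, frcM_eq, List.map_cons, List.prod_cons, ← mul_assoc]
    exact ev_eq l (g * _)

def wd1 (i j : Fin 3) : List Bool :=
  !![[],
     [true, false, true, true, false, false, false, true, false, false, false, true, true, false, true, true, true, false, true, true, false, false],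
     [true, true, false, true, true, true, false, false, true, false, false, false, true, true, true, false, false, true, false, false, true, true, true];
     [false, false, true, true, false, true, true, true, false, true, true, false, false, false, true, false, false, false, true, true, false, true],
     [],
     [true, true, true, false, true, true, true, false, false, true, false, false, false, true, true, true, false, false, true, false, false, true, true];
     [true, true, true, false, false, true, false, false, true, true, true, false, false, false, true, false, false, true, true, true, false, true, true],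
     [true, true, false, false, true, false, false, true, true, true, false, false, false, true, false, false, true, true, true, false, true, true, true],
     []] i j

def wdw (i j : Fin 3) : List Bool :=
  !![[],
     [false, false, true, false, false, false, true, true, false, false, false, true, false, false, true],
     [true, true, false, false, false, true, true, false, true, true, false, false, false, true, false, false, false, true, true, true];
     [true, false, false, true, false, false, false, true, true, false, false, false, true, false, false],
     [],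
     [true, true, true, false, false, false, true, true, false, true, true, false, false, false, true, false, false, false, true, true];
     [true, true, true, false, false, false, true, false, false, false, true, true, false, true, true, false, false, false, true, true],
     [true, true, false, false, false, true, false, false, false, true, true, false, true, true, false, false, false, true, true, true],
     []] i j

theorem chk1 : ∀ i j : Fin 3, i ≠ j → ∃ r : F4,
    1 + single i j (⟨1, 0⟩ : F4) = r • ev (wd1 i j) 1 := by decide +kernel

theorem chkw : ∀ i j : Fin 3, i ≠ j → ∃ r : F4,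
    1 + single i j (⟨0, 1⟩ : F4) = r • ev (wdw i j) 1 := by decide +kernel

theorem mem_of_word (l : List Bool) (g : SL4) (h : ∃ r : F4, g.1 = r • ev l 1) :
    (g : PS4) ∈ closure {(bb : PS4), (cc : PS4)} := by
  have h1 : ev l 1 = _ := ev_eq l 1
  rw [one_mul] at h1
  rw [h1] at h
  rw [← (mk_eq_iff _ _).2 h]
  change QuotientGroup.mk' _ _ ∈ _
  rw [map_list_prod]
  refine list_prod_mem fun y hy => ?_
  simp only [List.map_map, List.mem_map] at hy
  obtain ⟨x, -, rfl⟩ := hy
  cases x
  · exact subset_closure (Or.inr rfl)
  · exact subset_closure (Or.inl rfl)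

theorem gen4 : Gen552 PS4 := by
  refine ⟨(bb : PS4), (cc : PS4), ?_, ?_, ?_, ?_⟩
  · rw [← QuotientGroup.mk_pow, ← QuotientGroup.mk_one, mk_eq_iff]
    have := ev_eq [true, true, true, true, true] 1
    refine ⟨1, ?_⟩
    have e : bb ^ 5 = 1 * ([true, true, true, true, true].map
        fun x => if x then bb else cc).prod := by simp [pow_succ, mul_assoc]
    rw [e, ← this]
    decide +kernel
  · rw [← QuotientGroup.mk_pow, ← QuotientGroup.mk_one, mk_eq_iff]
    have := ev_eq [false, false, false, false, false] 1
    refine ⟨1, ?_⟩
    have e : cc ^ 5 = 1 * ([false, false, false, false, false].map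
        fun x => if x then bb else cc).prod := by simp [pow_succ, mul_assoc]
    rw [e, ← this]
    decide +kernel
  · rw [← QuotientGroup.mk_mul, ← QuotientGroup.mk_pow, ← QuotientGroup.mk_one, mk_eq_iff]
    have := ev_eq [true, false, true, false] 1
    have e : (bb * cc) ^ 2 = 1 * ([true, false, true, false].map
        fun x => if x then bb else cc).prod := by simp [pow_succ, mul_assoc]
    rw [e, ← this]
    decide +kernel
  · rw [eq_top_iff]
    rintro x -
    obtain ⟨g, rfl⟩ := QuotientGroup.mk_surjective x
    induction g using H26.sl_transvection_induction with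
    | hone => exact one_mem _
    | hmul A B hA hB => exact mul_mem hA hB
    | htransvec i j h c =>
      have h1 := mem_of_word _ (SpecialLinearGroup.transvection h ⟨1, 0⟩) (chk1 i j h)
      have hw := mem_of_word _ (SpecialLinearGroup.transvection h ⟨0, 1⟩) (chkw i j h)
      rcases f4_cases c with rfl | rfl | rfl | rfl
      · rw [show (⟨0, 0⟩ : F4) = 0 from rfl, SpecialLinearGroup.transvection_coeff_zero]
        exact one_mem _
      · exact h1
      · exact hw
      · rw [show (⟨1, 1⟩ : F4) = ⟨1, 0⟩ + ⟨0, 1⟩ by decide +kernel,
          SpecialLinearGroup.transvection_add]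
        exact mul_mem h1 hw

theorem Gen552.map {G H : Type*} [Group G] [Group H] (e : G ≃* H) (h : Gen552 G) : Gen552 H := by
  obtain ⟨b, c, hb, hc, hbc, hg⟩ := h
  refine ⟨e b, e c, by rw [← map_pow, hb, map_one], by rw [← map_pow, hc, map_one],
    by rw [← map_mul, ← map_pow, hbc, map_one], ?_⟩
  have := congrArg (Subgroup.map (e : G →* H)) hg
  rwa [MonoidHom.map_closure, Set.image_pair, map_top_of_surjective _ e.surjective] at this

theorem genL : GenLStmt.{u} := fun _ _ _ hF =>
  Gen552.map (pslEquiv (equivF4 hF) (Fin 3)).symm gen4

end Cfsg.Agent.H61.E72GenL
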