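import Cfsg.Agent.H50.E72Defs

/-! `E₇(2)` contains no `3⁴` with the fusion of a quadratic form of minus type (piece NOQ). -/

set_option autoImplicit false

namespace Cfsg.Agent.H61.E72NoQ

open Cfsg.Agent.H50.E72 Module Multiplicative

def cl (e : E4) : ℕ := if e = 0 then 3 else (q4 e).val

def rp (i : ℕ) : E4 := if i = 0 then ![1, 0, 0, 0] else if i = 1 then ![0, 0, 1, 0] else ![0, 0, 1, 1]

theorem rp_spec : ∀ e : E4, e ≠ 0 → cl e < 3 ∧ rp (cl e) ≠ 0 ∧ q4 e = q4 (rp (cl e)) := by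
  decide +kernel

theorem cnt : (∑ e : E4, if cl e = 0 then 1 else 0) = 20 ∧ (∑ e : E4, if cl e = 1 then 1 else 0) = 30 ∧
    (∑ e : E4, if cl e = 2 then 1 else 0) = 30 ∧ (∑ e : E4, if cl e = 3 then 1 else 0) = 1 := by
  decide +kernel

theorem count (hC : CntStmt) (hK : KitStmt) (x : Multiplicative E4 →* G0)
    (hx : ∀ e e', e ≠ 0 → e' ≠ 0 → q4 e = q4 e' → IsConj (x (ofAdd e)) (x (ofAdd e')))
    (n : Type) [Fintype n] [DecidableEq n] (π : G0 →* Matrix n n (ZMod 2)) :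
    ∃ m, 20 * fx π (x (ofAdd (rp 0))) + 30 * fx π (x (ofAdd (rp 1))) +
      30 * fx π (x (ofAdd (rp 2))) = 26 * Fintype.card n + 54 * m := by
  have h := hC n π 3 x ⊤ (fun _ _ _ => trivial)
  obtain ⟨k1, -, k3, -⟩ := hK n π
  simp only [finrank_top, finrank_fintype_fun_eq_card] at h
  refine ⟨finrank K (⊤ ⊓ Fix π (Set.range x) : Submodule K _), ?_⟩
  have h2 : ∑ e : Multiplicative E4, finrank K (⊤ ⊓ eig π (x e) 1 : Submodule K _) = ∑ e : E4,
      ((if cl e = 0 then 1 else 0) * fx π (x (ofAdd (rp 0))) +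
        (if cl e = 1 then 1 else 0) * fx π (x (ofAdd (rp 1))) +
        (if cl e = 2 then 1 else 0) * fx π (x (ofAdd (rp 2))) +
        (if cl e = 3 then 1 else 0) * Fintype.card n) := by
    refine (Fintype.sum_equiv ofAdd _ _ fun e => ?_).symm
    rw [top_inf_eq]
    change _ = fx π (x (ofAdd e))
    by_cases he : e = 0
    · subst he
      rw [ofAdd_zero, map_one, k3]
      simp [cl]
    · obtain ⟨a, b, c⟩ := rp_spec e he
      rw [show fx π (x (ofAdd e)) = fx π (x (ofAdd (rp (cl e)))) from k1 _ _ 1 (hx _ _ he b c)]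
      generalize cl e = i at a
      interval_cases i <;> simp
  obtain ⟨c0, c1, c2, c3⟩ := cnt
  rw [h2] at h
  simp only [Finset.sum_add_distrib, ← Finset.sum_mul] at h
  rw [c0, c1, c2, c3] at h
  omega

theorem noQ (hG : GoodStmt) (h3 : C3Stmt) (hC : CntStmt) (hK : KitStmt) : NoQStmt := by
  rintro ⟨x, hi, hx⟩
  obtain ⟨π, hπ⟩ := hG
  obtain ⟨m, hm⟩ := count hC hK x hx _ π
  obtain ⟨m', hm'⟩ := count hC hK x hx _ ad
  have key : ∀ i, (fx π (x (ofAdd (rp i))), fx ad (x (ofAdd (rp i)))) ∈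
      [(2, 79), (14, 49), (20, 43), (20, 49), (32, 67)] := fun i => by
    refine h3 π hπ _ ?_ ?_
    · rw [← map_pow, ← ofAdd_nsmul, show 3 • rp i = 0 from funext fun j => by
        rw [Pi.smul_apply, nsmul_eq_mul]; exact mul_eq_zero_of_left rfl _, ofAdd_zero, map_one]
    · rw [Ne, map_eq_one_iff x hi, ofAdd_eq_one]
      unfold rp
      split_ifs <;> decide
  have hc : Fintype.card Cfsg.Lie.chevE7.Idx = 133 := by decide +kernel
  rw [hc] at hm'
  rw [Fintype.card_fin] at hm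
  have k0 := key 0
  have k1 := key 1
  have k2 := key 2
  simp only [List.mem_cons, Prod.mk.injEq, List.not_mem_nil, or_false] at k0 k1 k2
  omega

end Cfsg.Agent.H61.E72NoQ
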