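import Cfsg.Agent.H6.E82Defs

/-! Derivations preserving the Cartan subalgebra are diagonal (piece DER2). -/

set_option autoImplicit false

namespace Cfsg.Agent.H61.E82Der2

open Cfsg.Agent.H6.E82

theorem cart_inl {h : V} (hh : h ∈ Cart) (v : V) (i : Ix) : br h v (Sum.inl i) = 0 := by
  rw [br_inl]
  exact Finset.sum_eq_zero fun r _ => by rw [hh r, zero_mul, zero_mul]

theorem cart_inr {h : V} (hh : h ∈ Cart) (v : V) (u : Rt) :
    br h v (Sum.inr u) = ev u h * v (Sum.inr u) := by
  rw [br_inr, hh u, zero_mul, add_zero, Finset.sum_eq_zero fun r _ => by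
    rw [hh r, zero_mul, ite_self], add_zero]

theorem der2 (rf : RfStmt) (brb : BrbStmt) (brc : BrcStmt) : Der2Stmt := by
  obtain ⟨-, -, -, -, -, -, r7, r8, r9, -, r11, -⟩ := rf
  obtain ⟨-, -, -, b4, -, b6, b7, -⟩ := brb
  obtain ⟨-, -, -, -, c5, c6, -, -, -, -, -, c12, c13, -⟩ := brc
  intro D hD hC
  have h0 : ∀ h ∈ Cart, D h = 0 := fun h hh => r11 _ (hC h hh) fun j => by
    have e := congrFun (hD h (ee (C8.R.simple j))) (Sum.inr (C8.R.simple j))
    rw [b4 h hh, map_smul, Pi.add_apply, cart_inr hh, cart_inr (hC h hh), c5, if_pos rfl, mul_one,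
      Pi.smul_apply, smul_eq_mul] at e
    exact left_eq_add.1 (e.trans (add_comm _ _))
  refine ⟨h0, ?_⟩
  have h1 : ∀ r, ∀ h ∈ Cart, ev r h • D (ee r) = br h (D (ee r)) := fun r h hh => by
    have e := hD h (ee r)
    rwa [b4 h hh, map_smul, h0 h hh, map_zero, LinearMap.zero_apply, zero_add] at e
  have h2 : ∀ r, ∃ c b : K, D (ee r) = c • ee r + b • ee (ng r) := fun r => by
    refine ⟨D (ee r) (Sum.inr r), D (ee r) (Sum.inr (ng r)), funext fun j => ?_⟩
    rw [Pi.add_apply, Pi.smul_apply, Pi.smul_apply, smul_eq_mul, smul_eq_mul]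
    rcases j with i | s
    · obtain ⟨h, hh, e⟩ := r8 r
      have := congrFun (h1 r h hh) (Sum.inl i)
      rw [e, one_smul, cart_inl hh] at this
      rw [this, c6, c6, mul_zero, mul_zero, add_zero]
    · rw [c5, c5]
      by_cases e1 : s = r
      · rw [if_pos e1, if_neg (fun e => (c12 r).2.1 (e.symm.trans e1)), e1, mul_one, mul_zero,
          add_zero]
      by_cases e2 : s = ng r
      · rw [if_neg e1, if_pos e2, e2, mul_one, mul_zero, zero_add]
      obtain ⟨h, hh, e, e'⟩ := r9 r s e1 e2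
      have := congrFun (h1 r h hh) (Sum.inr s)
      rw [e, one_smul, cart_inr hh, e', zero_mul] at this
      rw [this, if_neg e1, if_neg e2, mul_zero, mul_zero, add_zero]
  have h3 : ∀ r, ∃ c : K, D (ee r) = c • ee r := fun r => by
    obtain ⟨s, t, hp, rfl⟩ := r7 r
    obtain ⟨c, b, e⟩ := h2 s
    obtain ⟨c', b', e'⟩ := h2 t
    refine ⟨c + c', ?_⟩
    rw [← b6 s t hp, hD, e, e', map_add, map_add, map_smul, map_smul, map_smul, map_smul,
      LinearMap.add_apply, LinearMap.smul_apply, LinearMap.smul_apply,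
      b7 (ng s) t (by rw [(c13 s t).2, hp]; decide), b7 s (ng t) (by rw [(c13 s t).1, hp]; decide),
      smul_zero, smul_zero, add_zero, add_zero, add_smul]
  choose c hc using h3
  exact ⟨c, hc⟩

end Cfsg.Agent.H61.E82Der2
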