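import Cfsg.Agent.H11.ElDefs

/-! The pair stabiliser of two subgroups of order 11 generating `L₂(11)` (piece LT). -/

set_option autoImplicit false

namespace Cfsg.Agent.H61.ElLt

open Subgroup Cfsg.Agent.H11.EL

universe u

variable {G : Type u} [Group G]

theorem gen11 {A : Subgroup G} (hA : Nat.card A = 11) : ∃ a, orderOf a = 11 ∧ zpowers a = A := by
  have : Fact (Nat.Prime 11) := ⟨by norm_num⟩
  obtain ⟨z, hz⟩ := (Subgroup.isCyclic_iff_exists_zpowers_eq_top A).mp (isCyclic_of_prime_card hA)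
  exact ⟨z, by rw [← Nat.card_zpowers, hz, hA], hz⟩

theorem exists_m {A : Subgroup G} (hA : Nat.card A = 11) : ∃ m : Nm A →* (ZMod 11)ˣ,
    ∀ (g : Nm A) (i : ℤ), Ex (g : G) A i ↔ (m g : ZMod 11) = i := by
  obtain ⟨a, ha, rfl⟩ := gen11 hA
  have h1 : ∀ (g : G) (i : ℤ), Ex g (zpowers a) i ↔ g * a * g⁻¹ = a ^ i := fun g i => by
    refine ⟨fun h => h a (mem_zpowers a), fun h b hb => ?_⟩
    obtain ⟨k, rfl⟩ := mem_zpowers_iff.1 hb
    rw [← conj_zpow, h, ← zpow_mul, ← zpow_mul, mul_comm]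
  have h2 : ∀ i j : ℤ, a ^ i = a ^ j ↔ (i : ZMod 11) = j := fun i j => by
    rw [zpow_eq_zpow_iff_modEq, ha, ZMod.intCast_eq_intCast_iff]
  have h3 : ∀ g : Nm (zpowers a), ∃ i : ℤ, (g : G) * a * (g : G)⁻¹ = a ^ i := fun g => by
    obtain ⟨k, hk⟩ := mem_zpowers_iff.1 ((mem_normalizer_iff.1 g.2 a).1 (mem_zpowers a))
    exact ⟨k, hk.symm⟩
  choose e he using h3
  let m : Nm (zpowers a) →* ZMod 11 :=
    { toFun g := e g
      map_one' := by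
        have := he 1
        rw [← Int.cast_one, ← h2, ← this]
        simp
      map_mul' g h := by
        rw [← Int.cast_mul, ← h2, ← he, zpow_mul, ← he g, conj_zpow, ← he h]
        simp [mul_assoc] }
  refine ⟨m.toHomUnits, fun g i => ?_⟩
  rw [h1, he, h2]
  rfl

theorem ex_one {A : Subgroup G} {g : G} : Ex g A 1 ↔ g ∈ Ct A := by
  rw [mem_centralizer_iff]
  refine forall₂_congr fun a _ => ?_
  rw [zpow_one, mul_inv_eq_iff_eq_mul, eq_comm]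

theorem card_orb [Finite G] (H X : Subgroup G) :
    Nat.card H = {Y | ∃ h ∈ H, cj h X = Y}.ncard * Nat.card (H ⊓ Nm X : Subgroup G) := by
  let _ : MulAction G (Subgroup G) :=
    { smul := cj, one_smul := cj_one, mul_smul := cj_mul }
  have h1 : MulAction.stabilizer H X = (H ⊓ Nm X).subgroupOf H := by
    ext g
    rw [MulAction.mem_stabilizer_iff, mem_subgroupOf, mem_inf, ← cj_eq_iff]
    exact ⟨fun h => ⟨g.2, h⟩, fun h => h.2⟩
  have h2 : MulAction.orbit H X = {Y | ∃ h ∈ H, cj h X = Y} := by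
    ext Y
    exact ⟨fun ⟨h, e⟩ => ⟨h, h.2, e⟩, fun ⟨h, hh, e⟩ => ⟨⟨h, hh⟩, e⟩⟩
  rw [← h2, ← MulAction.index_stabilizer, h1, ← Nat.card_congr (subgroupOfEquivOfLe
    (inf_le_left : H ⊓ Nm X ≤ H)).toEquiv, mul_comm, card_mul_index]

theorem cj_inj (g : G) {X Y : Subgroup G} (h : cj g X = cj g Y) : X = Y :=
  map_injective (MulAut.conj g).injective h

theorem cj_pts {L X : Subgroup G} {g : G} (hg : g ∈ Nm L) (hX : X ∈ Pts L) : cj g X ∈ Pts L :=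
  ⟨cj_eq_iff.2 hg ▸ map_mono hX.1, by rw [card_cj, hX.2]⟩

theorem tri : ∀ x y : (ZMod 11)ˣ, x ^ 5 = 1 → x ^ 2 ≠ 1 →
    ∃ n : Fin 5, y = x ^ n.1 ∨ y = x ^ n.1 * -1 := by decide +kernel

theorem sq1 : ∀ y : (ZMod 11)ˣ, y ^ 2 = 1 → y = 1 ∨ y = -1 := by decide +kernel

theorem lt (hLA : LAStmt.{u}) : LTStmt.{u} := by
  intro G _ _ A B f s hP hC
  have la := hLA _ hP.iso
  obtain ⟨m, hm⟩ := exists_m hP.cA
  have pA : A ∈ Pts (A ⊔ B) := ⟨le_sup_left, hP.cA⟩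
  have pB : B ∈ Pts (A ⊔ B) := ⟨le_sup_right, hP.cB⟩
  have m1 : ∀ g : Nm A, m g = 1 ↔ (g : G) ∈ Ct A := fun g => by
    rw [← ex_one, hm, Units.ext_iff]; simp
  have m2 : ∀ g : Nm A, m g = -1 ↔ Ex (g : G) A (-1) := fun g => by
    rw [hm, Units.ext_iff]; simp
  have m3 : ∀ g : Nm A, m g ^ 2 ≠ 1 ↔ Big (g : G) A := fun g => by
    have e : ∀ i : ℤ, (m g : ZMod 11) = i → ((11 : ℤ) ∣ i ^ 2 - 1 ↔ m g ^ 2 = 1) := fun i hi => by
      rw [Units.ext_iff, Units.val_pow_eq_pow_val, hi]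
      refine (ZMod.intCast_zmod_eq_zero_iff_dvd _ 11).symm.trans ?_
      push_cast
      exact sub_eq_zero
    constructor
    · intro h
      obtain ⟨i, hi⟩ := ZMod.intCast_surjective (m g : ZMod 11)
      exact ⟨i, (hm g i).2 hi.symm, fun h' => h ((e i hi.symm).1 h')⟩
    · rintro ⟨i, hi, h⟩ h'
      exact h ((e i ((hm g i).1 hi)).2 h')
  let F : Nm A := ⟨f, hC.fA⟩
  have F5 : m F ^ 5 = 1 := by
    rw [← map_pow, show F ^ 5 = 1 from Subtype.ext (hC.fo ▸ pow_orderOf_eq_one f), map_one]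
  have F2 : m F ^ 2 ≠ 1 := (m3 F).2 hC.big
  have same : ∀ g h : Nm A, (g : G) ∈ Nm B → (h : G) ∈ Nm B → m g = m h →
      ∃ k ∈ Ct (A ⊔ B), (g : G) = k * h := fun g h hg hh e =>
    ⟨g * (h : G)⁻¹, hC.cen _ ((m1 (g * h⁻¹)).1 (by rw [map_mul, map_inv, e, mul_inv_cancel]))
      (mul_mem hg (inv_mem hh)), by simp⟩
  have e1T : E1 A B → ∀ g ∈ Nm A, g ∈ Nm B → ∃ k ∈ Ct (A ⊔ B), ∃ n : ℕ, g = k * f ^ n := by
    intro h1 g gA gB
    obtain ⟨n, h | h⟩ := tri (m F) (m ⟨g, gA⟩) F5 F2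
    · obtain ⟨k, hk, e⟩ := same ⟨g, gA⟩ (F ^ n.1) gB (pow_mem hC.fB _) (by rw [h, map_pow])
      exact ⟨k, hk, n, e⟩
    · exact absurd ((m2 ((F ^ n.1)⁻¹ * ⟨g, gA⟩)).1 (by
        rw [map_mul, map_inv, map_pow, h, inv_mul_cancel_left]))
        (h1 _ ((F ^ n.1)⁻¹ * ⟨g, gA⟩).2 (mul_mem (inv_mem (pow_mem hC.fB _)) gB))
  have KA : Ct (A ⊔ B) ≤ Ct A := centralizer_le (SetLike.coe_subset_coe.2 le_sup_left)
  have KB : Ct (A ⊔ B) ≤ Ct B := centralizer_le (SetLike.coe_subset_coe.2 le_sup_right)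
  have KT : Ct (A ⊔ B) ≤ Nm A ⊓ Nm B := le_inf (KA.trans (centralizer_le_normalizer _))
    (KB.trans (centralizer_le_normalizer _))
  let φ : (Nm A ⊓ Nm B : Subgroup G) →* (ZMod 11)ˣ := m.comp (inclusion inf_le_left)
  have cT : Nat.card (Nm A ⊓ Nm B : Subgroup G) = Nat.card φ.range * Nat.card (Ct (A ⊔ B)) := by
    have hk : φ.ker = (Ct (A ⊔ B)).subgroupOf _ := by
      ext g
      rw [MonoidHom.mem_ker, mem_subgroupOf]
      exact (m1 _).trans ⟨fun h => hC.cen _ h g.2.2, fun h => KA h⟩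
    rw [← index_ker, ← Nat.card_congr (subgroupOfEquivOfLe KT).toEquiv, ← hk, mul_comm,
      card_mul_index]
  have c10 : Nat.card (ZMod 11)ˣ = 10 := by
    rw [Nat.card_eq_fintype_card]; rfl
  have d10 : Nat.card φ.range ∣ 10 := c10 ▸ card_subgroup_dvd_card _
  have d5 : 5 ∣ Nat.card φ.range := by
    have : Fact (Nat.Prime 5) := ⟨by norm_num⟩
    have h5 : orderOf (m F) = 5 := orderOf_eq_prime F5 (fun h => F2 (by rw [h, one_pow]))
    exact h5 ▸ orderOf_dvd_natCard _ (⟨⟨f, hC.fA, hC.fB⟩, rfl⟩ : m F ∈ φ.range)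
  have hE : E1 A B ↔ -1 ∉ φ.range := by
    constructor
    · rintro h ⟨g, hg⟩
      exact h g g.2.1 g.2.2 ((m2 _).1 hg)
    · intro h g gA gB hg
      exact h ⟨⟨g, gA, gB⟩, (m2 ⟨g, gA⟩).2 hg⟩
  have c510 : Nat.card φ.range = 5 ∨ Nat.card φ.range = 10 := by
    have := Nat.le_of_dvd (by norm_num) d10
    generalize Nat.card φ.range = n at *
    interval_cases n <;> omega
  have TM : Nm A ⊓ Nm B ≤ Nm (A ⊔ B) := fun g hg => by
    rw [← cj_eq_iff, cj_sup, cj_eq_iff.2 hg.1, cj_eq_iff.2 hg.2]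
  have mv : ∀ g ∈ Nm (A ⊔ B), g ∈ Nm A → ∃ a ∈ A, a * g ∈ Nm B := fun g gM gA => by
    obtain ⟨a, ⟨ha, e⟩, -⟩ := la.reg A pA _ (cj_pts gM pB) B pB
      (fun h => hP.ne (cj_inj g ((cj_eq_iff.2 gA).trans h.symm))) hP.ne.symm
    exact ⟨a, ha, by rw [← cj_eq_iff, cj_mul, e]⟩
  refine ⟨e1T, fun h => ?_, fun h g gM => ?_, fun y yA yB hy g gA gB => ?_, fun h => ?_, ?_,
    fun c cA cM => ?_, fun g gA gB => ?_⟩
  · rcases c510 with e | e
    · rw [cT, e]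
    · exact absurd (eq_top_of_card_eq _ (e.trans c10.symm) ▸ mem_top _) (hE.1 h)
  · obtain ⟨l, hl, e⟩ := la.tr _ (cj_pts gM pA) A pA
    rw [← cj_mul, cj_eq_iff] at e
    obtain ⟨a, ha, e'⟩ := mv _ (mul_mem (le_normalizer hl) gM) e
    obtain ⟨k, hk, n, e''⟩ := e1T h _ (mul_mem (le_normalizer ha) e) e'
    have hal : (a * l)⁻¹ ∈ A ⊔ B := inv_mem (mul_mem (mem_sup_left ha) hl)
    refine ⟨k, hk, (a * l)⁻¹ * f ^ n, mul_mem hal (pow_mem hC.fL _), ?_⟩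
    rw [← mul_assoc, ← mem_centralizer_iff.1 hk _ hal, mul_assoc, ← e'']
    group
  · obtain ⟨n, h | h⟩ := tri (m F) (m ⟨g, gA⟩) F5 F2
    · obtain ⟨k, hk, e⟩ := same ⟨g, gA⟩ (F ^ n.1) gB (pow_mem hC.fB _) (by rw [h, map_pow])
      exact ⟨k, hk, n, Or.inl e⟩
    · obtain ⟨k, hk, e⟩ := same ⟨g, gA⟩ (F ^ n.1 * ⟨y, yA⟩) gB (mul_mem (pow_mem hC.fB _) yB)
        (by rw [h, map_mul, map_pow, (m2 ⟨y, yA⟩).2 hy])
      exact ⟨k, hk, n, Or.inr (e.trans (mul_assoc _ _ _).symm)⟩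
  · rcases c510 with e | e
    · have h2 : orderOf (-1 : (ZMod 11)ˣ) = 2 := orderOf_eq_prime (by decide) (by decide)
      have := orderOf_dvd_natCard _ (not_not.1 (mt hE.2 h))
      rw [h2, e] at this
      omega
    · rw [cT, e]
  · have o1 : {Y | ∃ h ∈ Nm (A ⊔ B), cj h A = Y} = Pts (A ⊔ B) := by
      ext Y
      constructor
      · rintro ⟨h, hh, rfl⟩
        exact cj_pts hh pA
      · intro hY
        obtain ⟨g, hg, e⟩ := la.tr A pA Y hY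
        exact ⟨g, le_normalizer hg, e⟩
    have o2 : {Y | ∃ h ∈ Nm (A ⊔ B) ⊓ Nm A, cj h B = Y} = Pts (A ⊔ B) \ {A} := by
      ext Y
      constructor
      · rintro ⟨h, hh, rfl⟩
        exact ⟨cj_pts hh.1 pB, fun e => hP.ne (cj_inj h ((cj_eq_iff.2 hh.2).trans e.symm))⟩
      · rintro ⟨hY, hne⟩
        obtain ⟨a, ⟨ha, e⟩, -⟩ := la.reg A pA B pB Y hY hP.ne.symm hne
        exact ⟨a, ⟨le_normalizer (mem_sup_left ha), le_normalizer ha⟩, e⟩
    rw [card_orb _ A, card_orb (Nm (A ⊔ B) ⊓ Nm A) B, o1, o2, Set.ncard_sdiff_singleton_of_mem pA,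
      la.npts, inf_assoc, inf_eq_right.2 TM, ← mul_assoc]
    rfl
  · obtain ⟨a, ha, e⟩ := mv c cM (centralizer_le_normalizer _ cA)
    have aC : a ∈ Ct A := by
      obtain ⟨z, -, rfl⟩ := gen11 hP.cA
      obtain ⟨i, rfl⟩ := mem_zpowers_iff.1 ha
      refine mem_centralizer_iff.2 fun b hb => ?_
      obtain ⟨j, rfl⟩ := mem_zpowers_iff.1 hb
      exact (Commute.zpow_zpow_self z j i).eq
    have hk := hC.cen _ (mul_mem aC cA) e
    refine ⟨a * c, hk, a⁻¹, inv_mem ha, ?_⟩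
    rw [← mem_centralizer_iff.1 hk _ (mem_sup_left (inv_mem ha)), inv_mul_cancel_left]
  · by_cases h : m ⟨g, gA⟩ ^ 2 = 1
    · rcases sq1 _ h with e | e
      · exact Or.inl (hC.cen _ ((m1 _).1 e) gB)
      · exact Or.inr (Or.inl ((m2 _).1 e))
    · exact Or.inr (Or.inr ((m3 _).1 h))

end Cfsg.Agent.H61.ElLt
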