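import Cfsg.Agent.H73.GagDefs

/-! Project GAG, piece G7B: two commuting groups `A_t`, `A_s` under an `SL₂(2^a)`. -/

set_option autoImplicit false

namespace Cfsg.Agent.H61.GagG7b

open Subgroup Cfsg Cfsg.Agent.H73.Gag
open scoped MatrixGroups

universe u

variable {G V : Type u} [Group G] [AddCommGroup V] [DistribMulAction G V]

/-- `1 + g` -/
def nu (V : Type u) [AddCommGroup V] [DistribMulAction G V] (g : G) : V →+ V :=
  AddMonoidHom.mk' (fun v => g • v + v) fun v w => by rw [smul_add]; abel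

theorem nu_apply (g : G) (v : V) : nu V g v = g • v + v := rfl

theorem smul_nu (k g : G) (v : V) : k • nu V g v = nu V (k * g * k⁻¹) (k • v) := by
  rw [nu_apply, nu_apply, smul_add, mul_smul, mul_smul, inv_smul_smul]

theorem nu_mul (h2 : ∀ v : V, v + v = 0) (a b : G) (v : V) :
    nu V (a * b) v = nu V a (b • v) + nu V b v := by
  simp only [nu_apply, mul_smul]
  rw [add_assoc, ← add_assoc (b • v), h2, zero_add]

theorem nu_comm {a b : G} (h : Commute a b) (v : V) : nu V a (nu V b v) = nu V b (nu V a v) := by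
  simp only [nu_apply, smul_add, ← mul_smul, h.eq]
  abel

theorem mem_ker_nu (h2 : ∀ v : V, v + v = 0) {g : G} {v : V} : v ∈ (nu V g).ker ↔ g • v = v := by
  rw [AddMonoidHom.mem_ker, nu_apply, ← h2 v, add_left_inj]

theorem card_map_mul {W : AddSubgroup V} (f : V →+ V) (h : f.ker ≤ W) :
    Nat.card f.ker * Nat.card (W.map f) = Nat.card W := by
  rw [← AddSubgroup.relIndex_ker, ← Nat.card_congr (AddSubgroup.addSubgroupOfEquivOfLe h).toEquiv]
  exact AddSubgroup.card_mul_index _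

theorem ord2 {a : G} (h : a ^ 2 = 1) (a1 : a ≠ 1) : orderOf a = 2 := orderOf_eq_prime h a1

theorem fix_nu {a : G} (h : a ^ 2 = 1) (v : V) : a • nu V a v = nu V a v := by
  rw [nu_apply, smul_add, ← mul_smul, ← pow_two, h, one_smul, add_comm]

theorem KitA.nu_fix (h2 : ∀ v : V, v + v = 0) (k : KitA G V) {t a : G} (ht : orderOf t = 2)
    (ha : a ∈ AA V t) (v : V) : nu V a v ∈ (nu V t).ker := by
  by_cases a1 : a = 1
  · rw [a1, nu_apply, one_smul, h2]; exact zero_mem _
  · exact (mem_ker_nu h2).2 ((k.fix t ht a ha a1 _).1 (fix_nu (k.sq t ht a ha) v))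

/-- `ν_a U_s ≤ ν_s U_t` for `a ∈ A_t` commuting with `s` -/
theorem KitA.nu_swap (h2 : ∀ v : V, v + v = 0) (k : KitA G V) {t s a : G} (ht : orderOf t = 2)
    (hs : orderOf s = 2) (ha : a ∈ AA V t) (c : Commute a s) {u : V} (hu : u ∈ (nu V s).ker) :
    ∃ w ∈ (nu V t).ker, nu V a u = nu V s w := by
  obtain ⟨v, rfl⟩ := k.free s hs u ((mem_ker_nu h2).1 hu)
  exact ⟨nu V a v, KitA.nu_fix h2 k ht ha v, nu_comm c v⟩

theorem g7b (alg : AlgStmt.{u}) : G7bStmt.{u} := by
  intro G V _ _ _ _ srm k t s y ht hs hy ne cm K ⟨yK, BK, KN, F, _, _, n, hF, hn, ρ, hρ, hker⟩ a ha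
  have h2 := srm.add_self
  haveI := srm.fin
  have tt := self_mem_AA (V := V) t
  have ss := self_mem_AA (V := V) s
  have dec : ∀ b ∈ AA V t ⊔ AA V s, ∃ a ∈ AA V t, ∃ a' ∈ AA V s, a * a' = b := fun b hb => by
    have : AA V s ≤ normalizer (AA V t : Set G) :=
      fun x hx => centralizer_le_normalizer _ fun z hz => (cm z hz x hx).eq
    have e := coe_mul_of_right_le_normalizer_left _ _ this
    have hb' : b ∈ ((AA V t ⊔ AA V s : Subgroup G) : Set G) := hb
    rw [e] at hb'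
    obtain ⟨a, ha, a', ha', e⟩ := hb'
    exact ⟨a, ha, a', ha', e⟩
  have lt : AA V t ≤ AA V t ⊔ AA V s := le_sup_left
  have ls : AA V s ≤ AA V t ⊔ AA V s := le_sup_right
  generalize AA V t ⊔ AA V s = B at *
  have tB := lt tt
  have sB := ls ss
  have sq : ∀ b ∈ B, b ^ 2 = 1 := fun b hb => by
    obtain ⟨a, ha, a', ha', rfl⟩ := dec b hb
    rw [(cm a ha a' ha').mul_pow, k.sq t ht a ha, k.sq s hs a' ha', one_mul]
  have bc : ∀ b ∈ B, ∀ c ∈ B, b * c = c * b := fun b hb c hc => by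
    obtain ⟨a, ha, a', ha', rfl⟩ := dec b hb
    obtain ⟨d, hd, d', hd', rfl⟩ := dec c hc
    exact (((k.comm t ht a ha d hd).mul_right (cm a ha d' hd')).mul_left
      ((cm d hd a' ha').symm.mul_right (k.comm s hs a' ha' d' hd'))).eq
  have cj : ∀ g : K, ∀ b ∈ B, g.1 * b * g.1⁻¹ ∈ B := fun g b hb =>
    (mem_normalizer_iff.1 (KN g.2) b).1 hb
  obtain ⟨W, hW⟩ : ∃ W, W = (nu V t).ker ⊔ (nu V s).ker := ⟨_, rfl⟩
  have nuW : ∀ b ∈ B, ∀ v, nu V b v ∈ W := fun b hb v => by
    obtain ⟨a, ha, a', ha', rfl⟩ := dec b hb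
    rw [nu_mul h2, hW]
    exact add_mem (AddSubgroup.mem_sup_left (KitA.nu_fix h2 k ht ha _))
      (AddSubgroup.mem_sup_right (KitA.nu_fix h2 k hs ha' _))
  have kerW : ∀ b ∈ B, b ≠ 1 → (nu V b).ker ≤ W := fun b hb b1 v hv => by
    obtain ⟨w, rfl⟩ := k.free b (ord2 (sq b hb) b1) v ((mem_ker_nu h2).1 hv)
    exact nuW b hb w
  have indW : ∀ P : V → Prop, (∀ u v, P u → P v → P (u + v)) → (∀ u ∈ (nu V t).ker, P u) →
      (∀ u ∈ (nu V s).ker, P u) → ∀ w ∈ W, P w := fun P p1 p2 p3 w hw => by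
    obtain ⟨u, hu, v, hv, rfl⟩ := AddSubgroup.mem_sup.1 (hW ▸ hw)
    exact p1 u v (p2 u hu) (p3 v hv)
  have invW : ∀ g : K, ∀ w ∈ W, g • w ∈ W := fun g => by
    refine indW _ (fun u v h h' => by rw [smul_add]; exact add_mem h h') (fun u hu => ?_)
      fun u hu => ?_
    · obtain ⟨w, rfl⟩ := k.free t ht u ((mem_ker_nu h2).1 hu)
      exact (smul_nu g.1 t w).symm ▸ nuW _ (cj g t tB) _
    · obtain ⟨w, rfl⟩ := k.free s hs u ((mem_ker_nu h2).1 hu)
      exact (smul_nu g.1 s w).symm ▸ nuW _ (cj g s sB) _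
  have sW : (nu V s).ker ≤ W := hW ▸ le_sup_right
  have zero : ∀ {t a : G} {u : V}, a ∈ AA V t → u ∈ (nu V t).ker → nu V a u = 0 :=
    fun ha hu => (mem_ker_nu h2).2 (ha _ ((mem_ker_nu h2).1 hu))
  have tW : (nu V t).ker ≤ W := hW ▸ le_sup_left
  have invB : ∀ b ∈ B, ∀ w ∈ W, b • w ∈ W := fun b hb w hw => invW ⟨b, BK hb⟩ w hw
  have nuS : ∀ a' ∈ AA V s, ∀ w ∈ W, nu V a' w ∈ W.map (nu V t) := fun a' ha' => by
    refine indW _ (fun u v h h' => by rw [map_add]; exact add_mem h h') (fun u hu => ?_)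
      fun u hu => by rw [zero ha' hu]; exact zero_mem _
    obtain ⟨w, hw, e⟩ := KitA.nu_swap h2 k hs ht ha' (cm t tt a' ha').symm hu
    exact ⟨w, sW hw, e.symm⟩
  have nuR : ∀ b ∈ B, ∀ w ∈ W, nu V b w ∈ W.map (nu V t) := fun b hb w hw => by
    obtain ⟨a, ha, a', ha', rfl⟩ := dec b hb
    rw [nu_mul h2]
    refine add_mem ?_ (nuS a' ha' w hw)
    refine indW (fun w => nu V a w ∈ W.map (nu V t))
      (fun u v h h' => by rw [map_add]; exact add_mem h h')
      (fun u hu => by rw [zero ha hu]; exact zero_mem _) (fun u hu => ?_) _ (invB a' (ls ha') w hw)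
    obtain ⟨w, hw, e⟩ := KitA.nu_swap h2 k ht hs ha (cm a ha s ss) hu
    exact e ▸ nuS s ss w (tW hw)
  have fixR : ∀ r ∈ W.map (nu V t), ∀ b ∈ B, b • r = r := by
    rintro _ ⟨w, hw, rfl⟩ b hb
    obtain ⟨a, ha, a', ha', rfl⟩ := dec b hb
    have : s • nu V t w = nu V t w := by
      refine indW (fun w => s • nu V t w = nu V t w)
        (fun u v h h' => by rw [map_add, smul_add, h, h'])
        (fun u hu => by rw [zero tt hu, smul_zero]) (fun u hu => ?_) w hw
      rw [smul_nu, (mem_ker_nu h2).1 hu, ← (cm t tt s ss).eq, mul_inv_cancel_right]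
    rw [mul_smul, ha' _ this, ha _ (fix_nu (k.sq t ht t tt) w)]
  have cardk : ∀ b : G, orderOf b = 2 → Nat.card (nu V b).ker ^ 2 = Nat.card V := fun b hb => by
    rw [← k.half b hb]
    exact congrArg (· ^ 2) (Nat.card_congr (Equiv.subtypeEquivRight fun v => mem_ker_nu h2))
  have surj : ∀ b ∈ B, b ≠ 1 → W.map (nu V b) = W.map (nu V t) := fun b hb b1 => by
    refine AddSubgroup.eq_of_le_of_card_ge (by rintro _ ⟨w, hw, rfl⟩; exact nuR b hb w hw) ?_
    have e := (card_map_mul _ (kerW b hb b1)).trans (card_map_mul _ tW).symm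
    rw [Nat.pow_left_injective two_ne_zero ((cardk b (ord2 (sq b hb) b1)).trans (cardk t ht).symm)] at e
    exact (Nat.eq_of_mul_eq_mul_left Nat.card_pos e).ge
  have ntR : Nontrivial (W.map (nu V t)) := by
    by_contra h
    have : t ∈ AA V s := fun v hv => (mem_ker_nu h2).1 (congrArg Subtype.val
      ((not_nontrivial_iff_subsingleton.1 h).elim
        (⟨nu V t v, v, sW ((mem_ker_nu h2).2 hv), rfl⟩ : W.map (nu V t)) 0))
    exact ne (k.eq s hs t this (by rintro rfl; simp at ht)).symm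
  have invR : ∀ g : K, ∀ r ∈ W.map (nu V t), g • r ∈ W.map (nu V t) := by
    rintro g _ ⟨w, hw, rfl⟩
    exact (smul_nu g.1 t w).symm ▸ nuR _ (cj g t tB) _ (invW g w hw)
  generalize W.map (nu V t) = R at *
  have kerB : ∀ g : K, ρ g = 1 → g.1 ∈ B := fun g hg => (hker ▸ hg : g ∈ B.subgroupOf K)
  -- the three modules
  obtain ⟨iW, eW⟩ := H82.exists_subAct (G := K) W invW
  obtain ⟨iY0, eY0⟩ := H82.exists_quotAct (G := K) ((H82.fixS V B).addSubgroupOf W) fun g w hw => by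
    show ((g • w : W) : V) ∈ H82.fixS V B
    rw [eW]
    exact H82.smul_mem_fixS_of_normalizer hw (KN g.2)
  obtain ⟨iY, eY⟩ := H82.exists_descend (M := W ⧸ (H82.fixS V B).addSubgroupOf W) ρ hρ fun g hg m => by
    obtain ⟨w, rfl⟩ := QuotientAddGroup.mk_surjective m
    rw [eY0, QuotientAddGroup.eq]
    show -((g • w : W) : V) + w ∈ H82.fixS V B
    rw [eW, neg_eq_of_add_eq_zero_left (h2 _)]
    exact fixR _ (nuR _ (kerB g hg) w w.2)
  obtain ⟨iR0, eR0⟩ := H82.exists_subAct (G := K) R invR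
  obtain ⟨iR, eR⟩ := H82.exists_descend (M := R) ρ hρ fun g hg m =>
    Subtype.ext (by rw [eR0]; exact fixR _ m.2 _ (kerB g hg))
  letI : CommGroup B := { (inferInstance : Group B) with
    mul_comm := fun b c => Subtype.ext (bc _ b.2 _ c.2) }
  letI iB0 : DistribMulAction K (Additive B) :=
    { smul := fun g b => .ofMul ⟨g.1 * b.toMul.1 * g.1⁻¹, cj g _ b.toMul.2⟩
      one_smul := fun b => congrArg Additive.ofMul (Subtype.ext (by
        show (1 : G) * b.toMul.1 * 1⁻¹ = b.toMul.1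
        group))
      mul_smul := fun g h b => congrArg Additive.ofMul (Subtype.ext (by
        show (g * h).1 * b.toMul.1 * (g * h).1⁻¹ = g.1 * (h.1 * b.toMul.1 * h.1⁻¹) * g.1⁻¹
        simp [mul_assoc]))
      smul_zero := fun g => congrArg Additive.ofMul (Subtype.ext (by
        show g.1 * 1 * g.1⁻¹ = 1
        simp))
      smul_add := fun g b c => congrArg Additive.ofMul (Subtype.ext (by
        show g.1 * (b.toMul.1 * c.toMul.1) * g.1⁻¹ =
          g.1 * b.toMul.1 * g.1⁻¹ * (g.1 * c.toMul.1 * g.1⁻¹)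
        group)) }
  have eB0 : ∀ (g : K) (b : Additive B), (g • b).toMul.1 = g.1 * b.toMul.1 * g.1⁻¹ := fun _ _ => rfl
  obtain ⟨iB, eB⟩ := H82.exists_descend (M := Additive B) ρ hρ fun g hg m =>
    Additive.toMul.injective (Subtype.ext (by
      rw [eB0, bc _ (kerB g hg) _ m.toMul.2, mul_inv_cancel_right]))
  let g0 : Additive B → (W ⧸ (H82.fixS V B).addSubgroupOf W) →+ R := fun b =>
    QuotientAddGroup.lift _ (((nu V b.toMul.1).comp W.subtype).codRestrict R
      fun w => nuR _ b.toMul.2 w w.2) fun w hw => Subtype.ext ((mem_ker_nu h2).2 (hw _ b.toMul.2))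
  have eg : ∀ (b : Additive B) (w : W), (g0 b w : V) = nu V b.toMul.1 w := fun _ _ => rfl
  haveI : Fact (Nat.Prime 2) := ⟨Nat.prime_two⟩
  haveI := H82.charP_of_card hF
  have F2 : (2 : F) = 0 := CharTwo.two_eq_zero
  have y3 : y ^ 3 = 1 := hy ▸ pow_orderOf_eq_one y
  have tr : ρ ⟨y, yK⟩ 0 0 + ρ ⟨y, yK⟩ 1 1 = 1 := by
    rw [H82.trace_of_pow_three (by rw [← map_pow, ← map_one ρ]; exact congrArg ρ (Subtype.ext y3))
      fun e => ?_, CharTwo.neg_eq]
    have := orderOf_dvd_of_pow_eq_one (sq y (kerB _ e))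
    rw [hy] at this
    omega
  have key := alg F F2 (by
      rw [Nat.card_eq_fintype_card, hF]
      exact lt_of_lt_of_le (by norm_num) (Nat.pow_le_pow_right two_pos hn))
    (W ⧸ (H82.fixS V B).addSubgroupOf W) R (Additive B)
    (fun m => by
      obtain ⟨w, rfl⟩ := QuotientAddGroup.mk_surjective m
      rw [← QuotientAddGroup.mk_add, show w + w = 0 from Subtype.ext (h2 _)]
      rfl)
    (fun m => Subtype.ext (h2 _))
    (fun m => Additive.toMul.injective (Subtype.ext ((pow_two _).symm.trans (sq _ m.toMul.2))))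
    (H82.fpf3_of_elt F2 tr fun m => by
      obtain ⟨w, rfl⟩ := QuotientAddGroup.mk_surjective m
      rw [← map_inv, eY, eY, eY0, eY0, ← QuotientAddGroup.mk_add, ← QuotientAddGroup.mk_neg]
      congr 1
      refine Subtype.ext ?_
      rw [AddSubgroup.coe_add, eW, eW]
      exact srm.three hy _)
    (H82.fpf3_of_elt F2 tr fun m => by
      rw [← map_inv, eR, eR]
      refine Subtype.ext ?_
      rw [AddSubgroup.coe_add, eR0, eR0]
      exact srm.three hy _)
    (AddMonoidHom.mk' g0 fun b c => AddMonoidHom.ext fun m => by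
      obtain ⟨w, rfl⟩ := QuotientAddGroup.mk_surjective m
      refine Subtype.ext ?_
      rw [AddMonoidHom.add_apply, AddSubgroup.coe_add, eg, eg, eg]
      show nu V (b.toMul.1 * c.toMul.1) w = _
      have f := fixR _ (nuR _ c.toMul.2 w w.2) _ b.toMul.2
      rw [nu_mul h2, add_left_inj, ← sub_eq_zero, ← map_sub, sub_eq_add_neg,
        neg_eq_of_add_eq_zero_left (h2 _)]
      exact (mem_ker_nu h2).2 f)
    (fun x b m => by
      obtain ⟨g, rfl⟩ := hρ x
      obtain ⟨w, rfl⟩ := QuotientAddGroup.mk_surjective m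
      refine Subtype.ext ?_
      rw [eR, eR0, eY, eY0, eB]
      show (g0 (g • b) (g • w : W) : V) = g.1 • (g0 b w : V)
      rw [eg, eg, eB0, eW, smul_nu]
      rfl)
    (fun b b0 r => by
      obtain ⟨w, hw, e⟩ := (surj _ b.toMul.2
        fun e => b0 (Additive.toMul.injective (Subtype.ext e))).ge r.2
      exact ⟨QuotientAddGroup.mk (⟨w, hw⟩ : W), Subtype.ext ((eg b ⟨w, hw⟩).trans e)⟩)
    (ρ ⟨y, yK⟩) (.ofMul ⟨a, lt ha⟩)
  rw [eB] at key
  have := congrArg (fun b : Additive B => b.toMul.1) key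
  exact (mul_inv_eq_iff_eq_mul.1 this).symm

end Cfsg.Agent.H61.GagG7b
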