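import Mathlib
import Cfsg.Agent.H61.ZassKernel

/-!
Half-transitive groups of automorphisms (Isaacs--Passman).
-/

set_option autoImplicit false

namespace Cfsg.Agent.H61

open MulAction

theorem dvd_card_of_index_stabilizer {L X : Type*} [Group L] [Finite L] [MulAction L X] [Finite X]
    {e : ℕ}
    (h : ∀ x : X, e ∣ (stabilizer L x).index) : e ∣ Nat.card X := by
  have := Fintype.ofFinite (orbitRel.Quotient L X)
  rw [Nat.card_congr (selfEquivSigmaOrbitsQuotientStabilizer L X), Nat.card_sigma]
  exact Finset.dvd_sum fun ω _ => h ω.out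

/-- A block whose size is prime to the common orbit length is fixed pointwise by the stabilisers
of its points. -/
theorem fix_of_block {H X : Type*} [Group H] [Finite H] [MulAction H X] [Finite X] (S : Set X)
    {m : ℕ} (hm : ∀ y ∈ S, (stabilizer H y).index = m) (hc : (Nat.card S).Coprime m)
    (hb : ∀ (h : H), ∀ y ∈ S, h • y ∈ S → ∀ z ∈ S, h • z ∈ S) {x : X} (hx : x ∈ S) {h : H}
    (hh : h • x = x) : ∀ z ∈ S, h • z = z := by
  let L : Subgroup H :=
    { carrier := {g | g • x ∈ S}
      one_mem' := by simpa using hx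
      mul_mem' := fun {a b} ha hb' => by
        change (a * b) • x ∈ S
        rw [mul_smul]
        exact hb a x hx ha _ hb'
      inv_mem' := fun {a} ha => hb a⁻¹ _ ha (by simpa using hx) x hx }
  let _ : MulAction L S :=
    { smul := fun g y => ⟨g.1 • y.1, hb g.1 x hx g.2 _ y.2⟩
      one_smul := fun y => Subtype.ext (one_smul H y.1)
      mul_smul := fun a b y => Subtype.ext (mul_smul a.1 b.1 y.1) }
  have hle : ∀ y ∈ S, stabilizer H y ≤ L := fun y hy g hg => hb g y hy (hg.symm ▸ hy) x hx
  have hi : ∀ y : S, (stabilizer L y).index * L.index = m := fun y => by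
    rw [← hm y.1 y.2, ← Subgroup.relIndex_mul_index (hle y.1 y.2)]
    congr 2
    ext g
    exact ⟨fun hg => congrArg Subtype.val hg, fun hg => Subtype.ext hg⟩
  intro z hz
  have h1 : (stabilizer L (⟨z, hz⟩ : S)).index ∣ Nat.card S :=
    dvd_card_of_index_stabilizer (L := L) fun y => dvd_of_eq (Nat.eq_of_mul_eq_mul_right
      (Nat.pos_of_ne_zero Subgroup.index_ne_zero_of_finite) ((hi _).trans (hi y).symm))
  have h2 := Nat.eq_one_of_dvd_coprimes hc h1 (Dvd.intro _ (hi _))
  rw [Subgroup.index_eq_one] at h2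
  have : (⟨h, hle x hx hh⟩ : L) ∈ stabilizer L (⟨z, hz⟩ : S) := h2 ▸ Subgroup.mem_top _
  exact congrArg Subtype.val this

variable {H N : Type*} [Group H] [Finite H] [Group N] [Finite N] [MulDistribMulAction H N]

theorem coprime_card_of_half {m : ℕ} (hm : ∀ y : N, y ≠ 1 → (stabilizer H y).index = m) :
    (Nat.card N).Coprime m := by
  let _ : MulAction H {x : N // x ≠ 1} :=
    { smul := fun g y => ⟨g • y.1, fun e => y.2 (by rw [← inv_smul_smul g y.1, e, smul_one])⟩
      one_smul := fun y => Subtype.ext (one_smul H y.1)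
      mul_smul := fun a b y => Subtype.ext (mul_smul a b y.1) }
  have h1 : m ∣ Nat.card {x : N // x ≠ 1} := dvd_card_of_index_stabilizer (L := H) fun y => by
    rw [← hm y.1 y.2]
    refine dvd_of_eq (congrArg Subgroup.index ?_)
    ext g
    exact ⟨fun hg => Subtype.ext hg, fun hg => congrArg Subtype.val hg⟩
  rw [natCard_ne] at h1
  refine Nat.Coprime.coprime_dvd_right h1 ?_
  have : 0 < Nat.card N := Nat.card_pos
  rw [show Nat.card N = Nat.card N - 1 + 1 by omega]
  simp

theorem stabilizer_eq_of_le {m : ℕ} (hm : ∀ y : N, y ≠ 1 → (stabilizer H y).index = m) {x y : N}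
    (hx : x ≠ 1) (hy : y ≠ 1) (h : stabilizer H x ≤ stabilizer H y) :
    stabilizer H x = stabilizer H y :=
  Subgroup.eq_of_le_of_card_ge h (Nat.eq_of_mul_eq_mul_left
    (Nat.pos_of_ne_zero (Subgroup.index_ne_zero_of_finite (H := stabilizer H x))) (by
      rw [Subgroup.index_mul_card, hm x hx, ← hm y hy, Subgroup.index_mul_card])).le

/-- Isaacs--Passman: a faithful half-transitive action that is not semiregular is irreducible. -/
theorem irreducible_of_half {m : ℕ} (hf : ∀ h : H, (∀ y : N, h • y = y) → h = 1)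
    (hm : ∀ y : N, y ≠ 1 → (stabilizer H y).index = m) (hns : m ≠ Nat.card H) (U : Subgroup N)
    (hU : ∀ h : H, ∀ u ∈ U, h • u ∈ U) : U = ⊥ ∨ U = ⊤ := by
  by_contra hh
  push Not at hh
  obtain ⟨⟨u, hu⟩, hu1⟩ := Subgroup.ne_bot_iff_exists_ne_one.mp hh.1
  replace hu1 : u ≠ 1 := fun e => hu1 (Subtype.ext e)
  have key : ∀ x, x ∉ U → ∀ h : H, h • x = x → ∀ v ∈ U, h • v = v := by
    intro x hx h hh v hv
    have := fix_of_block (H := H) {y | x⁻¹ * y ∈ U} (m := m)
      (fun y hy => hm y (by rintro rfl; exact hx (by simpa using hy))) (by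
        refine Nat.Coprime.coprime_dvd_left ?_ (coprime_card_of_half hm)
        have e : Nat.card {y | x⁻¹ * y ∈ U} = Nat.card U :=
          Nat.card_congr ((Equiv.mulLeft x⁻¹).subtypeEquiv (q := (· ∈ U)) fun _ => Iff.rfl)
        exact e ▸ U.card_subgroup_dvd_card) (by
        intro g y hy hgy z hz
        change x⁻¹ * g • z ∈ U
        have : x⁻¹ * g • z = x⁻¹ * g • y * g • ((x⁻¹ * y)⁻¹ * (x⁻¹ * z)) := by
          rw [mul_assoc, ← smul_mul']
          congr 2
          group
        rw [this]
        exact U.mul_mem hgy (hU g _ (U.mul_mem (U.inv_mem hy) hz))) (x := x) (by simp) hh (x * v)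
        (by simpa using hv)
    rwa [smul_mul', hh, mul_right_inj] at this
  refine hns ?_
  rw [← hm u hu1, ← Subgroup.index_bot]
  congr 1
  rw [eq_bot_iff]
  intro h hhu
  refine hf h fun y => ?_
  have key' : ∀ x, x ∉ U → h • x = x := fun x hx =>
    (stabilizer_eq_of_le hm (by rintro rfl; exact hx U.one_mem) hu1
      (fun g hg => key x hx g hg u hu) ▸ hhu : h ∈ stabilizer H x)
  by_cases hy : y ∈ U
  · obtain ⟨x, hx⟩ := SetLike.exists_of_lt (lt_top_iff_ne_top.mpr hh.2)
    exact key x hx.2 h (key' x hx.2) y hy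
  · exact key' y hy

/-- Isaacs--Passman: a faithful half-transitive action that is not semiregular is on an
elementary abelian group. -/
theorem elementary_of_half [Nontrivial N] {m : ℕ} (hf : ∀ h : H, (∀ y : N, h • y = y) → h = 1)
    (hm : ∀ y : N, y ≠ 1 → (stabilizer H y).index = m) (hns : m ≠ Nat.card H) :
    (∀ a b : N, a * b = b * a) ∧ ∃ p : ℕ, p.Prime ∧ ∀ x : N, x ^ p = 1 := by
  have hcomm : ∀ a b : N, a * b = b * a := by
    have key : ∀ x : N, x ≠ 1 → ∀ h : H, h • x = x → ∀ g : N, h • (g * x * g⁻¹) = g * x * g⁻¹ := by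
      intro x hx h hh g
      refine fix_of_block (H := H) (orbit (ConjAct N) x) (m := m) ?_ ?_ ?_ (mem_orbit_self x) hh _
        ⟨ConjAct.toConjAct g, rfl⟩
      · rintro _ ⟨c, rfl⟩
        exact hm _ fun e => hx (by rw [← inv_smul_smul c x, show c • x = 1 from e, smul_one])
      · refine Nat.Coprime.coprime_dvd_left ?_ (coprime_card_of_half hm)
        rw [Nat.card_coe_set_eq, ← index_stabilizer]
        exact (stabilizer (ConjAct N) x).index_dvd_card
      · rintro k _ ⟨c, rfl⟩ ⟨d, hd⟩ _ ⟨e, rfl⟩
        refine ⟨ConjAct.toConjAct (k • (ConjAct.ofConjAct e * (ConjAct.ofConjAct c)⁻¹)) * d, ?_⟩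
        simp only [mul_smul, hd, ConjAct.smul_def, smul_mul', smul_inv', ConjAct.ofConjAct_toConjAct]
        group
    obtain ⟨x, hx⟩ := exists_ne (1 : N)
    -- the fixed points of the stabiliser of `x`
    have hC : ∀ x : N, x ≠ 1 → ∃ C : Subgroup N, C.Normal ∧ ∀ y, y ∈ C ↔
        stabilizer H x ≤ stabilizer H y := fun x hx =>
      ⟨{ carrier := {y | stabilizer H x ≤ stabilizer H y}
         one_mem' := fun g _ => smul_one g
         mul_mem' := fun {a b} ha hb g hg => by
          change g • (a * b) = a * b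
          rw [smul_mul', ha hg, hb hg]
         inv_mem' := fun {a} ha g hg => by
          change g • a⁻¹ = a⁻¹
          rw [smul_inv', ha hg] },
        ⟨fun y hy g h hh => by
          by_cases hy1 : y = 1
          · simp [hy1]
          · exact key y hy1 h (hy hh) g⟩, fun _ => Iff.rfl⟩
    have hout : ∀ x y : N, x ≠ 1 → ¬ stabilizer H x ≤ stabilizer H y → x * y = y * x := by
      intro x y hx hxy
      have hy : y ≠ 1 := by rintro rfl; exact hxy fun g _ => smul_one g
      obtain ⟨C, hCn, hC'⟩ := hC x hx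
      obtain ⟨D, hDn, hD'⟩ := hC y hy
      refine Subgroup.commute_of_normal_of_disjoint C D hCn hDn ?_ x y ((hC' x).2 le_rfl)
        ((hD' y).2 le_rfl)
      rw [Subgroup.disjoint_def]
      intro z hz1 hz2
      by_contra hz
      exact hxy ((stabilizer_eq_of_le hm hx hz ((hC' z).1 hz1)).trans
        (stabilizer_eq_of_le hm hy hz ((hD' z).1 hz2)).symm).le
    intro a b
    by_cases ha : a = 1
    · simp [ha]
    by_cases hab : stabilizer H a ≤ stabilizer H b
    swap
    · exact hout a b ha hab
    obtain ⟨z, hz⟩ : ∃ z : N, ¬ stabilizer H a ≤ stabilizer H z := by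
      by_contra hh
      push Not at hh
      refine hns ?_
      rw [← hm a ha, ← Subgroup.index_bot]
      congr 1
      rw [eq_bot_iff]
      exact fun h hh' => hf h fun y => hh y hh'
    have h1 := hout a z ha hz
    have h2 := hout a (b * z) ha fun hh => hz fun g hg => by
      have := hh hg
      rwa [mem_stabilizer_iff, smul_mul', hab hg, mul_right_inj] at this
    rwa [mul_assoc, ← h1, ← mul_assoc, ← mul_assoc, mul_left_inj] at h2
  refine ⟨hcomm, ?_⟩
  obtain ⟨p, hp, hpd⟩ := Nat.exists_prime_and_dvd (Finite.one_lt_card (α := N)).ne'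
  have := Fact.mk hp
  obtain ⟨x, hx⟩ := exists_prime_orderOf_dvd_card' p hpd
  let U : Subgroup N :=
    { carrier := {y | y ^ p = 1}
      one_mem' := one_pow p
      mul_mem' := fun {a b} ha hb => by
        change (a * b) ^ p = 1
        rw [Commute.mul_pow (hcomm a b), ha, hb, one_mul]
      inv_mem' := fun {a} ha => by
        change a⁻¹ ^ p = 1
        rw [inv_pow, ha, inv_one] }
  rcases irreducible_of_half hf hm hns U (fun h u hu => by
    change (h • u) ^ p = 1
    rw [← smul_pow', hu, smul_one]) with h | h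
  · have : x ∈ U := (hx ▸ pow_orderOf_eq_one x : x ^ p = 1)
    rw [h, Subgroup.mem_bot] at this
    rw [this, orderOf_one] at hx
    exact absurd hx hp.one_lt.ne
  · exact ⟨p, hp, fun y => (h ▸ Subgroup.mem_top y : y ∈ U)⟩

end Cfsg.Agent.H61
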