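import Cfsg.Agent.H45.IvDefs

/-! Project CY, chapter IV, piece TG: the triangle lemma. -/

set_option autoImplicit false

namespace Cfsg.Agent.H61.IvTg

open Subgroup MulAction Cfsg.Agent.H11.Cy Cfsg.Agent.H45.Iv
open scoped commutatorElement

theorem tg : TgStmt := by
  intro G _ _ Ω _ _ p A st sk ls fpf Ψ sub good d hd y hy y' hy' ne ne' r hr s hs
  obtain ⟨a, ha, a1⟩ : ∃ a ∈ A d, a ≠ 1 := (A d).bot_or_exists_ne_one.resolve_left fun e => by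
    have := st.card d
    rw [e, card_bot] at this
    exact st.pp.one_lt.ne this
  have RM : ∀ x ∈ Ψ, x ≠ d → Rl A d x ≤ Ms A Ψ := fun x hx h =>
    (le_sup_left.trans_eq (ls d x h.symm).1.sup).trans (sk.fle Ψ d hd x hx).1
  have red : ∀ x ∈ Ψ, x ≠ d → ∀ r ∈ Rl A d x, ∃ z ∈ Cs A Ψ, z ∈ Ms A Ψ ∧ r * z ∈ Rl A d x ∧
      ∃ x1 ∈ Ψ, ∃ c ∈ A x1, r * z = a * c⁻¹ := fun x hx h r hr => by
    obtain ⟨la, -, lc, -⟩ := ls d x h.symm
    obtain ⟨r1, h1, hz⟩ := lc.surj a ha a1 r hr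
    exact ⟨_, sk.zc Ψ good d hd x hx h.symm hz, RM x hx h (la.zle hz), mul_mem hr (la.zle hz),
      r1 • d, sk.inv Ψ sub r1 (RM x hx h h1) d hd, _, st.eqv r1 d a ha, by
        rw [commutatorElement_def]; group⟩
  obtain ⟨z, zC, zM, hr', y1, hy1, c, hc, e1⟩ := red y hy ne r hr
  obtain ⟨z', zC', -, hs', y2, hy2, e, he, e2⟩ := red y' hy' ne' s hs
  have cm : ∀ k ∈ Cs A Ψ, ∀ m ∈ Ms A Ψ, Commute m k := fun k hk m hm => mem_centralizer_iff.1 hk m hm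
  have e0 : ⁅r, s⁆ = ⁅r * z, s * z'⁆ := by
    have h1 := cm z zC _ (RM y' hy' ne' hs')
    have h2 := cm z' zC' _ (RM y hy ne hr)
    calc ⁅r, s⁆ = r * s * (r⁻¹ * z') * z'⁻¹ * s⁻¹ := by rw [commutatorElement_def]; group
      _ = r * (s * z' * z) * z⁻¹ * r⁻¹ * z'⁻¹ * s⁻¹ := by rw [h2.inv_left.eq]; group
      _ = _ := by rw [h1.eq, commutatorElement_def]; group
  rw [e0]
  generalize r * z = u at hr' e1
  generalize s * z' = v at hs' e2
  by_cases hu : u ∈ Zl A d y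
  · rw [commutatorElement_eq_one_iff_commute.2
      (cm u (sk.zc Ψ good d hd y hy ne.symm hu) v (RM y' hy' ne' hs')).symm]
    exact one_mem _
  have u2 := sk.zc Ψ good d hd y hy ne.symm ((ls d y ne.symm).2.1.sq u hr')
  have v2 := sk.zc Ψ good d hd y' hy' ne'.symm ((ls d y' ne'.symm).2.1.sq v hs')
  have key : ∀ w ∈ Ψ, ¬ ∀ w', (u⁻¹ * v) • w' = w' ↔ w' = w := fun w hw h => by
    have h1 : v • w = u • w := by rw [← inv_smul_eq_iff, ← mul_smul, (h w).2 rfl]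
    refine fpf d y ne.symm u hr' hu w ((h _).1 ?_)
    rw [mul_smul, inv_smul_eq_iff, ← mul_smul u, sk.csfix Ψ _ u2 w hw, ← h1, ← mul_smul,
      sk.csfix Ψ _ v2 w hw]
  have eg : u⁻¹ * v = c * e⁻¹ := by rw [e1, e2]; group
  have g2 : u⁻¹ * v * (u⁻¹ * v) ∈ Cs A Ψ := by
    by_cases h : y1 = y2
    · subst h
      have hg : u⁻¹ * v ∈ A y1 := eg ▸ mul_mem hc (inv_mem he)
      by_cases h1 : u⁻¹ * v = 1
      · rw [h1, one_mul]
        exact one_mem _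
      · exact absurd (fun w => ⟨fun hw => (st.semi y1 w _ hg hw).resolve_left h1,
          fun hw => hw ▸ st.fix y1 _ hg⟩) (key y1 hy1)
    · by_cases h1 : u⁻¹ * v ∈ Rl A y1 y2
      · exact sk.zc Ψ good y1 hy1 y2 hy2 h ((ls y1 y2 h).2.1.sq _ h1)
      · obtain ⟨w, hw, h2, -⟩ := (ls y1 y2 h).1.out _
          (eg ▸ mul_mem (mem_sup_left hc) (inv_mem (mem_sup_right he))) h1
        exact absurd h2 (key w (sub y1 hy1 y2 hy2 h hw))
  have := mul_mem (mul_mem u2 g2) (inv_mem v2)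
  rwa [show u * u * (u⁻¹ * v * (u⁻¹ * v)) * (v * v)⁻¹ = ⁅u, v⁆ by
    rw [commutatorElement_def]; group] at this

end Cfsg.Agent.H61.IvTg
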