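import Cfsg.Agent.H9.KCSpec

/-! Project KC: soundness of the unit fraction search. -/

set_option autoImplicit false

namespace Cfsg.Agent.H61.KcDfs

open Finset H9.KC

universe u

theorem powAll_spec {q hi : ℕ} {k : ℕ → Bool} (hq : 0 < q) (f : ℕ) : ∀ u, powAll q hi k f u = true →
    ∀ a, u * q ^ a ≤ hi → k (u * q ^ a) = true := by
  induction f with
  | zero => intro u h; exact absurd h (by simp [powAll])
  | succ f ih =>
    intro u h a ha
    change cond (Nat.ble u hi) (cond (k u) (powAll q hi k f (u * q)) false) true = true at h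
    rw [cond_true_right, cond_false_right, ble_iff] at h
    obtain ⟨h1, h2⟩ := h ((Nat.le_mul_of_pos_right u (pow_pos hq a)).trans ha)
    cases a with
    | zero => simpa using h1
    | succ a =>
      rw [pow_succ', ← mul_assoc] at ha ⊢
      exact ih _ h2 a ha

theorem smAll_spec {hi : ℕ} {k : ℕ → Bool} (ps : List ℕ) (hp : ∀ q ∈ ps, q.Prime) :
    ∀ u, smAll hi k ps u = true → ∀ w, w ≠ 0 → (∀ p, p.Prime → p ∣ w → p ∈ ps) → u * w ≤ hi →
      k (u * w) = true := by
  induction ps with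
  | nil =>
    intro u h w hw hpw _
    have : w = 1 := by
      by_contra h1
      obtain ⟨p, a, b⟩ := Nat.exists_prime_and_dvd h1
      simpa using hpw p a b
    rw [this, mul_one]
    exact h
  | cons q ps ih =>
    intro u h w hw hpw hle
    have hq := hp q (by simp)
    change powAll q hi (smAll hi k ps) 64 u = true at h
    obtain ⟨a, w', h1, rfl⟩ := Nat.exists_eq_pow_mul_and_not_dvd hw q hq.ne_one
    have hw' : w' ≠ 0 := right_ne_zero_of_mul hw
    rw [← mul_assoc] at hle ⊢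
    refine ih (fun r hr => hp r (by simp [hr])) _ (powAll_spec hq.pos 64 u h a
      ((Nat.le_mul_of_pos_right _ (Nat.pos_of_ne_zero hw')).trans hle)) w' hw' (fun p a b => ?_) hle
    rcases List.mem_cons.1 (hpw p a (b.mul_left _)) with rfl | h
    · exact absurd b h1
    · exact h

theorem two_spec {l hi u : ℕ} {k : ℕ → Bool} (h : two l hi k u = true) (hu : u ≠ 0) (a : ℕ)
    (h1 : l < u * 2 ^ a) (h2 : u * 2 ^ a ≤ hi) : k (u * 2 ^ a) = true := by
  change powAll 2 hi k 64 (cond (Nat.ble u l) (u * 2 ^ (Nat.log2 (l / u) + 1)) u) = true at h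
  cases hb : Nat.ble u l
  · rw [hb] at h
    exact powAll_spec two_pos 64 u h a h2
  · rw [hb] at h
    have hul := ble_iff.1 hb
    have h3 : l / u ≠ 0 := (Nat.div_pos hul (Nat.pos_of_ne_zero hu)).ne'
    have h4 : Nat.log2 (l / u) < a :=
      (Nat.log2_lt h3).2 (Nat.div_lt_of_lt_mul h1)
    obtain ⟨b, rfl⟩ := Nat.exists_eq_add_of_le (Nat.succ_le_of_lt h4)
    rw [pow_add, ← mul_assoc] at h2 ⊢
    exact powAll_spec two_pos 64 _ h b h2

theorem scan_spec {l hi c : ℕ} {k : ℕ → Bool} {gp : List ℕ} (hp : ∀ q ∈ gp, q.Prime)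
    (h : smAll hi (two l hi k) gp 1 = true) (hc : ∀ p, p.Prime → p ∣ c → p = 2 ∨ p ∈ gp)
    (h1 : l < c) (h2 : c ≤ hi) : k c = true := by
  have hc0 : c ≠ 0 := by omega
  obtain ⟨a, w, h3, rfl⟩ := Nat.exists_eq_pow_mul_and_not_dvd hc0 2 (by norm_num)
  have hw : w ≠ 0 := right_ne_zero_of_mul hc0
  have h4 := smAll_spec gp hp 1 h w hw (fun p a b => (hc p a (b.mul_left _)).resolve_left
    fun e => h3 (e ▸ b)) (by
      rw [one_mul]
      exact (Nat.le_mul_of_pos_left _ (by positivity)).trans h2)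
  rw [one_mul] at h4
  rw [mul_comm] at h1 h2 ⊢
  exact two_spec h4 hw a h1 h2

theorem updK_spec (c : ℕ) (nd : List Need) : ∀ k : List Need → Bool, updK c nd k = true →
    ∃ nd', k nd' = true ∧ (nd'.map Need.d).Sublist (nd.map Need.d) ∧ ∀ y ∈ nd', ∃ x ∈ nd,
      y.d = x.d ∧ y.cm = x.cm ∧ y.alt = x.alt ∧ y.f = x.f ∧
        y.n = if np x c = true then x.n - 1 else x.n := by
  induction nd with
  | nil => exact fun k h => ⟨[], h, by simp, by simp⟩
  | cons x l ih =>
    intro k h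
    change cond (np x c) (cond (Nat.ble x.n 1) (updK c l k)
      (updK c l fun l => k (⟨x.d, x.n - 1, x.cm, x.alt, x.f⟩ :: l)))
      (updK c l fun l => k (x :: l)) = true at h
    cases h1 : np x c
    · rw [h1] at h
      obtain ⟨nd', a, b, d⟩ := ih _ h
      refine ⟨x :: nd', a, b.cons_cons _, fun y hy => ?_⟩
      rcases List.mem_cons.1 hy with rfl | hy
      · exact ⟨y, by simp, rfl, rfl, rfl, rfl, by simp [h1]⟩
      · obtain ⟨z, hz, e⟩ := d y hy
        exact ⟨z, by simp [hz], e⟩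
    · rw [h1] at h
      cases h2 : Nat.ble x.n 1
      · rw [h2] at h
        obtain ⟨nd', a, b, d⟩ := ih _ h
        refine ⟨_ :: nd', a, b.cons_cons _, fun y hy => ?_⟩
        rcases List.mem_cons.1 hy with rfl | hy
        · exact ⟨x, by simp, rfl, rfl, rfl, rfl, by simp [h1]⟩
        · obtain ⟨z, hz, e⟩ := d y hy
          exact ⟨z, by simp [hz], e⟩
      · rw [h2] at h
        obtain ⟨nd', a, b, d⟩ := ih _ h
        refine ⟨nd', a, b.cons _, fun y hy => ?_⟩
        obtain ⟨z, hz, e⟩ := d y hy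
        exact ⟨z, by simp [hz], e⟩

variable {ι : Type u} [DecidableEq ι] {N : ℕ} {o c : ι → ℕ}

theorem nv_upd {R : Finset ι} {nd nd' : List Need} (h : NV o c R nd) (i : ι)
    (h1 : (nd'.map Need.d).Sublist (nd.map Need.d)) (h2 : ∀ y ∈ nd', ∃ x ∈ nd,
      y.d = x.d ∧ y.cm = x.cm ∧ y.alt = x.alt ∧ y.f = x.f ∧
        y.n = if np x (c i) = true then x.n - 1 else x.n) : NV o c (R.erase i) nd' := by
  refine ⟨h.nodup.sublist h1, fun y hy => ?_, fun y hy => ?_, fun y hy j a b => ?_⟩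
  · obtain ⟨x, hx, -, e, -⟩ := h2 y hy
    exact e ▸ h.pos x hx
  · obtain ⟨x, hx, e1, -, -, e2, e3⟩ := h2 y hy
    have := h.cnt x hx
    rw [e1, e2, e3, filter_erase]
    split_ifs with hn
    · exact (Nat.sub_le_sub_right this 1).trans pred_card_le_card_erase
    · rw [erase_eq_of_notMem fun hi => hn (h.ok x hx i (mem_filter.1 hi).2.1 (mem_filter.1 hi).2.2).1]
      exact this
  · obtain ⟨x, hx, e1, e2, e3, e4, -⟩ := h2 y hy
    have := h.ok x hx j (a.trans e1) (e4 ▸ b)
    rw [e2]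
    refine ⟨?_, this.2⟩
    rw [np, e3, e4]
    exact this.1

theorem lt_of_DI {R₀ R : Finset ι} {l : List ι} {A L : ℕ} {nd : List Need} (hN : 0 < N)
    (hc : ∀ i, c i ∣ N) (h : DI N o c R₀ R l A L nd) {i : ι} (hi : i ∈ R) : L < A * c i := by
  have hci : (0 : ℚ) < c i := by exact_mod_cast Nat.pos_of_dvd_of_pos (hc i) hN
  have hL : (0 : ℚ) < L := by exact_mod_cast h.pos
  have h1 : 1 / (c i : ℚ) ≤ ∑ j ∈ R, 1 / (c j : ℚ) :=
    single_le_sum (f := fun j => 1 / (c j : ℚ)) (fun j _ => by positivity) hi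
  have h2 : (0 : ℚ) < 1 / N := by positivity
  have h3 : 1 / (c i : ℚ) < A / L := by rw [h.eq]; linarith
  rw [div_lt_div_iff₀ hci hL, one_mul] at h3
  exact_mod_cast h3

theorem step_spec {R₀ R : Finset ι} {l : List ι} {A L : ℕ} {nd : List Need} {e2 : Bool}
    {k : ℕ → ℕ → List Need → Bool} (hN : 0 < N) (hc : ∀ i, c i ∣ N) (he : e2 = true → N ∣ 20160)
    (h : DI N o c R₀ R l A L nd) {i : ι} (hi : i ∈ R) (hs : stepK e2 A L (c i) nd k = true) :
    ∃ A' L' nd', DI N o c R₀ (R.erase i) (i :: l) A' L' nd' ∧ k A' L' nd' = true := by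
  change cond (cond e2 (dv (L / Nat.gcd L (c i) * c i) 20160) true)
    (updK (c i) nd fun nd' => k (A * (c i / Nat.gcd L (c i)) - L / Nat.gcd L (c i))
      (L / Nat.gcd L (c i) * c i) nd') true = true at hs
  have hci : 0 < c i := Nat.pos_of_dvd_of_pos (hc i) hN
  have hlt := lt_of_DI hN hc h hi
  have hg : 0 < Nat.gcd L (c i) := Nat.gcd_pos_of_pos_left _ h.pos
  have hlcm : L / Nat.gcd L (c i) * c i = Nat.lcm L (c i) := by
    rw [Nat.lcm, Nat.div_mul_right_comm (Nat.gcd_dvd_left _ _)]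
  obtain ⟨l₁, e₁⟩ := Nat.gcd_dvd_left L (c i)
  obtain ⟨c₁, e₂⟩ := Nat.gcd_dvd_right L (c i)
  have hd : Nat.lcm L (c i) ∣ N := Nat.lcm_dvd h.dvd (hc i)
  generalize Nat.gcd L (c i) = g at hs hg hlcm e₁ e₂
  have e₃ : L / g = l₁ := Nat.div_eq_of_eq_mul_right hg e₁
  have e₄ : c i / g = c₁ := Nat.div_eq_of_eq_mul_right hg e₂
  rw [e₃] at hlcm
  rw [e₃, e₄, hlcm, cond_true_right, cond_true_right, dv_iff] at hs
  obtain ⟨nd', a, b, d⟩ := updK_spec _ _ _ (hs fun h => hd.trans (he h))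
  refine ⟨_, _, nd', ⟨fun j => ?_, fun j hj => ?_, ?_, ?_, Nat.lcm_pos h.pos hci, hd,
    fun K h1 h2 => ?_, nv_upd h.nv i b d⟩, a⟩
  · rw [h.sub, mem_erase, List.mem_cons]
    by_cases e : j = i
    · simp [e, hi]
    · simp [e]
  · rcases List.mem_cons.1 hj with rfl | hj
    · exact notMem_erase _ _
    · exact fun h' => h.dis j hj (mem_of_mem_erase h')
  · exact List.nodup_cons.2 ⟨fun h' => h.dis i h' hi, h.nodup⟩
  · have h1 : l₁ ≤ A * c₁ := by
      rw [e₂, e₁, mul_left_comm] at hlt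
      exact (Nat.lt_of_mul_lt_mul_left hlt).le
    have h2 := h.eq
    rw [← add_sum_erase R _ hi] at h2
    have hl₁ : (l₁ : ℚ) ≠ 0 := by
      have := h.pos
      rw [e₁] at this
      exact_mod_cast (Nat.pos_of_mul_pos_left this).ne'
    have hc₁ : (c₁ : ℚ) ≠ 0 := by
      rw [e₂] at hci
      exact_mod_cast (Nat.pos_of_mul_pos_left hci).ne'
    have hg' : (g : ℚ) ≠ 0 := by exact_mod_cast hg.ne'
    have h3 : ((A * c₁ - l₁ : ℕ) : ℚ) / (Nat.lcm L (c i) : ℕ) = A / L - 1 / c i := by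
      rw [← hlcm, Nat.cast_sub h1]
      nth_rewrite 1 [e₂]
      rw [show (L : ℚ) = g * l₁ by exact_mod_cast e₁, show (c i : ℚ) = g * c₁ by exact_mod_cast e₂]
      push_cast
      field_simp
    rw [h3, h2]
    ring
  · refine h.lcm K ((Nat.dvd_lcm_left _ _).trans h1) fun j hj => ?_
    by_cases e : j = i
    · exact e ▸ (Nat.dvd_lcm_right _ _).trans h1
    · exact h2 j (mem_erase.2 ⟨e, hj⟩)

theorem le_hiB {R₀ R : Finset ι} {l : List ι} {A L : ℕ} {nd : List Need} (hN : 0 < N)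
    (hc : ∀ i, c i ∣ N) (h : DI N o c R₀ R l A L nd) {i : ι} (hi : i ∈ R)
    (hmin : ∀ j ∈ R, c i ≤ c j) {sn sd : ℕ} (hsd : 0 < sd) (hs : (sn : ℚ) / sd = sgQ nd) :
    c i ≤ hiB A L #R (sgN nd) sn sd := by
  have hci : 0 < c i := Nat.pos_of_dvd_of_pos (hc i) hN
  have hci' : (0 : ℚ) < c i := by exact_mod_cast hci
  have hL : (0 : ℚ) < L := by exact_mod_cast h.pos
  have hN' : (0 : ℚ) < N := by exact_mod_cast hN
  have hsd' : (0 : ℚ) < sd := by exact_mod_cast hsd
  have hA : 0 < A := Nat.pos_of_mul_pos_right ((Nat.zero_le L).trans_lt (lt_of_DI hN hc h hi))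
  obtain ⟨a, rfl⟩ : ∃ a, A = a + 1 := ⟨A - 1, by omega⟩
  have h1 : ∑ j ∈ R, 1 / (c j : ℚ) ≤ #R / (c i : ℚ) := by
    have : ∑ j ∈ R, 1 / (c j : ℚ) ≤ ∑ j ∈ R, 1 / (c i : ℚ) := sum_le_sum fun j hj =>
      one_div_le_one_div_of_le hci' (by exact_mod_cast hmin j hj)
    rwa [sum_const, nsmul_eq_mul, mul_one_div] at this
  have h2 : 1 / (N : ℚ) ≤ 1 / L :=
    one_div_le_one_div_of_le hL (by exact_mod_cast Nat.le_of_dvd hN h.dvd)
  have h3 : 1 / (N : ℚ) ≤ 1 / c i :=
    one_div_le_one_div_of_le hci' (by exact_mod_cast Nat.le_of_dvd hN (hc i))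
  have h4 := h.eq
  push_cast at h4
  rw [add_div] at h4
  have h5 : c i * a ≤ #R * L := by
    have : (a : ℚ) / L ≤ #R / c i := by linarith
    rw [div_le_div_iff₀ hL hci', mul_comm] at this
    exact_mod_cast this
  change c i ≤ cond (Nat.ble (a * sd) (sn * L))
    (cond (Nat.beq (a + 1) 1) ((#R + 1) * L) (#R * L / a))
    (mn (#R * L / a) ((#R - sgN nd) * L * sd / (a * sd - sn * L)))
  cases hb : Nat.ble (a * sd) (sn * L)
  · have hb' : sn * L < a * sd := by
      rw [← not_le, ← ble_iff, hb]; simp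
    have ha : 0 < a := Nat.pos_of_mul_pos_right ((Nat.zero_le _).trans_lt hb')
    rw [cond_false, mn_eq, le_min_iff, Nat.le_div_iff_mul_le ha,
      Nat.le_div_iff_mul_le (Nat.sub_pos_of_lt hb')]
    refine ⟨h5, ?_⟩
    have h6 := (h.nv.bound hci hmin).2
    rw [← hs] at h6
    have h7 : (a : ℚ) / L - sn / sd ≤ ((#R - sgN nd : ℕ) : ℚ) / c i := by linarith
    rw [div_sub_div _ _ hL.ne' hsd'.ne', div_le_div_iff₀ (by positivity) hci'] at h7
    have h8 : ((c i * (a * sd - sn * L) : ℕ) : ℚ) ≤ ((#R - sgN nd) * L * sd : ℕ) := by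
      rw [Nat.cast_mul, Nat.cast_sub hb'.le, Nat.cast_mul _ sd, Nat.cast_mul _ L, Nat.cast_mul,
        Nat.cast_mul]
      linarith
    exact_mod_cast h8
  · rw [cond_true]
    rcases Nat.eq_zero_or_pos a with rfl | ha
    · change c i ≤ (#R + 1) * L
      have : 1 / (L : ℚ) ≤ (#R + 1) / c i := by
        rw [add_div]
        simp only [Nat.cast_zero, zero_div, zero_add] at h4
        linarith
      rw [div_le_div_iff₀ hL hci', one_mul] at this
      exact_mod_cast this
    · have : Nat.beq (a + 1) 1 = false := by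
        rw [← Bool.not_eq_true, beq_iff]; omega
      rw [this, cond_false, Nat.le_div_iff_mul_le ha]
      exact h5

theorem dfs_spec {R₀ : Finset ι} {gp : List ℕ} {vc : ℕ → Bool} {e2 : Bool}
    {lf : ℕ → List ℕ → Bool} {Q : Prop} (hN : 0 < N) (hc : ∀ i, c i ∣ N) (hp : ∀ q ∈ gp, q.Prime)
    (hg : ∀ i ∈ R₀, ∀ p, p.Prime → p ∣ c i → p = 2 ∨ p ∈ gp) (hv : ∀ i ∈ R₀, vc (c i) = true)
    (he : e2 = true → N ∣ 20160)
    (hQ : ∀ l : List ι, l.Nodup → (∀ i, i ∈ l ↔ i ∈ R₀) → lf N (l.map c) = true → Q) (j : ℕ) :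
    ∀ (R : Finset ι) (l : List ι) (A L lo : ℕ) (nd : List Need), #R = j →
      DI N o c R₀ R l A L nd → (∀ i ∈ R, lo < c i) →
      dfs gp vc e2 lf j A L lo nd (l.map c) = true → Q := by
  induction j with
  | zero =>
    intro R l A L lo nd hR h _ hd
    obtain rfl := card_eq_zero.1 hR
    obtain ⟨sn, sd, -, -, h3⟩ := sig_spec nd h.nv.pos
    change cond (Nat.beq A 1) (sig nd fun sN _ _ => cond (Nat.beq sN 0) (lf L (l.map c)) true)
      true = true at hd
    have hL : L = N := Nat.dvd_antisymm h.dvd (h.lcm L dvd_rfl (by simp))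
    have hA : A = 1 := by
      have := h.eq
      rw [hL, sum_empty, add_zero, div_left_inj' (by exact_mod_cast hN.ne')] at this
      exact_mod_cast this
    rw [h3, cond_true_right, cond_true_right, beq_iff, beq_iff, hL] at hd
    exact hQ l h.nodup (fun i => by simp [h.sub]) (hd hA
      (Nat.le_zero.1 (h.nv.bound one_pos (by simp)).1))
  | succ j ih =>
    intro R l A L lo nd hR h hlo hd
    obtain ⟨sn, sd, h1, h2, h3⟩ := sig_spec nd h.nv.pos
    obtain ⟨i, hi, hmin⟩ := exists_min_image R c (card_pos.1 (by omega))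
    have hci : 0 < c i := Nat.pos_of_dvd_of_pos (hc i) hN
    change sig nd (fun sN sn sd => cond (Nat.ble sN (j + 1))
      (cond (Nat.ble (hiB A L (j + 1) sN sn sd) (mx lo (L / A))) true
        (smAll (hiB A L (j + 1) sN sn sd) (two (mx lo (L / A)) (hiB A L (j + 1) sN sn sd)
          fun x => cond (vc x) (stepK e2 A L x nd fun A' L' nd' =>
            dfs gp vc e2 lf j A' L' (x - 1) nd' (x :: l.map c)) true) gp 1)) true) = true at hd
    have hup := le_hiB hN hc h hi hmin h1 h2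
    rw [hR] at hup
    have hdn : mx lo (L / A) < c i := by
      rw [mx_eq, max_lt_iff]
      exact ⟨hlo i hi, Nat.div_lt_of_lt_mul (lt_of_DI hN hc h hi)⟩
    have hi0 : i ∈ R₀ := (h.sub i).2 (Or.inl hi)
    rw [h3, cond_true_right, cond_mid, ble_iff, ble_iff] at hd
    have h4 := scan_spec hp (hd (hR ▸ (h.nv.bound hci hmin).1) (by omega)) (hg i hi0) hdn hup
    rw [cond_true_right] at h4
    obtain ⟨A', L', nd', a, b⟩ := step_spec hN hc he h hi (h4 (hv i hi0))
    refine ih (R.erase i) (i :: l) A' L' (c i - 1) nd' (by rw [card_erase_of_mem hi, hR]; rfl) a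
      (fun j hj => ?_) b
    have := hmin j (mem_of_mem_erase hj)
    omega

theorem nv_add3 {R : Finset ι} {nd : List Need} (hN : 0 < N) (hc : ∀ i, c i ∣ N) (h : NV o c R nd)
    {n : ℕ} (hn : n ≠ 0 → (∀ j, o j = 3 → c j % 4 = 2 → 18 ∣ c j) ∧
      n ≤ #{j ∈ R | o j = 3 ∧ c j % 4 = 2}) : NV o c R (add3 n nd) := by
  unfold add3
  cases hb : Nat.beq n 0
  · obtain ⟨h1, h2⟩ := hn fun e => by simp [e] at hb
    rw [cond_false]
    refine ⟨?_, fun y hy => ?_, fun y hy => ?_, fun y hy j a b => ?_⟩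
    · rw [List.map_cons, List.nodup_cons]
      refine ⟨fun hm => ?_, h.nodup.sublist (List.filter_sublist.map _)⟩
      obtain ⟨x, hx, e⟩ := List.mem_map.1 hm
      have := (List.mem_filter.1 hx).2
      rw [e] at this
      simp at this
    · rcases List.mem_cons.1 hy with rfl | hy
      · norm_num
      · exact h.pos y (List.mem_filter.1 hy).1
    · rcases List.mem_cons.1 hy with rfl | hy
      · simpa using h2
      · exact h.cnt y (List.mem_filter.1 hy).1
    · rcases List.mem_cons.1 hy with rfl | hy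
      · have h3 := h1 j a (b rfl)
        refine ⟨?_, Nat.le_of_dvd (Nat.pos_of_dvd_of_pos (hc j) hN) h3⟩
        rw [np, cond_false_right, anyL_iff]
        exact ⟨⟨18, by simp, dv_iff.2 h3⟩, beq_iff.2 (b rfl)⟩
      · exact h.ok y (List.mem_filter.1 hy).1 j a b
  · exact h

/-- Piece KC-DFS. -/
theorem dfs_sound : DfsStmt.{u} := by
  intro ι _ _ N o c R₀ gp vc three e2 lf Q A L nd hN hc hp hg hv h68 he h6 hQ hD hs
  have key : ∀ (j : ℕ) (R : Finset ι) (l : List ι) (A L : ℕ) (nd : List Need), #R = j →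
      DI N o c R₀ R l A L nd → (∀ i ∈ l, c i = 6) →
      sixP three e2 (dfs gp vc e2 lf) j l.length A L nd (l.map c) = true → Q := by
    have fin : ∀ (j : ℕ) (R : Finset ι) (l : List ι) (A L : ℕ) (nd : List Need), #R = j →
        DI N o c R₀ R l A L nd → (∀ i ∈ l, c i = 6) → (∀ i ∈ R, c i ≠ 6) →
        dfs gp vc e2 lf j A L 7 (add3 l.length nd) (l.map c) = true → Q := by
      intro j R l A L nd hR h hl hne hd
      refine dfs_spec (o := o) hN hc hp hg hv he hQ j R l A L 7 _ hR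
        ⟨h.sub, h.dis, h.nodup, h.eq, h.pos, h.dvd, h.lcm, nv_add3 hN hc h.nv fun hn => ?_⟩
        (fun i hi => (h68 i ((h.sub i).2 (Or.inl hi))).resolve_left (hne i hi)) hd
      obtain ⟨i, hi⟩ := List.exists_mem_of_length_pos (Nat.pos_of_ne_zero hn)
      obtain ⟨-, h1, h2⟩ := h6 i ((h.sub i).2 (Or.inr hi)) (hl i hi)
      refine ⟨h1, le_trans ?_ (h2.trans (card_le_card fun k hk => ?_))⟩
      · rw [← List.toFinset_card_of_nodup h.nodup]
        exact card_le_card fun k hk => mem_filter.2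
          ⟨(h.sub k).2 (Or.inr (List.mem_toFinset.1 hk)), hl k (List.mem_toFinset.1 hk)⟩
      · rw [mem_filter] at hk ⊢
        refine ⟨((h.sub k).1 hk.1).resolve_right fun hkl => ?_, hk.2⟩
        have := h1 k hk.2.1 hk.2.2
        rw [hl k hkl] at this
        omega
    intro j
    induction j with
    | zero =>
      intro R l A L nd hR h hl hd
      exact fin 0 R l A L nd hR h hl (by simp [card_eq_zero.1 hR]) hd
    | succ j ih =>
      intro R l A L nd hR h hl hd
      change cond (dfs gp vc e2 lf (j + 1) A L 7 (add3 l.length nd) (l.map c))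
        (cond three (cond (Nat.ble (A * 6) L) true (stepK e2 A L 6 nd fun A' L' nd' =>
          sixP three e2 (dfs gp vc e2 lf) j (l.length + 1) A' L' nd' (6 :: l.map c))) true)
        false = true at hd
      rw [cond_false_right, cond_true_right, cond_mid, ble_iff] at hd
      by_cases hne : ∀ i ∈ R, c i ≠ 6
      · exact fin _ R l A L nd hR h hl hne hd.1
      · push Not at hne
        obtain ⟨i, hi, e⟩ := hne
        have h1 := lt_of_DI hN hc h hi
        have h2 := hd.2 (h6 i ((h.sub i).2 (Or.inl hi)) e).1 (by rw [e] at h1; omega)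
        rw [← e] at h2
        obtain ⟨A', L', nd', a, b⟩ := step_spec hN hc he h hi h2
        refine ih (R.erase i) (i :: l) A' L' nd' (by rw [card_erase_of_mem hi, hR]; rfl) a
          (fun k hk => ?_) b
        rcases List.mem_cons.1 hk with rfl | hk
        · exact e
        · exact hl k hk
  exact key _ R₀ [] A L nd rfl hD (by simp) hs

end Cfsg.Agent.H61.KcDfs
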