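import Cfsg.Agent.H50.L81Defs

/-! Project L81, piece CH2. -/

set_option autoImplicit false

namespace Cfsg.Agent.H61.L81Ch2

open Cfsg.Agent.H82 Cfsg.Agent.H50.L81 Cfsg.Agent.H50.E83

theorem three : (3 : F) = 0 := by exact_mod_cast CharP.cast_eq_zero F 3

theorem two : (2 : F) ≠ 0 := fun h => one_ne_zero (α := F) (by linear_combination three - h)

theorem lin {θ : F → F} (ha : ∀ s t, θ (s + t) = θ s + θ t) (h : ∀ s, s ≠ 0 → θ (s ^ 2) = s ^ 2 * θ 1)
    (t : F) : θ t = θ 1 * t := by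
  have h' : ∀ s, θ (s ^ 2) = s ^ 2 * θ 1 := fun s => by
    by_cases e : s = 0
    · have := ha 0 0
      rw [add_zero, left_eq_add] at this
      simp [e, this]
    · exact h s e
  have h1 := ha t ((t - 1) ^ 2)
  rw [show t + (t - 1) ^ 2 = (t + 1) ^ 2 by linear_combination (-t) * three, h', h'] at h1
  linear_combination θ 1 * t * three - h1

theorem swap (p : Par) {θ : F → F} (ha : ∀ s t, θ (s + t) = θ s + θ t) (h0 : θ 1 ≠ 0)
    (h : ∀ s, s ≠ 0 → θ (s ^ 2) = s⁻¹ ^ 2 * θ 1) : False := by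
  have h8 : (p.l : F) ^ 8 ≠ 1 := fun e =>
    absurd (p.hl.dvd_of_pow_eq_one 8 (Units.ext e)) (by norm_num)
  have l0 := p.l.ne_zero
  generalize (p.l : F) = a at h8 l0
  have l1 : a + 1 ≠ 0 := fun e => h8 (by rw [eq_neg_of_add_eq_zero_left e]; norm_num)
  have l2 : a - 1 ≠ 0 := fun e => h8 (by rw [sub_eq_zero.1 e, one_pow])
  have h1 := ha ((a + 1) ^ 2) ((a - 1) ^ 2)
  rw [show (a + 1) ^ 2 + (a - 1) ^ 2 = (a ^ 2 + 1) + (a ^ 2 + 1) by ring, ha, ha, h a l0, h _ l1,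
    h _ l2] at h1
  have h2 : 2 * (a⁻¹ ^ 2 + 1) = (a + 1)⁻¹ ^ 2 + (a - 1)⁻¹ ^ 2 :=
    mul_right_cancel₀ h0 (by linear_combination h1)
  field_simp at h2
  have h3 : 2 * ((a ^ 2 + 1) * (a ^ 4 + 1)) = 0 := by
    linear_combination h2 + 2 * a ^ 2 * (a ^ 2 + 1) * three
  rcases mul_eq_zero.1 ((mul_eq_zero.1 h3).resolve_left two) with e | e
  · exact h8 (by linear_combination (a ^ 2 - 1) * (a ^ 4 + 1) * e)
  · exact h8 (by linear_combination (a ^ 4 - 1) * e)

noncomputable def XX (b : Bool) (t : F) : SL := if b then uu t else ll t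
noncomputable def ex (b : Bool) (s : F) : F := if b then s else s⁻¹

theorem X_add (b : Bool) (s t : F) : XX b (s + t) = XX b s * XX b t := by
  cases b
  exacts [ll_add s t, uu_add s t]

theorem X_zero (b : Bool) : XX b 0 = 1 := by
  cases b
  exacts [ll_zero, uu_zero]

theorem X_hh (b : Bool) {s : F} (hs : s ≠ 0) (t : F) :
    hh s hs * XX b t * (hh s hs)⁻¹ = XX b (ex b s ^ 2 * t) := by
  cases b
  exacts [hh_ll hs t, hh_uu hs t]

variable {G : Type*} [Group G]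

/-- the kernel is `±1` -/
def Kr (ψ : SL →* G) : Prop := ∀ s, ψ s = 1 ↔ s = 1 ∨ s = -1

theorem pm {ψ : SL →* G} (h : Kr ψ) {x y : SL} (e : ψ x = ψ y) : x = y ∨ x = -y := by
  rcases (h (x * y⁻¹)).1 (by rw [map_mul, map_inv, e, mul_inv_cancel]) with e | e
  · exact Or.inl (mul_inv_eq_one.1 e)
  · exact Or.inr (by rw [eq_mul_of_mul_inv_eq e, neg_one_mul])

theorem X_inj {ψ : SL →* G} (h : Kr ψ) (b : Bool) {s t : F} (e : ψ (XX b s) = ψ (XX b t)) :
    s = t := by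
  rcases pm h e with e | e
  · cases b
    exacts [congrArg (fun g : SL => g 1 0) e, congrArg (fun g : SL => g 0 1) e]
  · have : (1 : F) = -1 := by
      cases b
      exacts [congrArg (fun g : SL => g 0 0) e, congrArg (fun g : SL => g 0 0) e]
    exact absurd (by linear_combination this) two

theorem ul {ψ : SL →* G} (h : Kr ψ) {s t : F} (e : ψ (uu s * ll t) = ψ (ll t * uu s)) :
    s = 0 ∨ t = 0 := by
  rcases pm h e with e | e
  · have := congrArg (fun g : SL => g 0 0) e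
    simp only [ent] at this
    exact mul_eq_zero.1 (by linear_combination this)
  · have := congrArg (fun g : SL => g 0 1) e
    simp only [ent] at this
    exact Or.inl (mul_left_cancel₀ two (by linear_combination this))

theorem fam (p : Par) {ψ : SL →* G} (h : Kr ψ) {g : G}
    (hg : ∀ s hs, Commute g (ψ (hh s hs))) (b : Bool)
    (hb : ∀ t, ∃ t', g * ψ (XX b t) * g⁻¹ = ψ (uu t') ∨ g * ψ (XX b t) * g⁻¹ = ψ (ll t')) :
    ∃ c, ∀ t, g * ψ (XX b t) * g⁻¹ = ψ (XX b (c * t)) := by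
  have hb' : ∀ t, ∃ b' t', g * ψ (XX b t) * g⁻¹ = ψ (XX b' t') := fun t => by
    obtain ⟨t', e | e⟩ := hb t
    exacts [⟨true, t', e⟩, ⟨false, t', e⟩]
  have nz : ∀ b' t', g * ψ (XX b 1) * g⁻¹ = ψ (XX b' t') → t' ≠ 0 := by
    rintro b' _ e rfl
    rw [X_zero, map_one, conj_eq_one_iff, ← map_one ψ, ← X_zero b] at e
    exact one_ne_zero (X_inj h b e)
  obtain ⟨b1, t1, e1⟩ := hb' 1
  have h1 : ∀ t, ∃ t', g * ψ (XX b t) * g⁻¹ = ψ (XX b1 t') := fun t => by
    obtain ⟨b', t', e⟩ := hb' t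
    by_cases hb : b' = b1
    · exact ⟨t', hb ▸ e⟩
    · have c : ψ (XX b' t' * XX b1 t1) = ψ (XX b1 t1 * XX b' t') := by
        rw [map_mul, map_mul, ← e, ← e1, conj_mul, conj_mul, ← map_mul, ← map_mul, ← X_add, ← X_add,
          add_comm]
      have : t' = 0 := by
        cases b' <;> cases b1
        · exact absurd rfl hb
        · exact (ul h c.symm).resolve_left (nz _ _ e1)
        · exact (ul h c).resolve_right (nz _ _ e1)
        · exact absurd rfl hb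
      exact ⟨0, by rw [e, this, X_zero, X_zero]⟩
  choose θ hθ using h1
  have ha : ∀ s t, θ (s + t) = θ s + θ t := fun s t => X_inj h b1 (by
    rw [← hθ, X_add, X_add, map_mul, map_mul, ← hθ, ← hθ, conj_mul])
  have h2 : ∀ s, s ≠ 0 → θ (ex b s ^ 2) = ex b1 s ^ 2 * θ 1 := fun s hs => X_inj h b1 (by
    rw [← hθ, ← X_hh b1 hs, ← mul_one (ex b s ^ 2), ← X_hh b hs]
    simp only [map_mul, map_inv, ← hθ]
    rw [← mul_assoc, ← mul_assoc, (hg s hs).eq, mul_assoc _ _ g⁻¹, ← (hg s hs).inv_inv.eq]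
    simp only [mul_assoc])
  have h0 := nz _ _ (hθ 1)
  cases b <;> cases b1
  · exact ⟨θ 1, fun t => by
      rw [hθ, ← lin ha fun s hs => by simpa [ex] using h2 s⁻¹ (inv_ne_zero hs)]⟩
  · exact (swap p ha h0 fun s hs => by simpa [ex] using h2 s⁻¹ (inv_ne_zero hs)).elim
  · exact (swap p ha h0 h2).elim
  · exact ⟨θ 1, fun t => by rw [hθ, ← lin ha h2]⟩

theorem cpow {ψ : SL →* G} {g : G} {x y : SL} {k : ℕ} (hc : Commute g (ψ x)) (e : y = x ^ k) :
    Commute g (ψ y) := by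
  rw [e, map_pow]
  exact hc.pow_right k

theorem ch2 (hP : ParStmt) (h1 : Ch1Stmt) : Ch2Stmt := by
  intro H ψ E p g hg hc
  have hh' : ∀ s hs, Commute g (ψ (hh s hs)) := fun s hs => by
    obtain ⟨k, e⟩ := (hP.2.2.2 p).2.2.2.2.2.2.2.1 s hs
    exact cpow hc e
  obtain ⟨c, h⟩ := fam p E.1 hh' true (h1 H ψ E p g hg hc).1
  obtain ⟨c', h'⟩ := fam p E.1 hh' false (h1 H ψ E p g hg hc).2
  exact ⟨c, c', fun t => ⟨h t, h' t⟩⟩

end Cfsg.Agent.H61.L81Ch2
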