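import Cfsg.Agent.H54.O84Defs

/-! An element of the Weyl group preserving `Φ_J` permutes the simple roots modulo `W_J`. -/

set_option autoImplicit false

namespace Cfsg.Agent.H61.O84Red

open Equiv Cfsg.Agent.H34

theorem red_abs {ι R : Type*} [Finite R] (S : SignedSys ι R) (J : Set ι) {u : Perm R}
    (hu : u ∈ S.W) (h : u '' S.Phi J = S.Phi J) :
    ∃ y ∈ S.WJ J, ∀ j ∈ J, ∃ j' ∈ J, (u * y) (S.α j) = S.α j' := by
  obtain ⟨m, hm, y, hy, rfl, hp⟩ := S.exists_minrep J hu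
  refine ⟨y⁻¹, inv_mem hy, fun j hj => ?_⟩
  rw [mul_inv_cancel_right]
  have hΦ : ∀ r, m r ∈ S.Phi J ↔ r ∈ S.Phi J := fun r => by
    constructor
    · intro hr
      rw [← h] at hr
      obtain ⟨s, hs, e⟩ := hr
      rw [← m.injective e]
      exact S.map_mem_Phi hy hs
    · intro hr
      rw [← h]
      exact ⟨y⁻¹ r, S.map_mem_Phi (inv_mem hy) hr, by rw [Perm.mul_apply, perm_app_inv]⟩
  by_contra hn
  have hx : m * S.s j * m⁻¹ ∈ S.W := mul_mem (mul_mem hm (S.s_mem_W j)) (inv_mem hm)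
  have h1 : ∀ k ∈ J, S.pos ((m * S.s j * m⁻¹) (S.α k)) := fun k hk => by
    have e := perm_app_inv m (S.α k)
    have hr : m⁻¹ (S.α k) ∈ S.Phi J := (hΦ _).1 (e.symm ▸ S.α_mem_Phi hk)
    have hpos : S.pos (m⁻¹ (S.α k)) := (S.minrep_pos_iff hm hp hr).1 (e.symm ▸ S.pos_α k)
    exact S.minrep_pos hm hp (S.map_mem_Phi (S.s_mem_WJ hj) hr)
      (S.s_pos j _ hpos fun e' => hn ⟨k, hk, by rw [← e', e]⟩)
  have h2 := S.minrep_pos hx h1 ((hΦ _).2 (S.α_mem_Phi hj)) (hp j hj)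
  rw [Perm.mul_apply, Perm.mul_apply, perm_inv_app, S.s_α, S.map_neg hm, S.pos_neg] at h2
  exact h2 (hp j hj)

theorem red : H54.O84.RedStmt := fun _ hu h => red_abs _ _ hu h

end Cfsg.Agent.H61.O84Red
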