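import Cfsg.Agent.H61.RfSt1A

/-!
# Standard subgroups of type `²F₄(q)`: the first fusion step
-/

set_option autoImplicit false
set_option linter.unusedSimpArgs false
set_option linter.unnecessarySeqFocus false
set_option linter.unusedSectionVars false

namespace Cfsg.Agent.H61.RfSt1

open Cfsg Cfsg.Agent.H15.O8 Cfsg.Agent.H39 Cfsg.Agent.H36.O8T Subgroup Cfsg.Agent.H54.RF
open Cfsg.Agent.H83 (IsSylowIn cj mem_cj conj_mem_cj cj_mul card_cj isPGroup_cj isPGroup_iff)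
open scoped commutatorElement

universe u v

variable {K : Type*} [Field K] {T : Tits K} {G : Type*} [Group G] {M : FF T G} {t : G}
  [Finite K] [Finite G]

theorem inv_eq_t (h : Ctx M t) {j : G} (hj : j ∈ centralizer (M.X : Set G)) (hc : Commute j t)
    (h2 : j * j = 1) (h1 : j ≠ 1) : j = t := by
  classical
  by_contra hne
  have hP : IsPGroup 2 (zpowers j ⊔ zpowers t : Subgroup G) :=
    H83.isPGroup_sup (H83.isPGroup_zpowers (k := 1) (by rw [pow_one, sq, h2]))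
      (H83.isPGroup_zpowers (k := 1) (by rw [pow_one, sq, h.tt]))
      (H83.le_norm_of_le_cent (zpowers_le.2 (by
        rintro _ ⟨k, rfl⟩
        exact (hc.symm.zpow_left k).eq)))
  have hcyc := h.cyc _ (sup_le (zpowers_le.2 hj) (zpowers_le.2 h.tL)) hP
  have := Fintype.ofFinite (zpowers j ⊔ zpowers t : Subgroup G)
  have hle := IsCyclic.card_pow_eq_one_le (α := (zpowers j ⊔ zpowers t : Subgroup G)) two_pos
  let a : (zpowers j ⊔ zpowers t : Subgroup G) := ⟨j, mem_sup_left (mem_zpowers _)⟩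
  let b : (zpowers j ⊔ zpowers t : Subgroup G) := ⟨t, mem_sup_right (mem_zpowers _)⟩
  have h3 : 2 < ({1, a, b} : Finset _).card := by
    rw [Finset.card_eq_three.2 ⟨1, a, b, fun e => h1 (congrArg Subtype.val e).symm,
      fun e => h.t1 (congrArg Subtype.val e).symm, fun e => hne (congrArg Subtype.val e), rfl⟩]
    norm_num
  refine absurd (h3.trans_le ((Finset.card_le_card fun x hx => ?_).trans hle)) (lt_irrefl _)
  simp only [Finset.mem_insert, Finset.mem_singleton] at hx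
  rw [Finset.mem_filter]
  refine ⟨Finset.mem_univ _, ?_⟩
  rcases hx with rfl | rfl | rfl
  · exact one_pow _
  · exact Subtype.ext ((sq j).trans h2)
  · exact Subtype.ext ((sq t).trans h.tt)

theorem pow_eq_t (h : Ctx M t) {k : G} (hk : k ∈ centralizer (M.X : Set G)) (hc : Commute k t)
    (h2 : Two k) (h1 : k ≠ 1) : ∃ n : ℕ, k ^ 2 ^ n = t := by
  obtain ⟨n, hn⟩ := h2
  induction n with
  | zero => exact absurd (by simpa using hn) h1
  | succ n ih =>
    by_cases e : k ^ 2 ^ n = 1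
    · exact ih e
    · exact ⟨n, inv_eq_t h (pow_mem hk _) (hc.pow_left _)
        (by rw [← sq, ← pow_mul, ← pow_succ, hn]) e⟩

theorem K_gen (H' : Subgroup G) (hH : ∀ x ∈ M.cf.C, Two x → x ∈ H') : M.cf.C ≤ H' := by
  refine M.cf.gen _ ?_ ?_
  · rintro _ ⟨u, rfl⟩
    exact hH _ (φK M u) (two_map _ (isPGroup_U u))
  · rintro _ ⟨_, ⟨u, rfl⟩, rfl⟩
    exact hH _ (mul_mem (mul_mem (n8K M) (φK M u)) (inv_mem (n8K M)))
      ((two_map M.φ (isPGroup_U u)).conj _)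

theorem K_comm {z : U T} (hz : z ∈ Z T) {k : G} (hk : k ∈ M.cf.C) : Commute k (M.φ z) :=
  (M.cf.cZ hk _ ⟨z, hz, rfl⟩).symm

/-- The conjugate is `z` or `z t` with `z ∈ Z`. -/
theorem caseA (h : Ctx M t) {g c : G} {z : U T} (hz : z ∈ Z T) (z1 : z ≠ 1) (hc : c = 1 ∨ c = t)
    (e : g * t * g⁻¹ = M.φ z * c) : ∃ g', S1 M t g' := by
  have hK : cj g⁻¹ M.cf.C ≤ M.X := perf_le' h g (fun x hx => by
    rw [e]
    refine (K_comm hz hx).mul_right ?_
    rcases hc with rfl | rfl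
    exacts [Commute.one_right _, h.tX (KX M hx)]) (M.cf.perf h.q2).ge K_gen
  obtain rfl : t = c := by
    rcases hc with rfl | rfl
    · refine absurd (hK (mem_cj.2 ?_)) h.t_not
      rw [inv_inv, e, mul_one]; exact φK M z
    · rfl
  have hU : M.φ.range ≤ M.cf.C := by rintro _ ⟨u, rfl⟩; exact φK M u
  obtain ⟨m, hm, em⟩ := (h.syl.of_card_ge ((H83.cj_mono _ hU).trans hK)
    (isPGroup_cj h.syl.isPGroup g⁻¹) (card_cj _ _).ge).exists_conj h.syl
  rw [← cj_mul, H83.cj_eq_self_iff] at em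
  obtain ⟨β, hβ⟩ := exists_aut M em
  have bz : β z ∈ Z T := cQ _ fun u _ => by
    obtain ⟨u, rfl⟩ := β.surjective u
    rw [← map_mul, ← map_mul, cZ z hz]
  have nK : m * g⁻¹ ∈ normalizer (M.cf.C : Set G) := mem_normalizer_fintype fun k hk =>
    (mem_K M bz (by simpa using z1)).2 ⟨by
      have := mul_mem (mul_mem hm (hK (conj_mem_cj hk))) (inv_mem hm)
      simpa [mul_assoc] using this, hβ z ▸ comm_conj (K_comm hz hk) _⟩
  refine ⟨_, inv_mem em, inv_mem nK, z.a4, fun e0 => z1 (by rw [eq_x4 hz, e0, x4_zero]), ?_⟩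
  rw [← eq_x4 hz, ← (h.tφ z).eq, ← e, mul_inv_rev, inv_inv, mul_inv_rev, inv_inv,
    mul_assoc g m⁻¹ t, (h.tX hm).inv_left.eq]
  group

/-- The conjugate is `v` or `v t` with `v = x₅ a`. -/
theorem caseB (h : Ctx M t) {g c : G} {a : K} (ha : a ≠ 0) (hc : c = 1 ∨ c = t)
    (e : g * t * g⁻¹ = M.φ (x5 T a) * c) : ∃ g', S1 M t g' := by
  have hYX : Y5 M ≤ M.X := Y5_le (fun u _ => φX M u) (n1X M)
  have hYv : Y5 M ≤ centralizer {M.φ (x5 T a)} := Y5_le
    (fun u hu => ((syl_Tc (M := M) ha).le ⟨u, hu, rfl⟩).2)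
    (mem_centralizer_singleton_iff.2 (by
      have := n1_x5 M a
      rw [← n1_inv M.toPF] at this
      nth_rewrite 1 [n1_inv M.toPF] at this
      exact conj_eq_iff.1 this))
  have hY : cj g⁻¹ (Y5 M) ≤ M.X := perf_le' h g (fun x hx => by
    rw [e]
    refine Commute.mul_right (mem_centralizer_singleton_iff.1 (hYv hx)) ?_
    rcases hc with rfl | rfl
    exacts [Commute.one_right _, h.tX (hYX hx)]) (Y5_perf h.q2) Y5_gen
  have hv : M.φ (x5 T a) ∈ Y5 M := φ_Y5 ⟨rfl, rfl⟩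
  obtain rfl : t = c := by
    rcases hc with rfl | rfl
    · refine absurd (hY (mem_cj.2 ?_)) h.t_not
      rw [inv_inv, e, mul_one]; exact hv
    · rfl
  have vv : M.φ (x5 T a) * M.φ (x5 T a) = 1 := by
    rw [← map_mul, ← x5_add, add_self (T := T), x5_zero, map_one]
  have v1 : M.φ (x5 T a) ≠ 1 := fun e => ha (congrArg U.a5 (φ_eq_one M e))
  obtain ⟨m, hm, b, hb⟩ := inv_cls M h.syl (hY (conj_mem_cj hv)) (conj_sq vv _)
  have e1 : ∀ m ∈ M.X, m * g⁻¹ * (M.φ (x5 T a) * t) * (m * g⁻¹)⁻¹ = t := fun m hm => by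
    rw [← e]
    calc _ = m * t * m⁻¹ := by group
      _ = t := conj_eq_iff.2 (h.tX hm)
  have hb' : ∀ w, m * (g⁻¹ * M.φ (x5 T a) * g⁻¹⁻¹) * m⁻¹ = w →
      m * g⁻¹ * M.φ (x5 T a) * (m * g⁻¹)⁻¹ = w ∧ w ≠ 1 := fun w hw =>
    ⟨by rw [← hw]; group, by rw [← hw]; simpa only [ne_eq, conj_eq_one_iff] using v1⟩
  rcases hb with hb | hb
  · obtain ⟨h1, h2⟩ := hb' _ hb
    refine caseA h (g := m * g⁻¹) (x4_mem b) (fun e0 => h2 (by rw [e0, map_one])) (.inr rfl) ?_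
    rw [← h1]
    nth_rewrite 2 [← e1 m hm]
    calc _ = m * g⁻¹ * (M.φ (x5 T a) * M.φ (x5 T a) * t) * (m * g⁻¹)⁻¹ := by rw [vv, one_mul]
      _ = _ := by group
  obtain ⟨h1, h2⟩ := hb' _ hb
  have b0 : b ≠ 0 := fun e0 => h2 (by rw [e0, x5_zero, map_one])
  have hP : (Tc T).map M.φ ≤ Y5 M := le_sup_left
  obtain ⟨m2, hm2, em⟩ := ((syl_Tc (M := M) b0).of_card_ge
    (P := cj (m * g⁻¹) ((Tc T).map M.φ)) (le_inf (by
      rw [cj_mul]
      exact H83.cj_le_of_mem ((H83.cj_mono _ hP).trans hY) hm) (by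
      rintro _ ⟨x, hx, rfl⟩
      rw [mem_centralizer_singleton_iff, ← h1]
      exact comm_conj (mem_centralizer_singleton_iff.1 (hYv (hP hx))) _))
    (isPGroup_cj (isPGroup_s _) _) (card_cj _ _).ge).exists_conj (syl_Tc b0)
  rw [← cj_mul, H83.cj_eq_self_iff, ← mul_assoc] at em
  obtain ⟨z, hz, ez⟩ := norm_Tc em (x4_mem (1 : K))
  have z1 : z ≠ 1 := fun e0 => x4_ne one_ne_zero (φ_eq_one M (by
    rw [e0, map_one] at ez
    exact conj_eq_one_iff.1 ez))
  obtain ⟨k, hk⟩ := rep5 (x5 T a * x4 T 1) (by o8s) (by o8s; simp [ha])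
  rw [show (x5 T a * x4 T 1).a5 = a by o8s] at hk
  have e2 := e1 _ (mul_mem hm2.1 hm)
  generalize m2 * m * g⁻¹ = n at ez e2
  have e3 : M.φ k * (M.φ (x4 T 1) * (M.φ (x5 T a) * t)) * (M.φ k)⁻¹ = M.φ (x5 T a) * t := by
    rw [← mul_assoc (M.φ (x4 T 1)), ← map_mul, ← cZ _ (x4_mem 1), mul_assoc (M.φ k),
      mul_assoc _ t, ← (h.tφ k).inv_left.eq, ← mul_assoc, ← mul_assoc, ← map_inv, ← map_mul,
      ← map_mul, hk]
  refine caseA h (g := n * (M.φ k)⁻¹ * n⁻¹) hz z1 (.inr rfl) ?_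
  rw [← ez]
  nth_rewrite 2 [← e2]
  nth_rewrite 1 [← e2, ← e3]
  group

theorem exists_S1 (h : Ctx M t) {g : G} (hc : Commute (g * t * g⁻¹) t) (hne : g * t * g⁻¹ ≠ t) :
    ∃ g', S1 M t g' := by
  have sq := conj_sq h.tt g
  obtain ⟨l, hl, c, hcC, -, -, e⟩ := h.dec (h.ct _ hc) (two_of_sq sq)
  have hlc : Commute l c := mem_centralizer_iff.1 hcC l hl
  rw [e] at sq hc hne
  have e1 : l * l * (c * c) = 1 := by
    rw [← sq, hlc.mul_mul_mul_comm]
  have l2 : l * l = 1 := h.zl _ (mul_mem hl hl) (by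
    rw [eq_inv_of_mul_eq_one_left e1]; exact inv_mem (mul_mem hcC hcC))
  have c2 : c * c = 1 := by rwa [l2, one_mul] at e1
  have ct : Commute c t := by simpa using (h.tX hl).inv_left.mul_left hc
  have hc' : c = 1 ∨ c = t := or_iff_not_imp_left.2 (inv_eq_t h hcC ct c2)
  have l1 : l ≠ 1 := by
    rintro rfl
    rw [one_mul] at e hne
    rcases hc' with rfl | rfl
    · exact h.t1 (by simpa [mul_inv_eq_one] using e)
    · exact hne rfl
  obtain ⟨m, hm, a, ha⟩ := inv_cls M h.syl hl l2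
  have e2 : m * g * t * (m * g)⁻¹ = m * l * m⁻¹ * c := by
    rw [mul_assoc (m * l), mem_centralizer_iff.1 hcC _ (inv_mem hm), ← mul_assoc, mul_assoc m l c,
      ← e]
    group
  have l1' : m * l * m⁻¹ ≠ 1 := by simpa [mul_inv_eq_one] using l1
  rcases ha with ha | ha <;> rw [ha] at e2 l1'
  · exact caseA h (x4_mem a) (fun e0 => l1' (by rw [e0, map_one])) hc' e2
  · exact caseB h (fun e0 => l1' (by rw [e0, x5_zero, map_one])) hc' e2

theorem r2_of (h : Ctx M t) {g : G} (hg : S1 M t g) :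
    ∀ k ∈ centralizer (M.X : Set G), Commute k t → Two k → k = 1 ∨ k = t := by
  intro k hk hc h2
  by_contra hn
  push Not at hn
  obtain ⟨n, en⟩ := pow_eq_t h hk hc h2 hn.1
  obtain ⟨-, nK, a, ha, e⟩ := hg
  obtain _ | n := n
  · exact hn.2 (by simpa using en)
  rw [pow_succ, pow_mul, sq] at en
  have hcC := pow_mem hk (2 ^ n)
  generalize k ^ 2 ^ n = c at en hcC
  have c2 : Two c := ⟨2, by rw [show 2 ^ 2 = 2 * 2 from rfl, pow_mul, sq, sq, en, h.tt]⟩
  have cK : ∀ x ∈ M.cf.C, Commute x (g * c * g⁻¹) := fun x hx => by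
    have := comm_conj (mem_centralizer_iff.1 hcC _
      (KX M ((mem_normalizer_iff''.1 nK x).1 hx))) g
    simpa [mul_assoc] using this
  have e2 : g * c * g⁻¹ * (g * c * g⁻¹) = t * M.φ (x4 T a) := by rw [← e, ← en]; group
  have ct : Commute (g * c * g⁻¹) t := by
    have h1 : Commute (g * c * g⁻¹) (t * M.φ (x4 T a)) :=
      e2 ▸ (Commute.refl _).mul_right (Commute.refl _)
    simpa using h1.mul_right (cK _ (φK M (x4 T a))).symm.inv_right
  obtain ⟨l, hl, c1, hc1, -, -, e3⟩ := h.dec (h.ct _ ct) (c2.conj g)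
  rw [e3] at cK e2
  have lK : ∀ x ∈ M.cf.C, Commute x l := fun x hx => by
    simpa using (cK x hx).mul_right
      (Commute.inv_right (mem_centralizer_iff.1 hc1 x (KX M hx) : Commute x c1))
  have l2 : l * l = 1 := M.cf.sq_Z (by
    rw [M.cf.Z_eq]
    exact ⟨(mem_K M (x4_mem 1) (x4_ne one_ne_zero)).2 ⟨hl, (lK _ (φK M _)).symm⟩, lK⟩)
  have hlc : Commute l c1 := mem_centralizer_iff.1 hc1 l hl
  have e4 : M.φ (x4 T a) = t⁻¹ * (c1 * c1) := by
    rw [eq_inv_mul_iff_mul_eq, ← e2, mul_assoc, ← mul_assoc c1 l, ← hlc.eq, ← mul_assoc,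
      ← mul_assoc, l2, one_mul]
  exact x4_ne ha (φ_eq_one M (h.zl _ (φX M _)
    (e4 ▸ mul_mem (inv_mem h.tL) (mul_mem hc1 hc1))))

/-- **ST1** -/
theorem st1 : St1Stmt.{u, v} := by
  rintro K _ _ T G _ _ M t h ⟨g, hc, hne⟩
  obtain ⟨g', hg'⟩ := exists_S1 h hc hne
  exact ⟨⟨h, r2_of h hg'⟩, g', hg'⟩

end Cfsg.Agent.H61.RfSt1
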