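import Cfsg.Agent.H54.RfKitP
import Cfsg.Agent.H92.UL2

/-!
# Standard subgroups of type `²F₄(q)`: perfect subgroups of `C(t)`, the centralizer of `x₅`
-/

set_option autoImplicit false
set_option linter.unusedSimpArgs false
set_option linter.unnecessarySeqFocus false
set_option linter.unusedSectionVars false

namespace Cfsg.Agent.H61.RfSt1

open Cfsg Cfsg.Agent.H15.O8 Cfsg.Agent.H39 Cfsg.Agent.H36.O8T Subgroup Cfsg.Agent.H54.RF
open Cfsg.Agent.H83 (IsSylowIn cj mem_cj conj_mem_cj cj_mul card_cj isPGroup_cj isPGroup_iff)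
open scoped commutatorElement

/-- A perfect group with cyclic `2`-subgroups has no non-trivial `2`-element. -/
theorem perf_odd {X : Type*} [Group X] [Finite X] (hp : ∀ x : X, x ∈ commutator X)
    (hc : ∀ P : Subgroup X, IsPGroup 2 P → IsCyclic P) {x : X} (hx : Two x) : x = 1 := by
  by_contra h1
  obtain ⟨k, hk⟩ := hx
  have h2 : 2 ∣ Nat.card X := by
    obtain ⟨j, -, hj⟩ := (Nat.dvd_prime_pow Nat.prime_two).1 (orderOf_dvd_of_pow_eq_one hk)
    refine Dvd.dvd.trans ?_ (orderOf_dvd_natCard x)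
    rw [hj]
    refine dvd_pow_self 2 ?_
    rintro rfl
    exact h1 (orderOf_eq_one_iff.1 (by simpa using hj))
  have hm : (Nat.card X).minFac = 2 := (Nat.minFac_eq_two_iff _).2 h2
  obtain ⟨P⟩ : Nonempty (Sylow 2 X) := inferInstance
  have hP := hc P P.2
  have hcomp := hP.isComplement' hm
  have hk : (MonoidHom.transferSylow P (hP.normalizer_le_centralizer hm)).ker = ⊤ := by
    rw [eq_top_iff]
    intro y _
    refine (?_ : commutator X ≤ _) (hp y)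
    rw [_root_.commutator_def, commutator_le]
    intro a _ b _
    rw [MonoidHom.mem_ker, map_commutatorElement, commutatorElement_eq_one_iff_mul_comm]
    letI := hP.commGroup
    exact mul_comm _ _
  rw [hk, isComplement'_top_left] at hcomp
  have := P.not_dvd_index
  rw [hcomp, index_bot] at this
  exact this h2

variable {K : Type*} [Field K] {T : Tits K} {G : Type*} [Group G] {M : FF T G} {t : G}

theorem two_map {G' : Type*} [Group G'] (f : G →* G') {x : G} (h : Two x) : Two (f x) := by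
  obtain ⟨k, e⟩ := h
  exact ⟨k, by rw [← map_pow, e, map_one]⟩

theorem lt_norm [Finite G] {H P : Subgroup G} (hP : IsPGroup 2 P) (h : H < P) :
    ∃ x ∈ P, x ∈ normalizer (H : Set G) ∧ x ∉ H := by
  have : Group.IsNilpotent P := hP.isNilpotent
  have hnc : NormalizerCondition P := Group.normalizerCondition_of_isNilpotent
  have h1 : H.subgroupOf P < ⊤ := by
    rw [lt_top_iff_ne_top, Ne, Subgroup.subgroupOf_eq_top]
    exact not_le_of_gt h
  have h2 := hnc _ h1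
  rw [← Subgroup.subgroupOf_normalizer_eq h.le] at h2
  obtain ⟨x, hx1, hx2⟩ := SetLike.exists_of_lt h2
  exact ⟨x, x.2, hx1, hx2⟩

variable [Finite K] [Finite G]

/-- **PERF** -/
theorem perf_le (h : Ctx M t) {H : Subgroup G} (hc : ∀ x ∈ H, Commute x t) (hp : H ≤ ⁅H, H⁆)
    (hg : ∀ H' : Subgroup G, (∀ x ∈ H, Two x → x ∈ H') → H ≤ H') : H ≤ M.X := by
  have hle : H ≤ M.X ⊔ centralizer (M.X : Set G) :=
    hg _ fun x hx h2 => h.two x (h.ct x (hc x hx)) h2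
  have hex : ∀ x : H, ∃ c ∈ centralizer (M.X : Set G), (x : G) * c⁻¹ ∈ M.X := fun x => by
    obtain ⟨l, hl, c, hc, e⟩ := (H83.mem_sup_left_norm (centralizer_le_normalizer _)).1 (hle x.2)
    exact ⟨c, hc, by rw [← e, mul_inv_cancel_right]; exact hl⟩
  choose π hπ hπ' using hex
  have uq : ∀ (x : H) c, c ∈ centralizer (M.X : Set G) → (x : G) * c⁻¹ ∈ M.X → π x = c := by
    intro x c hc hx
    have := h.zl _ (mul_mem (inv_mem hx) (hπ' x))
      (by rw [show ((x : G) * c⁻¹)⁻¹ * (x * (π x)⁻¹) = c * (π x)⁻¹ by group]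
          exact mul_mem hc (inv_mem (hπ x)))
    rw [show ((x : G) * c⁻¹)⁻¹ * (x * (π x)⁻¹) = c * (π x)⁻¹ by group, mul_inv_eq_one] at this
    exact this.symm
  let f : H →* G := MonoidHom.mk' π fun a b => uq _ _ (mul_mem (hπ a) (hπ b)) (by
    have e : ((a * b : H) : G) * (π a * π b)⁻¹ = (a * (π a)⁻¹) * (b * (π b)⁻¹) := by
      have := mem_centralizer_iff.1 (inv_mem (hπ a)) _ (hπ' b)
      rw [coe_mul, mul_inv_rev, mul_assoc (a : G) (π a)⁻¹, ← this]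
      group
    rw [e]; exact mul_mem (hπ' a) (hπ' b))
  have hf : ∀ x, f x = π x := fun _ => rfl
  have hpc : ∀ x : H, x ∈ commutator H := fun x => by
    have := hp x.2
    rw [← map_subtype_commutator] at this
    obtain ⟨y, hy, e⟩ := this
    exact (Subtype.ext e : y = x) ▸ hy
  have key : ∀ y : f.range, Two y → y = 1 := fun y hy => perf_odd (fun y => by
      obtain ⟨x, rfl⟩ := f.rangeRestrict_surjective y
      have := mem_map_of_mem f.rangeRestrict (hpc x)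
      rw [_root_.commutator_def, map_commutator] at this
      exact commutator_mono le_top le_top this)
    (fun P hP => by
      have := h.cyc (P.map f.range.subtype) (by
        rintro _ ⟨⟨_, x, rfl⟩, -, rfl⟩
        exact hπ x) (hP.map _)
      exact isCyclic_of_surjective _
        (P.equivMapOfInjective _ f.range.subtype_injective).symm.surjective) hy
  refine hg _ fun x hx h2 => ?_
  have h3 : Two (⟨x, hx⟩ : H) := by
    obtain ⟨k, e⟩ := h2
    exact ⟨k, Subtype.ext e⟩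
  have h4 : π ⟨x, hx⟩ = 1 := congrArg Subtype.val (key _ (two_map f.rangeRestrict h3))
  have := hπ' ⟨x, hx⟩
  rwa [h4, inv_one, mul_one] at this

/-- **PERF** for a conjugate of `t`. -/
theorem perf_le' (h : Ctx M t) (g : G) {H : Subgroup G} (hc : ∀ x ∈ H, Commute x (g * t * g⁻¹))
    (hp : H ≤ ⁅H, H⁆) (hg : ∀ H' : Subgroup G, (∀ x ∈ H, Two x → x ∈ H') → H ≤ H') :
    cj g⁻¹ H ≤ M.X := by
  refine perf_le h (fun x hx => ?_) (by rw [← H83.cj_comm]; exact H83.cj_mono _ hp) fun H' hH => ?_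
  · have := comm_conj (hc _ (mem_cj.1 hx)) g⁻¹
    simpa [mul_assoc] using this
  · rw [H83.cj_le_iff]
    refine hg _ fun x hx h2 => mem_cj.2 (hH _ (by simpa using conj_mem_cj (g := g⁻¹) hx) ?_)
    simpa using h2.conj g⁻¹

/-- An element normalizing `φ Tc` normalizes `Z`. -/
theorem norm_Tc {g : G} (hg : g ∈ normalizer ((Tc T).map M.φ : Set G)) {z : U T} (hz : z ∈ Z T) :
    ∃ z' ∈ Z T, g * M.φ z * g⁻¹ = M.φ z' := by
  let e := (Tc T).equivMapOfInjective M.φ M.inj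
  have hz' : z ∈ Tc T := ⟨hz.2.1, hz.2.2.2.2.2.2.2.2.2.1⟩
  refine ⟨_, H92.UL.tc (e.trans ((((Tc T).map M.φ).normalizerMonoidHom ⟨g, hg⟩).trans e.symm))
    ⟨z, hz'⟩ hz, ?_⟩
  have : ∀ x : (Tc T).map M.φ, M.φ (e.symm x).1 = x := fun x => by
    rw [← coe_equivMapOfInjective_apply (Tc T) M.φ M.inj, MulEquiv.apply_symm_apply]
  rw [MulEquiv.trans_apply, MulEquiv.trans_apply, this]; rfl

theorem isPGroup_s (H : Subgroup (U T)) : IsPGroup 2 (H.map M.φ) :=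
  (isPGroup_U.to_subgroup H).map _

/-- **TC** -/
theorem syl_Tc {a : K} (ha : a ≠ 0) :
    IsSylowIn 2 ((Tc T).map M.φ) (M.X ⊓ centralizer {M.φ (x5 T a)}) := by
  refine ⟨?_, isPGroup_s _, fun P hP hp hle => ?_⟩
  · rintro _ ⟨u, hu, rfl⟩
    refine ⟨φX M u, mem_centralizer_singleton_iff.2 ((φ_comm M).2 ?_)⟩
    rw [← c5 a ha] at hu
    exact mem_centralizer_singleton_iff.1 hu
  by_contra hne
  obtain ⟨g, hg, hn, hg'⟩ := lt_norm hp (lt_of_le_of_ne hle (Ne.symm hne))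
  obtain ⟨k, hk⟩ := isPGroup_iff.1 hp g hg
  have gZ : g ∈ normalizer ((Z T).map M.φ : Set G) := mem_normalizer_fintype (by
    rintro _ ⟨z, hz, rfl⟩
    obtain ⟨z', hz', e⟩ := norm_Tc hn hz
    exact ⟨z', hz', e.symm⟩)
  let β : MulAut ((Z T).map M.φ) := ((Z T).map M.φ).normalizerMonoidHom ⟨g, gZ⟩
  have hβ : (MulAut.toPerm _ β) ^ 2 ^ k = 1 := by
    rw [← map_pow, ← map_pow, show (⟨g, gZ⟩ : normalizer ((Z T).map M.φ : Set G)) ^ 2 ^ k = 1 from
      Subtype.ext hk, map_one, map_one]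
  have := Fintype.ofFinite ((Z T).map M.φ)
  have hd : 2 ∣ Fintype.card ((Z T).map M.φ) := by
    rw [← Nat.card_eq_fintype_card]
    obtain ⟨n, hn⟩ := (isPGroup_s (M := M) (Z T)).exists_card_eq
    rw [hn]
    refine dvd_pow_self 2 ?_
    rintro rfl
    rw [pow_zero, card_eq_one] at hn
    exact x4_ne one_ne_zero (φ_eq_one M (mem_bot.1 (hn ▸ mem_map_of_mem M.φ (x4_mem (1 : K)))))
  obtain ⟨⟨_, z, hz, rfl⟩, hb, hb1⟩ :=
    Equiv.Perm.exists_fixed_point_of_prime' hd hβ (a := 1) (map_one β)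
  have z1 : z ≠ 1 := by
    rintro rfl
    exact hb1 (Subtype.ext (map_one _))
  have gK : g ∈ M.cf.C := (mem_K M hz z1).2 ⟨(hP hg).1, conj_eq_iff.1 (congrArg Subtype.val hb)⟩
  have gc : Commute g (M.φ (x5 T a)) := mem_centralizer_singleton_iff.1 (hP hg).2
  obtain ⟨u, rfl⟩ := M.cf.twoB g (M.cf.cen g gK (x5 T a) (x5 T a) (conj_eq_iff.2 gc)
    (Or.inl ⟨by o8s, by o8s; simp [ha], by o8s⟩)) ⟨k, hk⟩
  refine hg' ⟨u, ?_, rfl⟩
  rw [SetLike.mem_coe, ← c5 a ha]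
  exact mem_centralizer_singleton_iff.2 ((φ_comm M).1 gc)

variable (M) in
/-- The subgroup generated by `Tc` and `n1`. -/
def Y5 : Subgroup G := (Tc T).map M.φ ⊔ zpowers M.n1

theorem φ_Y5 {u : U T} (hu : u ∈ Tc T) : M.φ u ∈ Y5 M := mem_sup_left ⟨u, hu, rfl⟩

theorem n1_Y5 : M.n1 ∈ Y5 M := mem_sup_right (mem_zpowers _)

theorem Y5_le {H : Subgroup G} (h1 : ∀ u ∈ Tc T, M.φ u ∈ H) (h2 : M.n1 ∈ H) : Y5 M ≤ H :=
  sup_le (by rintro _ ⟨u, hu, rfl⟩; exact h1 u hu) (zpowers_le.2 h2)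

theorem Y5_gen (H' : Subgroup G) (hH : ∀ x ∈ Y5 M, Two x → x ∈ H') : Y5 M ≤ H' :=
  Y5_le (fun u hu => hH _ (φ_Y5 hu) (two_map _ (isPGroup_U u))) (hH _ n1_Y5 (two_of_sq M.n1n1))

theorem cm46 (a b : K) : ⁅y4 T a, y6 T b⁆ = x5 T (a * b) := by
  rw [commutatorElement_def]
  ext <;> o8s <;> o8ring T

theorem y4_diff (w c : K) : y4 T (w * c) * (y4 T c)⁻¹ =
    y4 T ((w + 1) * c) * x4 T (y4 T (w * c) * (y4 T c)⁻¹).a4 := by
  ext <;> o8s <;> o8ring T

theorem Y5_perf (hq : 2 < Nat.card K) : Y5 M ≤ ⁅Y5 M, Y5 M⁆ := by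
  obtain ⟨τ, hτ⟩ := CF.exists_unit_ne hq
  have hβ : τ / θu T τ ≠ 1 := fun e => hτ (by
    rw [div_eq_one] at e
    have := θu_θu (T := T) τ
    rw [← e, ← e] at this
    exact left_eq_mul.1 this)
  have hh : M.h (τ / θu T τ, (τ / θu T τ)⁻¹) ∈ Y5 M := by
    have e := M.rk1 τ
    have h1 : ∀ c, M.φ (x1 T c) ∈ Y5 M := fun c => φ_Y5 ⟨rfl, rfl⟩
    have h2 : M.n1 * M.φ (x1 T τ) * M.n1 ∈ Y5 M := mul_mem (mul_mem n1_Y5 (h1 _)) n1_Y5
    rw [e, mul_mem_cancel_right (h1 _), mul_mem_cancel_right n1_Y5,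
      mul_mem_cancel_left (h1 _)] at h2
    rwa [inv_div]
  generalize τ / θu T τ = β at hβ hh
  have k0 : ∀ u ∈ Tc T, M.φ (tor T (β, β⁻¹) u * u⁻¹) ∈ ⁅Y5 M, Y5 M⁆ := fun u hu => by
    rw [map_mul, map_inv, ← M.hφ]
    exact commutator_mem_commutator hh (φ_Y5 hu)
  have sc : ∀ w : K, w ≠ 1 → ∀ c, ∃ s, (w + 1) * s = c := fun w hw c => by
    have : w + 1 ≠ 0 := fun e => hw (by
      have := add_self (T := T) (1 : K)
      linear_combination e - this)
    exact ⟨c / (w + 1), by field_simp⟩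
  have k1 : ∀ (x : K → U T) (w : K), (∀ a b, x (a + b) = x a * x b) → (∀ c, x c ∈ Tc T) →
      (∀ c, tor T (β, β⁻¹) (x c) = x (w * c)) → x 1 ≠ x5 T (x 1).a5 →
      ∀ c, M.φ (x c) ∈ ⁅Y5 M, Y5 M⁆ := by
    intro x w hadd hm ht hne c
    obtain ⟨s, rfl⟩ := sc w (fun e => hne (fix5 hβ _ (by rw [ht, e, one_mul]))) c
    have := k0 _ (hm s)
    rwa [ht, show w * s = (w + 1) * s + s by
      linear_combination -add_self (T := T) s, hadd, mul_inv_cancel_right] at this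
  have kn : ∀ x ∈ ⁅Y5 M, Y5 M⁆, M.n1 * x * M.n1 ∈ ⁅Y5 M, Y5 M⁆ := fun x hx => by
    have := H83.conj_mem (normalizer_commutator_ge_left (Y5 M) (Y5 M)) n1_Y5 hx
    rwa [n1_inv] at this
  have a1 := k1 (x1 T) _ x1_add (fun _ => ⟨rfl, rfl⟩) (tor_x1 _)
    fun e => one_ne_zero (congrArg U.a1 e)
  have a2 := k1 (x2 T) _ x2_add (fun _ => ⟨rfl, rfl⟩) (tor_x2 _)
    fun e => one_ne_zero (congrArg U.a2 e)
  have a3 := k1 (x3 T) _ x3_add (fun _ => ⟨rfl, rfl⟩) (tor_x3 _)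
    fun e => one_ne_zero (congrArg U.a3 e)
  have a4 := k1 (x4 T) _ x4_add (fun _ => ⟨rfl, rfl⟩) (tor_x4 _)
    fun e => one_ne_zero (congrArg U.a4 e)
  have b4 : ∀ c, M.φ (y4 T c) ∈ ⁅Y5 M, Y5 M⁆ := fun c => by
    obtain ⟨s, rfl⟩ := sc β (fun e => hβ (Units.ext e)) c
    have := k0 (y4 T s) ⟨rfl, rfl⟩
    rwa [tor_y4, y4_diff, map_mul, mul_mem_cancel_right (a4 _)] at this
  have a5 : ∀ c, M.φ (x5 T c) ∈ ⁅Y5 M, Y5 M⁆ := fun c => by
    rw [← one_mul c, ← cm46, map_commutatorElement]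
    exact commutator_mem_commutator (φ_Y5 ⟨rfl, rfl⟩) (φ_Y5 ⟨rfl, rfl⟩)
  refine Y5_le (fun u hu => ?_) ?_
  · obtain ⟨j, hj, e⟩ := eq_Tc hu
    rw [e, eq_O hj]
    simp only [map_mul]
    exact mul_mem (a1 _) (mul_mem (mul_mem (mul_mem (mul_mem (mul_mem (mul_mem (mul_mem (mul_mem
      (a2 _) (a3 _)) (b4 _)) (a4 _)) (a5 _)) (n1_y4 M _ ▸ kn _ (b4 _))) (n1_x4 M _ ▸ kn _ (a4 _)))
      (n1_x3 M _ ▸ kn _ (a3 _))) (n1_x2 M _ ▸ kn _ (a2 _)))
  · rw [n1_eq M.toPF]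
    exact mul_mem (mul_mem (inv_mem (a1 _)) (kn _ (a1 _))) (inv_mem (a1 _))

end Cfsg.Agent.H61.RfSt1
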