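import Cfsg.Agent.H74.RuDefs

/-! Project RU, piece C1. -/

set_option autoImplicit false
set_option linter.unusedSectionVars false

namespace Cfsg.Agent.H61.RuC1

open Cfsg Module Cfsg.Agent.H74.Ru

variable {F V : Type} [Field F] [Fintype F] [AddCommGroup V] [Module F V] (S : Un F V)

theorem σσ (x : F) : S.σ (S.σ x) = x := by
  rw [S.hσ, S.hσ, ← pow_mul, ← pow_two, ← S.hF, FiniteField.pow_card]

/-- `c` at `i`, `σ(c)⁻¹` at the opposite index -/
def hh (i : Fin S.n) (c : Fˣ) : Fin S.n → Fˣ := Pi.mulSingle i c * Pi.mulSingle i.rev (c ^ S.q)⁻¹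

theorem hh_uni {i : Fin S.n} (hi : i ≠ i.rev) (c : Fˣ) (j : Fin S.n) :
    S.σ (hh S i c j) * hh S i c j.rev = 1 := by
  have e : (c : F) ^ S.q = S.σ c := (S.hσ _).symm
  by_cases h1 : j = i
  · subst h1
    simp [hh, hi, hi.symm, e]
  by_cases h2 : j = i.rev
  · subst h2
    simp [hh, hi, hi.symm, e, σσ]
  · have h3 : j.rev ≠ i := fun h => h2 (by rw [← h, Fin.rev_rev])
    have h4 : j.rev ≠ i.rev := fun h => h1 (Fin.rev_injective h)
    simp [hh, h1, h2, h3, h4]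

theorem hh_prod (i : Fin S.n) (c : Fˣ) : ∏ j, hh S i c j = c * (c ^ S.q)⁻¹ := by
  simp [hh, Finset.prod_mul_distrib]

theorem hh_mem {i k : Fin S.n} (hi : i ≠ i.rev) (hk : k ≠ k.rev) (c : Fˣ) :
    hh S i c * hh S k c⁻¹ ∈ S.Tor := by
  refine ⟨fun j => ?_, ?_⟩
  · simp only [Pi.mul_apply, Units.val_mul, map_mul]
    linear_combination (S.σ (hh S k c⁻¹ j) * hh S k c⁻¹ j.rev) * hh_uni S hi c j + hh_uni S hk c⁻¹ j
  · simp only [Pi.mul_apply, Finset.prod_mul_distrib, hh_prod]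
    rw [mul_mul_mul_comm]
    simp

/-- the first root -/
def al : S.Tor →* Fˣ := MonoidHom.mk' (fun t => t.1 S.i0 / t.1 S.i1) fun a b => by
  simp only [Subgroup.coe_mul, Pi.mul_apply]
  exact (div_mul_div_comm _ _ _ _).symm

/-- the third index -/
def i2 : Fin S.n := ⟨2, by have := S.hn; omega⟩

theorem n0 : S.i0 ≠ S.i0.rev := by
  have := S.hn
  simp only [Un.i0, Ne, Fin.ext_iff, Fin.val_rev]; omega

theorem n1 : S.i1 ≠ S.i1.rev := by
  have := S.hn
  simp only [Un.i1, Ne, Fin.ext_iff, Fin.val_rev]; omega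

theorem n2 : i2 S ≠ (i2 S).rev := by
  have := S.hn
  simp only [i2, Ne, Fin.ext_iff, Fin.val_rev]; omega

theorem al_surj : Function.Surjective (al S) := fun c =>
  ⟨⟨_, hh_mem S (n0 S) (n2 S) c⟩, by
    have := S.hn
    have a : ∀ i j : Fin S.n, i.val ≠ j.val → ∀ x : Fˣ, (Pi.mulSingle j x : Fin S.n → Fˣ) i = 1 :=
      fun i j h x => Pi.mulSingle_eq_of_ne (M := fun _ => Fˣ) (fun e => h (congrArg Fin.val e)) x
    change (hh S S.i0 c * hh S (i2 S) c⁻¹) S.i0 / (hh S S.i0 c * hh S (i2 S) c⁻¹) S.i1 = c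
    simp only [hh, Pi.mul_apply, Pi.mulSingle_eq_same]
    rw [a S.i0 S.i0.rev, a S.i0 (i2 S), a S.i0 (i2 S).rev, a S.i1 S.i0, a S.i1 S.i0.rev,
      a S.i1 (i2 S), a S.i1 (i2 S).rev]
    · simp
    all_goals simp only [Un.i0, Un.i1, i2, Fin.val_rev]; omega⟩

/-- indicator -/
def ind (j i : ℕ) : ℤ := if j = i then 1 else 0

theorem ind_spec (a b : ℕ) : (a = b ∧ ind a b = 1) ∨ (a ≠ b ∧ ind a b = 0) := by
  unfold ind
  split_ifs with h
  exacts [Or.inl ⟨h, rfl⟩, Or.inr ⟨h, rfl⟩]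

/-- the exponent -/
def ex (ε : ℤ) (i i' k k' j : ℕ) : ℤ := ind j i + ε * ind j i' - ind j k - ε * ind j k'

theorem ex_spec {ε : ℤ} (hε : ε = 1 ∨ ε = -1) {i i' k k' : ℕ} (h : [i, i', k, k'].Nodup) (j : ℕ) :
    (j = i ∧ ex ε i i' k k' j = 1) ∨ (j = i' ∧ ex ε i i' k k' j = ε) ∨
      (j = k ∧ ex ε i i' k k' j = -1) ∨ (j = k' ∧ ex ε i i' k k' j = -ε) ∨
      (j ≠ i ∧ j ≠ i' ∧ j ≠ k ∧ j ≠ k' ∧ ex ε i i' k k' j = 0) := by
  simp only [List.nodup_cons, List.mem_cons, List.not_mem_nil, or_false, not_or] at h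
  have := ind_spec j i; have := ind_spec j i'; have := ind_spec j k; have := ind_spec j k'
  unfold ex
  rcases hε with rfl | rfl <;> omega

theorem arith {ε : ℤ} (hε : ε = 1 ∨ ε = -1) {n u v : ℕ} (hn : 6 ≤ n) (h : v ≠ n - (u + 1))
    (k : ∀ i k, i < n → k < n → i ≠ n - (i + 1) → k ≠ n - (k + 1) → ∀ x,
      x = 2 * (ex ε i (n - (i + 1)) k (n - (k + 1)) 0 - ex ε i (n - (i + 1)) k (n - (k + 1)) 1) -
        (ex ε i (n - (i + 1)) k (n - (k + 1)) u - ex ε i (n - (i + 1)) k (n - (k + 1)) v) →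
      x = 0 ∨ 5 ≤ x ∨ x ≤ -5) : False := by
  have a1 := k 0 2 (by omega) (by omega) (by omega) (by omega) _ rfl
  have s1 := ex_spec hε (i := 0) (i' := n - (0 + 1)) (k := 2) (k' := n - (2 + 1)) (by simp; omega)
  have b1 : ex ε 0 (n - (0 + 1)) 2 (n - (2 + 1)) 0 = 1 := by have := s1 0; omega
  have b2 : ex ε 0 (n - (0 + 1)) 2 (n - (2 + 1)) 1 = 0 := by have := s1 1; omega
  have b3 := s1 u
  have b4 := s1 v
  rcases hε with rfl | rfl
  · have a2 := k 1 2 (by omega) (by omega) (by omega) (by omega) _ rfl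
    have s2 := ex_spec (Or.inl rfl) (i := 1) (i' := n - (1 + 1)) (k := 2) (k' := n - (2 + 1))
      (by simp; omega)
    have := s2 0; have := s2 1; have := s2 u; have := s2 v
    omega
  · have a2 := k 0 (n - 3) (by omega) (by omega) (by omega) (by omega) _ rfl
    have s2 := ex_spec (Or.inr rfl) (i := 0) (i' := n - (0 + 1)) (k := n - 3)
      (k' := n - (n - 3 + 1)) (by simp; omega)
    have := s2 0; have := s2 1; have := s2 u; have := s2 v
    omega

theorem lam_single (l : Fˣ →* ℂˣ) (i j : Fin S.n) (x : Fˣ) :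
    l ((Pi.mulSingle i x : Fin S.n → Fˣ) j) = l x ^ ind j.val i.val := by
  by_cases h : j = i
  · subst h; simp [ind]
  · rw [Pi.mulSingle_eq_of_ne h, ind, if_neg (fun e => h (Fin.ext e)), map_one, zpow_zero]

theorem c1 : C1Stmt := by
  intro F V _ _ _ _ _ S D hD r hr hrD
  classical
  by_cases h23 : r = 2 ∨ r = 3
  · refine ⟨r, h23, fun c => ?_⟩
    obtain ⟨s, rfl⟩ := al_surj S c
    exact ⟨s ^ r, hrD s, map_pow (al S) s r⟩
  have r5 : 5 ≤ r := by
    have := hr.two_le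
    have : r ≠ 4 := by rintro rfl; exact absurd hr (by decide)
    omega
  refine ⟨2, Or.inl rfl, fun c0 => ?_⟩
  by_contra hc
  obtain ⟨φ, hφ⟩ := CommGroup.exists_apply_ne_one_of_hasEnoughRootsOfUnity (Fˣ ⧸ D.map (al S)) ℂ
    (a := ((c0 ^ 2 : Fˣ) : Fˣ ⧸ D.map (al S))) (fun e => hc ((QuotientGroup.eq_one_iff _).1 e))
  let l : Fˣ →* ℂˣ := φ.comp (QuotientGroup.mk' _)
  have l1 : ∀ t ∈ D, l (al S t) = 1 := fun t ht => by
    change φ _ = 1
    rw [QuotientGroup.mk'_apply, (QuotientGroup.eq_one_iff _).2 (Subgroup.mem_map_of_mem _ ht),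
      map_one]
  obtain ⟨c, hc⟩ : ∃ c, l c ≠ 1 := ⟨_, hφ⟩
  clear_value l
  have lr : l c ^ r = 1 := by
    obtain ⟨s, rfl⟩ := al_surj S c
    rw [← map_pow, ← map_pow, l1 _ (hrD s)]
  have := Fact.mk hr
  have ord : orderOf (l c) = r := orderOf_eq_prime lr hc
  have small : ∀ x : ℤ, l c ^ x = 1 → x = 0 ∨ 5 ≤ x ∨ x ≤ -5 := fun x hx => by
    rw [← orderOf_dvd_iff_zpow_eq_one, ord] at hx
    by_contra! h
    exact h.1 (Int.eq_zero_of_abs_lt_dvd hx (abs_lt.2 ⟨by omega, by omega⟩))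
  obtain ⟨π, hπ, hp⟩ := hD (l.comp (al S)) (l.comp (al S) ^ 2)
    (fun e => by
      obtain ⟨s, rfl⟩ := al_surj S c
      exact hc (DFunLike.congr_fun e s))
    (fun e => by
      obtain ⟨s, rfl⟩ := al_surj S c
      have := small 2 (by exact_mod_cast DFunLike.congr_fun e s)
      omega)
    l1 (fun t ht => by rw [MonoidHom.pow_apply, MonoidHom.comp_apply, l1 t ht, one_pow])
  obtain ⟨ε, hε, he⟩ : ∃ ε : ℤ, (ε = 1 ∨ ε = -1) ∧ (l c ^ S.q)⁻¹ = l c ^ ε := by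
    have h1 : l c ^ (S.q ^ 2 - 1) = 1 := by
      rw [← map_pow, ← S.hF, ← Fintype.card_units, pow_card_eq_one, map_one]
    rw [← orderOf_dvd_iff_pow_eq_one, ord, show S.q ^ 2 - 1 = (S.q + 1) * (S.q - 1) from
      Nat.sq_sub_sq S.q 1, hr.dvd_mul, ← ord, orderOf_dvd_iff_pow_eq_one,
      orderOf_dvd_iff_pow_eq_one] at h1
    rcases h1 with h1 | h1
    · exact ⟨1, Or.inl rfl, by rw [zpow_one, inv_eq_iff_mul_eq_one, ← pow_succ, h1]⟩
    · refine ⟨-1, Or.inr rfl, ?_⟩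
      have := S.hq
      rw [zpow_neg_one, show S.q = S.q - 1 + 1 by omega, pow_succ, h1, one_mul]
  have val : ∀ i k j : Fin S.n, l ((hh S i c * hh S k c⁻¹) j) =
      l c ^ ex ε i (S.n - (i + 1)) k (S.n - (k + 1)) j := fun i k j => by
    simp only [hh, Pi.mul_apply, map_mul, lam_single, map_inv, map_pow, inv_pow, he, inv_inv,
      Fin.val_rev, ex]
    rw [← inv_inv (l c ^ S.q), he]
    group
  have hn := S.hn
  refine arith hε hn (u := π S.i0) (v := π S.i1) (fun e => ?_) fun i k hi hk hi' hk' x hx => ?_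
  · have : π S.i1 = π S.i0.rev := by rw [hπ]; exact Fin.ext (by rw [Fin.val_rev, e])
    have := congrArg Fin.val (π.injective this)
    simp only [Un.i0, Un.i1, Fin.val_rev] at this
    omega
  refine small x ?_
  have m := hh_mem S (i := ⟨i, hi⟩) (k := ⟨k, hk⟩) (fun e => hi' (congrArg Fin.val e))
    (fun e => hk' (congrArg Fin.val e)) c
  have := hp ⟨_, m⟩ ⟨fun j => (hh S ⟨i, hi⟩ c * hh S ⟨k, hk⟩ c⁻¹) (π j), fun j => by
    beta_reduce; rw [hπ]; exact m.1 _, (Equiv.prod_comp π _).trans m.2⟩ fun _ => rfl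
  change l (_ / _) ^ 2 = l (_ / _) at this
  rw [map_div, map_div, val, val, val, val, div_eq_mul_inv, div_eq_mul_inv, ← zpow_sub,
    ← zpow_sub, ← zpow_natCast, ← zpow_mul] at this
  rw [hx, zpow_sub, mul_comm (2 : ℤ), mul_inv_eq_one]
  exact this

end Cfsg.Agent.H61.RuC1
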