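import Cfsg.Agent.H56.SpDefs

/-! Project CY, chapter SP, piece P2. -/

set_option autoImplicit false

namespace Cfsg.Agent.H61.SpP2

open Subgroup MulAction Matrix Cfsg.Agent.H11.Cy Cfsg.Agent.H56.Sp

section
variable {F : Type} [Field F]

abbrev M2 (F : Type) := Matrix (Fin 2) (Fin 2) F
abbrev S2 (F : Type) [Field F] := Matrix.SpecialLinearGroup (Fin 2) F

theorem cm (s t : S2 F) : (s * t).1 = s.1 * t.1 := rfl

theorem scal {X : M2 F} (h : ∀ s : S2 F, X * s.1 = s.1 * X) : X = X 0 0 • 1 := by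
  have h1 := h ⟨!![1, 1; 0, 1], by simp [det_fin_two_of]⟩
  have h2 := h ⟨!![1, 0; 1, 1], by simp [det_fin_two_of]⟩
  have a := congrFun (congrFun h1 0) 0
  have b := congrFun (congrFun h1 0) 1
  have c := congrFun (congrFun h2 0) 0
  simp [mul_apply, Fin.sum_univ_two] at a b c
  ext i j
  fin_cases i <;> fin_cases j <;> simp [a, c]
  linear_combination -b

theorem ne0 {w : Fin 2 → F} (h : w ≠ 0) : w 0 ≠ 0 ∨ w 1 ≠ 0 := by
  by_contra! e
  exact h (funext fun i => by fin_cases i; exacts [e.1, e.2])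

theorem par {N : M2 F} (hN : N ≠ 0) {v w : Fin 2 → F} (hv : v ≠ 0) (h1 : N *ᵥ v = 0)
    (h2 : N *ᵥ w = 0) : ∃ l : F, w = l • v := by
  have d : v 0 * w 1 - v 1 * w 0 = 0 := by
    by_contra d
    refine hN (Matrix.ext fun i j => ?_)
    have a := congrFun h1 i
    have b := congrFun h2 i
    simp [mulVec, dotProduct, Fin.sum_univ_two] at a b
    fin_cases j
    · exact (mul_eq_zero.1 (show N i 0 * _ = 0 by
        linear_combination w 1 * a - v 1 * b)).resolve_right d
    · exact (mul_eq_zero.1 (show N i 1 * _ = 0 by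
        linear_combination v 0 * b - w 0 * a)).resolve_right d
  rcases ne0 hv with h | h
  · refine ⟨w 0 / v 0, funext fun i => ?_⟩
    fin_cases i <;> simp <;> field_simp
    linear_combination d
  · refine ⟨w 1 / v 1, funext fun i => ?_⟩
    fin_cases i <;> simp <;> field_simp
    linear_combination -d

theorem eig {M : M2 F} (tr : M 0 0 + M 1 1 = 0) {v : Fin 2 → F} (hv : v ≠ 0) {l : F}
    (h : M *ᵥ v = l • v) : -M.det = l * l := by
  have a := congrFun h 0
  have b := congrFun h 1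
  simp [mulVec, dotProduct, Fin.sum_univ_two] at a b
  rw [det_fin_two]
  rcases ne0 hv with h | h
  · exact mul_right_cancel₀ h (by linear_combination (l - M 1 1) * a + M 0 1 * b - l * v 0 * tr)
  · exact mul_right_cancel₀ h (by linear_combination (l - M 0 0) * b + M 1 0 * a - l * v 1 * tr)

theorem trans {v : Fin 2 → F} (hv : v ≠ 0) : ∃ t : S2 F, t.1 *ᵥ ![1, 0] = v := by
  rcases ne0 hv with h | h
  · exact ⟨⟨!![v 0, 0; v 1, (v 0)⁻¹], by simp [det_fin_two_of, h]⟩, by
      ext i; fin_cases i <;> simp⟩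
  · exact ⟨⟨!![v 0, -(v 1)⁻¹; v 1, 0], by simp [det_fin_two_of, h]⟩, by
      ext i; fin_cases i <;> simp⟩

theorem comm {w : Fin 2 → F} (hw : w ≠ 0) {s s' : S2 F} (h : s • w = w) (h' : s' • w = w) :
    s * s' = s' * s := by
  obtain ⟨t, ht⟩ := trans hw
  have ht' : t • (![1, 0] : Fin 2 → F) = w := ht
  have k : ∀ s : S2 F, s • w = w → ∃ b, (t⁻¹ * s * t).1 = !![1, b; 0, 1] := fun s h => by
    have e : (t⁻¹ * s * t) • (![1, 0] : Fin 2 → F) = ![1, 0] := by
      rw [mul_smul, mul_smul, ht', h, ← ht', inv_smul_smul]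
    generalize t⁻¹ * s * t = u at e
    have e' : u.1 *ᵥ ![1, 0] = ![1, 0] := e
    have a := congrFun e' 0
    have b := congrFun e' 1
    have d := u.2
    simp [mulVec, dotProduct, Fin.sum_univ_two] at a b
    rw [det_fin_two, a, b, one_mul, mul_zero, sub_zero] at d
    exact ⟨u.1 0 1, by ext i j; fin_cases i <;> fin_cases j <;> simp [a, b, d]⟩
  obtain ⟨b, e⟩ := k s h
  obtain ⟨b', e'⟩ := k s' h'
  have : t⁻¹ * s * t * (t⁻¹ * s' * t) = t⁻¹ * s' * t * (t⁻¹ * s * t) := Subtype.ext (by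
    rw [cm, cm (t⁻¹ * s' * t), e, e']
    simp [add_comm])
  simpa [← mul_assoc] using (by simpa [mul_assoc] using this : s * (s' * t) = s' * (s * t))

theorem fixv {p : ℕ} [Fact p.Prime] [CharP F p] {s : S2 F} (h : s ^ p = 1) :
    ∃ v : Fin 2 → F, v ≠ 0 ∧ s • v = v := by
  classical
  have h1 : (s.1 - 1) ^ p = 0 := by
    have e : s.1 ^ p = 1 := congrArg Subtype.val h
    rw [sub_pow_char_of_commute _ (Commute.one_right _), e, one_pow, sub_self]
  have h2 := congrArg det h1
  rw [det_pow, det_zero] at h2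
  obtain ⟨v, hv, e⟩ := exists_mulVec_eq_zero_iff.2 (pow_eq_zero_iff (Fact.out : p.Prime).ne_zero |>.1 h2)
  rw [sub_mulVec, one_mulVec, sub_eq_zero] at e
  exact ⟨v, hv, e⟩

theorem logic [Fintype F] (h2 : ringChar F ≠ 2) {d : F} (hd : d ≠ 0) :
    ¬ IsSquare (-d) ↔ (IsSquare d ↔ ¬ IsSquare (-1 : F)) := by
  classical
  rw [← quadraticChar_neg_one_iff_not_isSquare, ← quadraticChar_neg_one_iff_not_isSquare,
    ← quadraticChar_one_iff_isSquare hd, ← neg_one_mul, map_mul]
  rcases quadraticChar_dichotomy hd with h | h <;>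
    rcases quadraticChar_dichotomy (F := F) (neg_ne_zero.2 one_ne_zero) with h' | h' <;> simp [h, h']

end

theorem p2 : P2Stmt' := by
  classical
  intro G _ _ Ω _ _ p A st p2 ep x y xy lf ⟨F, _, _, e, hF, co⟩ g ⟨gN, g2, gK⟩
  have := Fact.mk st.pp
  have : CharP F p := charP_of_card_eq_prime hF
  obtain ⟨M, hM, h⟩ := co g gN
  let c : Fl A x y → Fl A x y := fun f => ⟨g * f * g⁻¹, (mem_normalizer_iff.1 gN f).1 f.2⟩
  have hc : ∀ f, M * (e f).1 = (e (c f)).1 * M := fun f => h f (c f) rfl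
  have uM := (isUnit_iff_isUnit_det M).2 (Ne.isUnit hM)
  have fk : FK A x y g ↔ IsSquare M.det := by
    constructor
    · rintro ⟨f0, hf0, k, hk, rfl⟩
      have := scal (X := (e ⟨f0, hf0⟩⁻¹).1 * M) fun s => by
        obtain ⟨f, rfl⟩ := e.surjective s
        rw [mul_assoc, hc, ← mul_assoc, ← mul_assoc, ← cm, ← cm, ← map_mul, ← map_mul]
        congr 3
        refine Subtype.ext ?_
        change f0⁻¹ * (f0 * k * f * (f0 * k)⁻¹) = f * f0⁻¹
        rw [mul_assoc f0 k, ← mem_centralizer_iff.1 hk f f.2]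
        group
      have h1 := congrArg det this
      rw [det_mul, (e ⟨f0, hf0⟩⁻¹).2, one_mul, det_smul, det_one, mul_one,
        Fintype.card_fin, pow_two] at h1
      exact ⟨_, h1⟩
    · rintro ⟨r, hr⟩
      have r0 : r ≠ 0 := fun e => hM (by rw [hr, e, mul_zero])
      obtain ⟨f0, h0⟩ := e.surjective ⟨r⁻¹ • M, by
        rw [det_smul, Fintype.card_fin, hr]; field_simp⟩
      refine ⟨f0, f0.2, (f0 : G)⁻¹ * g, mem_centralizer_iff.2 fun f hf => ?_, by group⟩
      have h1 : f0 * ⟨f, hf⟩ = c ⟨f, hf⟩ * f0 := e.injective (Subtype.ext (by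
        rw [map_mul, map_mul, cm, cm, h0]
        change r⁻¹ • M * _ = _ * r⁻¹ • M
        rw [smul_mul_assoc, hc, mul_smul_comm]))
      have h2 : (f0 : G) * f = g * f * g⁻¹ * f0 := congrArg Subtype.val h1
      calc f * ((f0 : G)⁻¹ * g) = (f0 : G)⁻¹ * (f0 * f) * (f0 : G)⁻¹ * g := by group
        _ = _ := by rw [h2]; group
  have tr : M 0 0 + M 1 1 = 0 := by
    by_contra tr
    have h1 := scal (X := M * M) fun s => by
      obtain ⟨f, rfl⟩ := e.surjective s
      have : c (c f) = f := Subtype.ext (by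
        change g * (g * f * g⁻¹) * g⁻¹ = f
        rw [show g * (g * f * g⁻¹) * g⁻¹ = g * g * f * (g * g)⁻¹ by group,
          ← mem_centralizer_iff.1 g2 f f.2, mul_inv_cancel_right])
      rw [mul_assoc, hc, ← mul_assoc, hc, this, mul_assoc]
    have a := congrFun (congrFun h1 0) 1
    have b := congrFun (congrFun h1 1) 0
    have d := congrFun (congrFun h1 1) 1
    simp [mul_apply, Fin.sum_univ_two] at a b d
    have a' : M 0 1 = 0 := mul_right_cancel₀ tr (by linear_combination a)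
    have b' : M 1 0 = 0 := mul_right_cancel₀ tr (by linear_combination b)
    have d' : M 1 1 = M 0 0 := mul_right_cancel₀ tr (by linear_combination d)
    have hs : M = M 0 0 • 1 := by
      ext i j
      fin_cases i <;> fin_cases j <;> simp [a', b', d']
    refine gK (mem_centralizer_iff.2 fun f hf => ?_)
    have h2 := hc ⟨f, hf⟩
    rw [show M * (e ⟨f, hf⟩).1 = (e ⟨f, hf⟩).1 * M by rw [hs]; simp, uM.mul_left_inj] at h2
    exact mul_eq_of_eq_mul_inv (by
      have : f = g * f * g⁻¹ := congrArg Subtype.val (e.injective (Subtype.ext h2))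
      exact this)
  have ex : ∀ w ∈ Ln A x y, ∃ a : Fl A x y, (a : G) ∈ A w ∧ (a : G) ≠ 1 ∧
      ∃ v : Fin 2 → F, v ≠ 0 ∧ e a • v = v := fun w hw => by
    obtain ⟨a, ha, a1⟩ : ∃ a ∈ A w, a ≠ 1 := (A w).bot_or_exists_ne_one.resolve_left fun e => by
      have := st.card w
      rw [e, card_bot] at this
      exact st.pp.one_lt.ne this
    refine ⟨⟨a, hw ha⟩, ha, a1, fixv (p := p) ?_⟩
    rw [← map_pow, map_eq_one_iff _ e.injective]
    have := pow_card_eq_one' (x := (⟨a, ha⟩ : A w))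
    rw [st.card] at this
    exact Subtype.ext (congrArg (fun b : A w => b.1) this)
  have mv : ∀ f v, e f • v = v → e (c f) • (M *ᵥ v) = M *ᵥ v := fun f v hv => by
    change (e (c f)).1 *ᵥ _ = _
    rw [mulVec_mulVec, ← hc, ← mulVec_mulVec]
    exact congrArg _ hv
  have fp : Fp A x y g ↔ ¬ IsSquare (-M.det) := by
    constructor
    · rintro hf ⟨l, hl⟩
      obtain ⟨w, w0, hw⟩ := exists_mulVec_eq_zero_iff.2 (show (M - l • 1).det = 0 by
        rw [det_fin_two] at hl ⊢
        simp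
        linear_combination -hl - l * tr)
      rw [sub_mulVec, sub_eq_zero, smul_mulVec, one_mulVec] at hw
      have l0 : l ≠ 0 := fun e => hM (by rw [← neg_eq_zero, hl, e, mul_zero])
      obtain ⟨a, ha, a1, v, v0, hv⟩ := ex x lf.mem.1
      obtain ⟨t, ht⟩ := trans v0
      obtain ⟨t', ht'⟩ := trans w0
      obtain ⟨f, hf'⟩ := e.surjective (t' * t⁻¹)
      have h1 : e f • v = w := by
        rw [hf', mul_smul, ← ht, ← ht']
        exact congrArg _ (inv_smul_smul t _)
      have h2 : e (f * a * f⁻¹) • w = w := by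
        rw [map_mul, map_mul, map_inv, mul_smul, mul_smul, ← h1, inv_smul_smul, hv]
      have h3 := mv _ _ h2
      rw [hw, smul_comm] at h3
      have h4 := comm w0 (smul_right_injective _ l0 h3) h2
      rw [← map_mul, ← map_mul] at h4
      have h5 : g * (f * a * (f : G)⁻¹) * g⁻¹ * (f * a * (f : G)⁻¹) =
          f * a * (f : G)⁻¹ * (g * (f * a * (f : G)⁻¹) * g⁻¹) := congrArg Subtype.val (e.injective h4)
      have m1 := st.eqv f x a ha
      have n1 : (f : G) * a * (f : G)⁻¹ ≠ 1 := fun e => a1 (conj_eq_one_iff.1 e)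
      have hl' := (ep.nrm x y xy f).1 (le_normalizer f.2) x lf.mem.1
      generalize (f : G) * a * (f : G)⁻¹ = b at h5 m1 n1
      generalize (f : G) • x = z at m1 hl'
      have h6 := (st.semi z ((g * b * g⁻¹) • z) b m1 (by
        rw [← mul_smul, ← h5, mul_smul, st.fix z b m1])).resolve_left n1
      exact hf z hl' ((st.semi _ z _ (st.eqv g z b m1) h6).resolve_left
        fun e => n1 (conj_eq_one_iff.1 e)).symm
    · intro hn w hw hg
      obtain ⟨a, ha, a1, v, v0, hv⟩ := ex w hw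
      have hb : g * a * g⁻¹ ∈ A w := hg ▸ st.eqv g w a ha
      obtain ⟨k, hk⟩ := mem_powers_of_prime_card (st.card w) (g := ⟨a, ha⟩) (g' := ⟨_, hb⟩)
        fun e => a1 (congrArg Subtype.val e)
      have h1 : c a = a ^ k := Subtype.ext (congrArg (fun b : A w => b.1) hk).symm
      have h2 : e (c a) • v = v := by
        rw [h1, map_pow]
        exact pow_mem (mem_stabilizer_iff.2 hv) k
      have sub : ∀ u, e (c a) • u = u → ((e (c a)).1 - 1) *ᵥ u = 0 := fun u hu => by
        rw [sub_mulVec, one_mulVec, sub_eq_zero]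
        exact hu
      obtain ⟨l, hl⟩ := par (fun h0 => a1 (conj_eq_one_iff.1 (congrArg Subtype.val
        ((map_eq_one_iff e e.injective).1 (Subtype.ext (sub_eq_zero.1 h0)))))) v0 (sub _ h2)
        (sub _ (mv a v hv))
      exact hn ⟨l, eig tr v0 hl⟩
  rw [fp, fk, logic (by rwa [ringChar.eq F p]) hM, FiniteField.isSquare_neg_one_iff, hF, not_not]

end Cfsg.Agent.H61.SpP2
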