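import Cfsg.Agent.H58.SWDefs

/-! Project SW, piece EBD. -/

set_option autoImplicit false
open Matrix Cfsg
open scoped commutatorElement

namespace Cfsg.Agent.H61.SwEbd

open Cfsg.Agent.H58.SW

open scoped IsMulCommutative in
theorem efld : EFldStmt := by
  intro F _ _ _ n c r H Q L d δ E A h ab fld sc cm
  have : Nonempty (Fin n) := ⟨⟨0, by have := c.hn; omega⟩⟩
  have hm : ∀ x ∈ spanG A, ∀ y ∈ spanG A, x * y ∈ spanG A ∧ x * y = y * x := by
    intro x hx y hy
    induction hx, hy using Submodule.span_induction₂ with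
    | mem_mem x y hx hy =>
      obtain ⟨a, ha, rfl⟩ := hx
      obtain ⟨b, hb, rfl⟩ := hy
      exact ⟨Submodule.subset_span ⟨a * b, mul_mem ha hb, rfl⟩, congrArg Units.val (ab a ha b hb).eq⟩
    | zero_left y hy => simp
    | zero_right x hx => simp
    | add_left x y z _ _ _ h1 h2 => exact ⟨add_mul x y z ▸ add_mem h1.1 h2.1, by
        rw [add_mul, mul_add, h1.2, h2.2]⟩
    | add_right x y z _ _ _ h1 h2 => exact ⟨mul_add x y z ▸ add_mem h1.1 h2.1, by
        rw [add_mul, mul_add, h1.2, h2.2]⟩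
    | smul_left a x y _ _ h1 => exact ⟨smul_mul_assoc a x y ▸ Submodule.smul_mem _ a h1.1, by
        rw [smul_mul_assoc, mul_smul_comm, h1.2]⟩
    | smul_right a x y _ _ h1 => exact ⟨mul_smul_comm a x y ▸ Submodule.smul_mem _ a h1.1, by
        rw [smul_mul_assoc, mul_smul_comm, h1.2]⟩
  let K : Subalgebra F (Mt n F) := (spanG A).toSubalgebra (Submodule.subset_span ⟨1, one_mem A, rfl⟩)
    fun x y hx hy => (hm x hx y hy).1
  have : IsMulCommutative K := ⟨⟨fun a b => Subtype.ext (hm _ a.2 _ b.2).2⟩⟩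
  have : NoZeroDivisors K := ⟨fun {a b} e => by
    rcases fld a a.2 with e1 | ⟨a', ha', e1⟩
    · exact Or.inl (Subtype.ext e1)
    · refine Or.inr (Subtype.ext ?_)
      have e2 : (a : Mt n F) * b = 0 := congrArg Subtype.val e
      rw [← one_mul (b : Mt n F), ← e1, (hm _ a.2 _ ha').2, mul_assoc, e2, mul_zero]
      rfl⟩
  have : IsDomain K := NoZeroDivisors.to_isDomain K
  let f : E →* K :=
    { toFun x := ⟨(x : Gl n F), sc _ fun a ha => congrArg Units.val (cm x x.2 a ha).eq⟩
      map_one' := rfl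
      map_mul' _ _ := rfl }
  have : IsCyclic E := isCyclic_of_injective_ringHom f fun x y e =>
    Subtype.ext (Units.ext (congrArg Subtype.val e))
  have : IsCyclic (E ⧸ c.Z.subgroupOf E) :=
    isCyclic_of_surjective (QuotientGroup.mk' _) (QuotientGroup.mk'_surjective _)
  have h1 : Nat.card (E ⧸ c.Z.subgroupOf E) ∣ r := by
    rw [← IsCyclic.exponent_eq_card]
    refine Monoid.exponent_dvd_of_forall_pow_eq_one fun g => ?_
    obtain ⟨x, rfl⟩ := QuotientGroup.mk_surjective g
    rw [← QuotientGroup.mk_pow, QuotientGroup.eq_one_iff]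
    exact h.pw x x.2
  exact h.lo.not_ge (Nat.le_of_dvd L.prime.pos h1)

theorem ebd (hKA : KAStmt) (hKT : KTStmt) (hO : OrdStmt) : EBdStmt := by
  intro F _ _ _ n c r H Q L d δ h
  have ka := hKA F n c
  have kt := hKT F n c
  have pz : ∀ ψ ∈ H, ∀ z ∈ c.Z, ψ z ∈ c.Z := fun ψ hψ z hz => (kt.pres ψ (L.std ψ hψ) z).2.2.2 hz
  let C : Subgroup (Au n F) :=
    { carrier := {ψ | ψ ∈ H ∧ ∀ x ∈ Q, ψ x * x⁻¹ ∈ c.Z}
      one_mem' := ⟨one_mem _, fun x _ => by simp⟩
      mul_mem' := fun {a b} ha hb => ⟨mul_mem ha.1 hb.1, fun x hx => by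
        simpa [mul_assoc] using mul_mem (pz a ha.1 _ (hb.2 x hx)) (ha.2 x hx)⟩
      inv_mem' := fun {a} ha => ⟨inv_mem ha.1, fun x hx => by
        simpa using inv_mem (pz _ (inv_mem ha.1) _ (ha.2 x hx))⟩ }
  have h1 : c.hat C ≤ Q := fun a ha =>
    have ha' := (ka.mem_hat C a).1 ha
    L.chr _ le_rfl (kt.hatinv H L.std) a ((ka.mem_hat H a).2 ⟨ha'.1, ha'.2.1⟩)
      fun x hx => ha'.2.2 x hx.1
  have h2 := (hO F n c).1 C fun ψ hψ => L.std ψ hψ.1
  have h3 := (c.Z.subgroupOf Q).card_mul_index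
  rw [Nat.card_congr (Subgroup.subgroupOfEquivOfLe L.zq).toEquiv, ka.card_Z] at h3
  have h4 : 0 < c.zc := ka.card_Z ▸ Nat.card_pos
  refine h.bd.trans (Nat.mul_le_mul_left _ (Nat.le_of_mul_le_mul_right (c := c.zc) ?_ h4))
  refine h2.trans ?_
  rw [mul_assoc]
  refine Nat.mul_le_mul_left _ ((Subgroup.card_le_of_le h1).trans ?_)
  rw [← h3, mul_comm]
  exact Nat.mul_le_mul_right _ h.hi

theorem sub {F : Type} [Field F] [Fintype F] (K : Subfield F) :
    K = ⊤ ∨ Nat.card K ^ 2 ≤ Fintype.card F := by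
  have h := Module.natCard_eq_pow_finrank (K := K) (V := F)
  have h0 : 0 < Module.finrank K F := Module.finrank_pos
  rcases Nat.lt_or_ge (Module.finrank K F) 2 with h1 | h1
  · rw [show Module.finrank K F = 1 by omega, pow_one] at h
    exact Or.inl (SetLike.coe_injective (Set.eq_univ_of_forall fun x =>
      (K.toAddSubgroup.eq_top_of_card_eq h.symm).ge trivial))
  · rw [← Nat.card_eq_fintype_card, h]
    exact Or.inr (Nat.pow_le_pow_right Nat.card_pos h1)

theorem dm1b (hKA : KAStmt) (hKT : KTStmt) (hD : DelKStmt) : Dm1BStmt := by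
  intro F _ _ _ n c r H Q L hr δ t del ind hz
  have ka := hKA F n c
  have kt := hKT F n c
  have : Nonempty (Fin n) := ⟨⟨0, by have := c.hn; omega⟩⟩
  obtain ⟨d1, -, d3, -⟩ := hD F n c r H δ t L.prime del ind
  have inj : ∀ a b : F, a • (1 : Mt n F) = b • 1 → a = b := fun a b e =>
    smul_left_injective F one_ne_zero e
  cases hn : t.neg
  · exfalso
    have h1 : ∀ a, c.ZV a → t.σ a = a := fun a ha => by
      obtain ⟨z, hz1, e⟩ := ka.ex_Z a ha
      have := ind.2.2 z
      rw [hz z hz1, hn, if_neg Bool.false_ne_true, e, kt.smul, kt.one] at this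
      exact (inj _ _ this).symm
    let K : Subfield F := t.σ.toRingHom.eqLocusField (RingHom.id F)
    have h2 : c.zc ≤ Nat.card K := ka.card_ZV ▸ Nat.card_le_card_of_injective
      (fun a => ⟨a.1, h1 a.1 a.2⟩) fun a b e => Subtype.ext (congrArg (fun x : K => x.1) e)
    cases hu : c.u
    · refine d3 hn (RingEquiv.ext fun a => ?_)
      by_cases e : a = 0
      · rw [e, map_zero, map_zero]
      · exact h1 a ⟨e, by simp [hu]⟩
    · rcases sub K with e | e
      · exact d3 hn (RingEquiv.ext fun a => (e.ge (Subfield.mem_top a) : a ∈ K))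
      · rw [c.hq, if_pos hu, pow_le_pow_iff_left₀ (Nat.zero_le _) (Nat.zero_le _) two_ne_zero] at e
        rw [Cl.zc, if_pos hu] at h2
        omega
  · have hu := (ind.2.1 hn).1
    have h1 : ∀ a, a ≠ 0 → t.σ a * a = 1 := fun a ha => by
      obtain ⟨z, hz1, e⟩ := ka.ex_Z a ⟨ha, by simp [hu]⟩
      obtain ⟨b, -, e'⟩ := (ka.mem_Z _).1 (inv_mem hz1)
      have := ind.2.2 z
      rw [hz z hz1, hn, if_pos rfl, e, e', kt.smul, kt.one] at this
      have h2 : b * a = 1 := inj _ _ (by
        have h3 := z.inv_mul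
        rwa [e, e', smul_mul_smul_comm, mul_one, ← one_smul F (1 : Mt n F), smul_smul, mul_one] at h3)
      have h3 := congrArg t.σ h2
      rwa [map_mul, map_one, ← inj _ _ this, mul_comm] at h3
    have := c.chr
    have two : (2 : F) ≠ 0 := fun e => hr ((d1 hn).trans ((Nat.prime_dvd_prime_iff_eq c.hp
      Nat.prime_two).1 ((CharP.cast_eq_zero_iff F c.p 2).1 e)).symm)
    have three : (3 : F) = 0 := by
      have := h1 2 two
      rw [map_ofNat] at this
      linear_combination this
    have h2 : ∀ a : F, a = 0 ∨ a = 1 ∨ a = -1 := fun a => by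
      by_contra! h
      have e1 := h1 a h.1
      have e2 := h1 (a + 1) fun e => h.2.2 (eq_neg_of_add_eq_zero_left e)
      rw [map_add, map_one] at e2
      exact h.2.1 (sub_eq_zero.1 (pow_eq_zero_iff two_ne_zero |>.1
        (by linear_combination a * e2 - (a + 1) * e1 - a * three)))
    refine ⟨hu, ?_, rfl, RingEquiv.ext fun a => ?_⟩
    · have := c.hq
      rw [hu, if_neg Bool.false_ne_true] at this
      rw [← this, ← Finset.card_univ, Finset.card_eq_three]
      refine ⟨0, 1, -1, zero_ne_one, by simp, fun e => two (by linear_combination e), ?_⟩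
      ext a
      simpa using h2 a
    · rcases h2 a with rfl | rfl | rfl <;> simp

open Polynomial in
theorem card10 {F : Type} [Field F] [Fintype F] (σ : F ≃+* F)
    (h : ∀ l, l ≠ 0 → σ l * l * (σ l * l) = 1) : Fintype.card F ≤ 10 := by
  let P : F[X] := X * (X + 1) * (X ^ 2 + X + 1) * (X ^ 2 + 3 * X + 1) * (X ^ 2 - X - 1) * (X ^ 2 + X - 1)
  have h1 : P.Monic := by
    simp only [P]
    monicity!
  have h2 : P.natDegree ≤ 10 := by
    simp only [P]
    compute_degree
  by_contra! h3
  refine h1.ne_zero (eq_zero_of_natDegree_lt_card_of_eval_eq_zero P Function.injective_id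
    (fun l => ?_) (h2.trans_lt h3))
  simp only [P, id, eval_mul, eval_add, eval_sub, eval_pow, eval_X, eval_one, eval_ofNat, mul_eq_zero]
  by_cases e0 : l = 0
  · simp [e0]
  by_cases e1 : l + 1 = 0
  · simp [e1]
  have a2 := h _ e1
  rw [map_add, map_one] at a2
  rcases mul_self_eq_one_iff.1 (h l e0) with a | a <;> rcases mul_self_eq_one_iff.1 a2 with b | b
  · exact Or.inl (Or.inl (Or.inl (Or.inr (by linear_combination l * b - (l + 1) * a))))
  · exact Or.inl (Or.inl (Or.inr (by linear_combination l * b - (l + 1) * a)))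
  · exact Or.inl (Or.inr (by linear_combination l * b - (l + 1) * a))
  · exact Or.inr (by linear_combination l * b - (l + 1) * a)

theorem dm1c (hKA : KAStmt) (hKT : KTStmt) (hD : DelKStmt) (hS : StabStmt) : Dm1CStmt := by
  intro F _ _ _ n c r H Q L hr δ E del blk hn
  subst hn
  have ka := hKA F 2 c
  have kt := hKT F 2 c
  have hu := (c.hn2 rfl).1
  obtain ⟨t, ind⟩ := L.std δ del.dH
  have hn : t.neg = false := by
    cases h : t.neg
    · rfl
    · exact absurd (ind.2.1 h).2 (by omega)
  have d3 := (hD F 2 c r H δ t L.prime del ind).2.2.1 hn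
  obtain ⟨e, he, e', he', ne⟩ := Finset.one_lt_card.1 blk.two
  have ee := blk.fam.idem e he
  have e0 := blk.fam.ne0 e he
  have f0 : 1 - e ≠ 0 := fun h => blk.fam.ne0 e' he' (by
    rw [← one_mul e', sub_eq_zero.1 h, blk.fam.orth e he e' he' ne])
  have dz : ∀ x y : Mt 2 F, x * y = 0 → y ≠ 0 → x.det = 0 := fun x y h hy => by
    by_contra hx
    exact hy (((isUnit_iff_isUnit_det x).2 (Ne.isUnit hx)).mul_right_eq_zero.1 h)
  have ef : e * (1 - e) = 0 := by rw [mul_sub, mul_one, ee, sub_self]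
  have fe : (1 - e) * e = 0 := by rw [sub_mul, one_mul, ee, sub_self]
  have ff : (1 - e) * (1 - e) = 1 - e := by rw [sub_mul, one_mul, ef, sub_zero]
  have key : ∀ l m : F, l * m = 1 → ∃ a : F, t.σ l • t.ap e + t.σ m • (1 - t.ap e) =
      (a * l) • e + (a * m) • (1 - e) := fun l m hl => by
    have hd : (l • e + m • (1 - e)).det = 1 := by
      have h1 := dz _ _ ef f0
      have h2 := dz _ _ fe e0
      rw [det_fin_two] at h1 h2 ⊢
      simp at h2 ⊢
      linear_combination (l ^ 2 - l * m) * h1 + (m ^ 2 - l * m) * h2 + hl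
    let y : Gl 2 F := GeneralLinearGroup.mkOfDetNeZero _ (hd ▸ one_ne_zero)
    have hy : (y : Mt 2 F) = l • e + m • (1 - e) := rfl
    have yH := hS F 2 c r H Q L E blk y ((ka.mem_S y).2 ⟨(ka.mem_St y).2 (by simp [hu]), hd⟩)
      fun g hg => by
        have c1 : e * g = g * e := by
          by_cases h : e = g
          · rw [h]
          · rw [blk.fam.orth e he g hg h, blk.fam.orth g hg e he (Ne.symm h)]
        have c2 : (y : Mt 2 F) * g = g * y := by
          simp [hy, add_mul, mul_add, sub_mul, mul_sub, c1]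
        rwa [cj, c2, Units.mul_inv_cancel_right]
    obtain ⟨a, -, ha⟩ := (ka.mem_Z _).1 (del.cen y yH)
    have h1 := ind.2.2 y
    rw [hn, if_neg Bool.false_ne_true, ← inv_mul_cancel_right (δ y) y, Units.val_mul, ha, hy, kt.add,
      kt.smul, kt.smul, kt.sub, kt.one, smul_one_mul, smul_add, smul_smul, smul_smul] at h1
    exact ⟨a, h1.symm⟩
  have ge := blk.inv δ del.dH t ind e he
  have hq := c.hq
  rw [hu, if_neg Bool.false_ne_true] at hq
  by_cases hg : t.ap e = e
  · have h1 : ∀ l : F, t.σ l * t.σ l = l * l := fun l => by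
      by_cases l0 : l = 0
      · simp [l0]
      obtain ⟨a, ha⟩ := key l l⁻¹ (mul_inv_cancel₀ l0)
      rw [hg] at ha
      have a1 := congrArg (e * ·) ha
      have a2 := congrArg ((1 - e) * ·) ha
      simp only [mul_add, mul_smul_comm, ee, ef, fe, ff, smul_zero, add_zero, zero_add] at a1 a2
      have b1 := smul_left_injective F e0 a1
      have b2 := smul_left_injective F f0 a2
      have b3 : t.σ l * t.σ l⁻¹ = 1 := by rw [← map_mul, mul_inv_cancel₀ l0, map_one]
      rw [b1, b2] at b3
      rw [b1]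
      linear_combination (l * l) * b3 - a * a * l * l * mul_inv_cancel₀ l0
    refine absurd (RingEquiv.ext fun l => ?_) d3
    have h2 := h1 (l + 1)
    rw [map_add, map_one] at h2
    change t.σ l = l
    by_cases two : (2 : F) = 0
    · exact sub_eq_zero.1 (pow_eq_zero_iff two_ne_zero |>.1
        (by linear_combination h1 l + (l * l - l * t.σ l) * two))
    · exact mul_left_cancel₀ two (by linear_combination h2 - h1 l)
  · have h1 := card10 t.σ fun l l0 => by
      obtain ⟨a, ha⟩ := key l l⁻¹ (mul_inv_cancel₀ l0)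
      have o1 := blk.fam.orth _ ge e he hg
      have gg := blk.fam.idem _ ge
      have a1 := congrArg (· * e) ha
      have a2 := congrArg (t.ap e * ·) ha
      simp only [mul_add, add_mul, mul_smul_comm, smul_mul_assoc, mul_sub, sub_mul, mul_one, one_mul,
        ee, o1, gg, smul_zero, add_zero, zero_add, sub_self, sub_zero] at a1 a2
      have b1 := smul_left_injective F e0 a1
      have b2 := smul_left_injective F (blk.fam.ne0 _ ge) a2
      have b3 : t.σ l * t.σ l⁻¹ = 1 := by rw [← map_mul, mul_inv_cancel₀ l0, map_one]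
      rw [b1, b2] at b3
      rw [b2]
      linear_combination b3 + a * a * l * l⁻¹ * mul_inv_cancel₀ l0
    obtain ⟨f, -, hf⟩ := ka.qp
    have : c.q ≠ 10 := fun h => by
      rw [h] at hf
      have p2 := (Nat.prime_dvd_prime_iff_eq Nat.prime_two c.hp).1
        (Nat.prime_two.dvd_of_dvd_pow (hf ▸ (by norm_num : 2 ∣ 10)))
      have p5 := (Nat.prime_dvd_prime_iff_eq Nat.prime_five c.hp).1
        (Nat.prime_five.dvd_of_dvd_pow (hf ▸ (by norm_num : 5 ∣ 10)))
      omega
    omega

end Cfsg.Agent.H61.SwEbd
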